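-- helper21: Bender-style uniqueness for maximal subgroups whose Fitting subgroup has two primes
import Mathlib
import Cfsg.Prelude.Def_OddOrderLocal
import Cfsg.Prelude.Def_OddOrder
import Cfsg.Agent.S1312
import Cfsg.Agent.S0028
import Cfsg.Agent.Helper14.Comm

set_option autoImplicit false

namespace Cfsg.Agent.Helper21.BenderU

open Cfsg Cfsg.Agent.S1312

universe u

variable {G : Type u} [Group G]

theorem layer_eq_bot_of_solvable (X : Type*) [Group X] (h : Group.IsSolvable X) :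
    Cfsg.layer X = ⊥ := by
  unfold Cfsg.layer
  rw [sSup_eq_bot]
  intro K hK
  exfalso
  haveI := h
  exact Cfsg.Agent.Helper7.IsComponent.not_isSolvable hK (inferInstance)

/-- `Z(F(Y)) ∩ O_r(Y)`, inside the ambient group. -/
def zc (Y : Subgroup G) (r : ℕ) : Subgroup G :=
  O Y r ⊓ Subgroup.centralizer (Fi Y : Set G)

theorem zc_le_O (Y : Subgroup G) (r : ℕ) : zc Y r ≤ O Y r := inf_le_left

theorem zc_le_Fi [Finite G] (Y : Subgroup G) (r : ℕ) [Fact r.Prime] : zc Y r ≤ Fi Y :=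
  inf_le_left.trans (O_le_Fi Y r)

theorem zc_isPGroup (Y : Subgroup G) (r : ℕ) : IsPGroup r ↥(zc Y r) :=
  (O_isPGroup Y r).to_le inf_le_left

theorem comm_O_ne [Finite G] (Y : Subgroup G) (r s : ℕ) [Fact r.Prime] [Fact s.Prime]
    (hrs : r ≠ s) : ∀ x ∈ O Y r, ∀ y ∈ O Y s, x * y = y * x := by
  apply comm_of_normalize
  · exact ((O_le_Fi Y r).trans (Fi_le Y)).trans (le_norm_O Y s)
  · exact ((O_le_Fi Y s).trans (Fi_le Y)).trans (le_norm_O Y r)
  · exact (IsPGroup.disjoint_of_ne r s hrs _ _ (O_isPGroup Y r) (O_isPGroup Y s)).eq_bot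

theorem zc_ne_bot [Finite G] (Y : Subgroup G) (r : ℕ) [Fact r.Prime] (h : O Y r ≠ ⊥) :
    zc Y r ≠ ⊥ := by
  haveI : Nontrivial ↥(O Y r) := (Subgroup.nontrivial_iff_ne_bot _).mpr h
  haveI : Nontrivial ↥(Subgroup.center ↥(O Y r)) := (O_isPGroup Y r).center_nontrivial
  obtain ⟨z, hz⟩ := exists_ne (1 : ↥(Subgroup.center ↥(O Y r)))
  intro hbot
  apply hz
  have hmem : ((z : ↥(O Y r)) : G) ∈ zc Y r := by
    refine ⟨(z : ↥(O Y r)).2, ?_⟩
    apply mem_centralizer_Fi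
    intro s hs x hx
    by_cases hrs : s = r
    · subst hrs
      have h1 := Subgroup.mem_center_iff.mp z.2 ⟨x, hx⟩
      have h2 := congrArg Subtype.val h1
      exact h2.symm
    · haveI : Fact s.Prime := ⟨hs⟩
      exact comm_O_ne Y r s (Ne.symm hrs) _ (z : ↥(O Y r)).2 x hx
  rw [hbot, Subgroup.mem_bot] at hmem
  apply Subtype.ext
  apply Subtype.ext
  exact hmem

theorem norm_zc [Finite G] (Y : Subgroup G) (r : ℕ) :
    Y ≤ Subgroup.normalizer (zc Y r : Set G) := by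
  intro y hy
  apply Cfsg.Agent.Helper14.mem_normalizer_inf _ _ _ (le_norm_O Y r hy)
  have hn := le_norm_Fi Y hy
  rw [Subgroup.mem_normalizer_iff]
  intro c
  constructor
  · intro hc
    exact Cfsg.Agent.Helper14.conj_mem_centralizer_of_mem_normalizer (Fi Y) y hn c hc
  · intro hc
    have h1 := Cfsg.Agent.Helper14.conj_mem_centralizer_of_mem_normalizer (Fi Y) y⁻¹
      (inv_mem hn) _ hc
    have e : y⁻¹ * (y * c * y⁻¹) * y⁻¹⁻¹ = c := by group
    rw [e] at h1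
    exact h1

theorem O_ne_bot_of_dvd [Finite G] (Y : Subgroup G) (r : ℕ) [hr : Fact r.Prime]
    (h : r ∣ Nat.card ↥(Fi Y)) : O Y r ≠ ⊥ := by
  obtain ⟨x, hx⟩ := exists_prime_orderOf_dvd_card' r h
  intro hbot
  have h1 : (x : G) ∈ O Y r := by
    apply mem_O_of_mem_Fi Y r (x : G) x.2
    refine ⟨1, ?_⟩
    rw [pow_one]
    have h2 : x ^ r = 1 := by rw [← hx]; exact pow_orderOf_eq_one x
    have h3 := congrArg Subtype.val h2
    simpa using h3
  rw [hbot, Subgroup.mem_bot] at h1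
  have h4 : x = 1 := Subtype.ext h1
  rw [h4, orderOf_one] at hx
  exact hr.out.one_lt.ne hx

/-- commutator argument: `u` normalizes `Z`, `z ∈ Z` normalizes `B ∋ u`, `B ∩ Z = 1`. -/
theorem comm_of_cross (B Z : Subgroup G) (hd : B ⊓ Z = ⊥) (u z : G) (hu : u ∈ B) (hz : z ∈ Z)
    (huZ : u ∈ Subgroup.normalizer (Z : Set G)) (hzB : z ∈ Subgroup.normalizer (B : Set G)) :
    u * z = z * u := by
  have h1 : u * z * u⁻¹ * z⁻¹ ∈ B ⊓ Z := by
    constructor
    · have h3 : z * u⁻¹ * z⁻¹ ∈ B :=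
        Cfsg.Agent.Helper7.conj_mem_of_mem_normalizer hzB (B.inv_mem hu)
      have h2 : u * z * u⁻¹ * z⁻¹ = u * (z * u⁻¹ * z⁻¹) := by group
      rw [h2]; exact B.mul_mem hu h3
    · have h3 : u * z * u⁻¹ ∈ Z := Cfsg.Agent.Helper7.conj_mem_of_mem_normalizer huZ hz
      exact Z.mul_mem h3 (Z.inv_mem hz)
  rw [hd, Subgroup.mem_bot] at h1
  calc u * z = (u * z * u⁻¹ * z⁻¹) * (z * u) := by group
    _ = z * u := by rw [h1, one_mul]

/-- `P × Q` step: `Y₁`, `Y₂` maximal, `zc Y₁ r ≠ 1`, `zc Y₁ r` and `zc Y₁ s` normalize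
`O_r(Y₂)`; then `zc Y₁ s` centralizes `O_r(Y₂)`. -/
theorem pq_step [Finite G] [IsSimpleGroup G] (Y₁ Y₂ : Subgroup G) (hY₁ : IsCoatom Y₁)
    (r s : ℕ) [Fact r.Prime] [Fact s.Prime] (hrs : r ≠ s)
    (hr : zc Y₁ r ≠ ⊥) (h1 : zc Y₁ r ≤ Y₂) (h2 : zc Y₁ s ≤ Y₂) :
    zc Y₁ s ≤ Subgroup.centralizer (O Y₂ r : Set G) := by
  have hN : Subgroup.normalizer (zc Y₁ r : Set G) = Y₁ :=
    normalizer_eq_of_coatom hY₁ hr ((zc_le_Fi Y₁ r).trans (Fi_le Y₁)) (norm_zc Y₁ r)
  have hcop : (Nat.card ↥(zc Y₁ s)).Coprime r := by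
    obtain ⟨k, hk⟩ := IsPGroup.iff_card.1 (zc_isPGroup Y₁ s)
    rw [hk]
    apply Nat.Coprime.pow_left
    exact (Nat.coprime_primes Fact.out Fact.out).mpr (Ne.symm hrs)
  apply Cfsg.Agent.S0028.result r (zc Y₁ r) (zc Y₁ s) (O Y₂ r) (zc_isPGroup Y₁ r) hcop
    (O_isPGroup Y₂ r)
  · intro a ha
    rw [Subgroup.mem_centralizer_iff]
    intro b hb
    exact Subgroup.mem_centralizer_iff.mp ha.2 b (zc_le_Fi Y₁ s hb)
  · exact h1.trans (le_norm_O Y₂ r)
  · exact h2.trans (le_norm_O Y₂ r)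
  · intro u hu
    have huY : u ∈ Y₁ := by
      rw [← hN]; exact cent_le_norm _ hu.2
    rw [Subgroup.mem_centralizer_iff]
    intro z hz
    have hd : O Y₂ r ⊓ zc Y₁ s = ⊥ :=
      (IsPGroup.disjoint_of_ne r s hrs _ _ (O_isPGroup Y₂ r) (zc_isPGroup Y₁ s)).eq_bot
    exact (comm_of_cross (O Y₂ r) (zc Y₁ s) hd u z hu.1 hz (norm_zc Y₁ s huY)
      (le_norm_O Y₂ r (h2 hz))).symm

theorem main [Finite G] (hG : Cfsg.IsMinSimpleOddOrder G) (H : Subgroup G) (hH : IsCoatom H)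
    (hF2 : 2 ≤ (Nat.card (Cfsg.fittingOf H)).primeFactors.card)
    (M : Subgroup G) (hM : M ≤ Cfsg.fittingOf H)
    (hZM : Cfsg.fittingOf H ⊓ Subgroup.centralizer (Cfsg.fittingOf H : Set G) ≤ M)
    (hinv : ∀ Y ∈ Cfsg.invSubgroups ⊤ M (Cfsg.primesNotDvd (Nat.card (Cfsg.fittingOf H))),
      Y = ⊥) :
    ∀ L : Subgroup G, IsCoatom L → M ≤ L → L = H := by
  intro L hL hML
  haveI := hG.2.1
  have hFH : Cfsg.fittingOf H = Fi H := rfl
  rw [hFH] at hF2 hM hZM hinv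
  by_contra hne
  have hsolvH : Group.IsSolvable ↥H := hG.2.2.2 H hH.1
  have hsolvL : Group.IsSolvable ↥L := hG.2.2.2 L hL.1
  have hlayH := layer_eq_bot_of_solvable ↥H hsolvH
  have hlayL := layer_eq_bot_of_solvable ↥L hsolvL
  -- primes of `F(H)`
  have hpi : ∀ r : ℕ, r.Prime → (O H r ≠ ⊥ ↔ r ∣ Nat.card ↥(Fi H)) := by
    intro r hr
    haveI : Fact r.Prime := ⟨hr⟩
    constructor
    · intro h
      by_contra hnd
      apply h
      have hcard : Nat.card ↥(O H r) = 1 := by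
        obtain ⟨k, hk⟩ := IsPGroup.iff_card.1 (O_isPGroup H r)
        have hd : Nat.card ↥(O H r) ∣ Nat.card ↥(Fi H) := Subgroup.card_dvd_of_le (O_le_Fi H r)
        rcases Nat.eq_zero_or_pos k with h0 | h0
        · rw [hk, h0, pow_zero]
        · exfalso
          apply hnd
          have : r ∣ Nat.card ↥(O H r) := by rw [hk]; exact dvd_pow_self r h0.ne'
          exact this.trans hd
      exact Subgroup.eq_bot_of_card_eq _ hcard
    · exact O_ne_bot_of_dvd H r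
  have hother : ∀ r : ℕ, ∃ s : ℕ, s.Prime ∧ s ≠ r ∧ O H s ≠ ⊥ := by
    intro r
    obtain ⟨s, hs, hsr⟩ := Finset.exists_mem_ne (Nat.lt_of_lt_of_le Nat.one_lt_two hF2) r
    have hsp := Nat.prime_of_mem_primeFactors hs
    exact ⟨s, hsp, hsr, (hpi s hsp).mpr (Nat.dvd_of_mem_primeFactors hs)⟩
  have hzM : ∀ r : ℕ, r.Prime → zc H r ≤ M := by
    intro r hr
    haveI : Fact r.Prime := ⟨hr⟩
    exact (le_inf (zc_le_Fi H r) inf_le_right).trans hZM
  have hHne : H ≠ ⊥ := by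
    obtain ⟨s, hs, -, hs1⟩ := hother 0
    have hle : O H s ≤ H := (Subgroup.map_subtype_le _)
    intro h
    apply hs1
    exact le_bot_iff.mp (hle.trans h.le)
  have hLne : L ≠ ⊥ := by
    obtain ⟨s, hs, -, hs1⟩ := hother 0
    haveI : Fact s.Prime := ⟨hs⟩
    have h1 := zc_ne_bot H s hs1
    intro h
    apply h1
    have : zc H s ≤ L := (hzM s hs).trans hML
    rw [h] at this
    exact le_bot_iff.mp this
  -- Step 1: `O_t(L) = 1` for primes `t` outside `π(F(H))`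
  have step1 : ∀ t : ℕ, t.Prime → ¬ t ∣ Nat.card ↥(Fi H) → O L t = ⊥ := by
    intro t ht htd
    apply hinv
    refine ⟨le_top, ?_, hML.trans (le_norm_O L t)⟩
    intro p hp hpd
    haveI : Fact t.Prime := ⟨ht⟩
    obtain ⟨k, hk⟩ := IsPGroup.iff_card.1 (O_isPGroup L t)
    rw [hk] at hpd
    have : p = t := (Nat.prime_dvd_prime_iff_eq hp ht).mp (hp.dvd_of_dvd_pow hpd)
    rw [this]
    exact ⟨ht, htd⟩
  -- Step 2: `zc H s` centralizes `O_r(L)` for `r ≠ s`, `O_s(H) ≠ 1`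
  have step2 : ∀ r s : ℕ, r.Prime → s.Prime → r ≠ s →
      zc H s ≤ Subgroup.centralizer (O L r : Set G) := by
    intro r s hr hs hrs
    haveI : Fact r.Prime := ⟨hr⟩
    haveI : Fact s.Prime := ⟨hs⟩
    by_cases hrd : r ∣ Nat.card ↥(Fi H)
    · exact pq_step H L hH r s hrs (zc_ne_bot H r ((hpi r hr).mpr hrd))
        ((hzM r hr).trans hML) ((hzM s hs).trans hML)
    · rw [step1 r hr hrd]
      intro z _
      rw [Subgroup.mem_centralizer_iff]
      intro x hx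
      rw [SetLike.mem_coe, Subgroup.mem_bot] at hx
      rw [hx, one_mul, mul_one]
  have hcentL : Subgroup.centralizer (Fi L : Set G) ≤ Fi L := centralizer_Fi_le L hL hlayL hLne
  -- Step 3: `O_s(L) ≠ 1` whenever `O_s(H) ≠ 1`
  have step3 : ∀ s : ℕ, s.Prime → O H s ≠ ⊥ → O L s ≠ ⊥ := by
    intro s hs hs1 hbot
    haveI : Fact s.Prime := ⟨hs⟩
    apply zc_ne_bot H s hs1
    rw [Subgroup.eq_bot_iff_forall]
    intro z hz
    have hzc : z ∈ Subgroup.centralizer (Fi L : Set G) := by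
      apply mem_centralizer_Fi
      intro r hr x hx
      by_cases hrs : r = s
      · rw [hrs, hbot, Subgroup.mem_bot] at hx
        rw [hx, one_mul, mul_one]
      · exact (Subgroup.mem_centralizer_iff.mp (step2 r s hr hs hrs hz) x hx).symm
    obtain ⟨k, hk⟩ := (zc_isPGroup H s) ⟨z, hz⟩
    have hk' : z ^ s ^ k = 1 := by
      have h3 := congrArg Subtype.val hk
      simpa using h3
    have hzO := mem_O_of_mem_Fi L s z (hcentL hzc) ⟨k, hk'⟩
    rw [hbot, Subgroup.mem_bot] at hzO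
    exact hzO
  -- Step 4: `F(L) ≤ H`
  have hNz : ∀ s : ℕ, s.Prime → O H s ≠ ⊥ →
      Subgroup.centralizer (zc H s : Set G) ≤ H := by
    intro s hs hs1
    haveI : Fact s.Prime := ⟨hs⟩
    have hN : Subgroup.normalizer (zc H s : Set G) = H :=
      normalizer_eq_of_coatom hH (zc_ne_bot H s hs1) ((zc_le_Fi H s).trans (Fi_le H))
        (norm_zc H s)
    intro x hx
    rw [← hN]; exact cent_le_norm _ hx
  have step4 : Fi L ≤ H := by
    unfold Fi
    rw [Cfsg.Agent.Helper1.fitting_eq_iSup_primes, Subgroup.map_iSup]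
    apply iSup_le
    intro r
    obtain ⟨s, hs, hsr, hs1⟩ := hother r
    have h2 := step2 r s r.2 hs (Ne.symm hsr)
    intro x hx
    apply hNz s hs hs1
    rw [Subgroup.mem_centralizer_iff]
    intro z hz
    exact (Subgroup.mem_centralizer_iff.mp (h2 hz) x hx).symm
  -- Step 5: `F(H) ≤ L`
  have hNzL : ∀ s : ℕ, s.Prime → O L s ≠ ⊥ →
      Subgroup.centralizer (zc L s : Set G) ≤ L := by
    intro s hs hs1
    haveI : Fact s.Prime := ⟨hs⟩
    have hN : Subgroup.normalizer (zc L s : Set G) = L :=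
      normalizer_eq_of_coatom hL (zc_ne_bot L s hs1) ((zc_le_Fi L s).trans (Fi_le L))
        (norm_zc L s)
    intro x hx
    rw [← hN]; exact cent_le_norm _ hx
  have step5 : Fi H ≤ L := by
    unfold Fi
    rw [Cfsg.Agent.Helper1.fitting_eq_iSup_primes, Subgroup.map_iSup]
    apply iSup_le
    intro r
    haveI : Fact (r : ℕ).Prime := ⟨r.2⟩
    by_cases hr1 : O H r = ⊥
    · have : Subgroup.map H.subtype (Cfsg.pCore (r : ℕ) ↥H) = ⊥ := hr1
      rw [this]; exact bot_le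
    obtain ⟨t, ht, htr, ht1⟩ := hother r
    haveI : Fact t.Prime := ⟨ht⟩
    have hLt := step3 t ht ht1
    have hLr := step3 r r.2 hr1
    have h2 := pq_step L H hL r t (Ne.symm htr) (zc_ne_bot L r hLr)
      ((zc_le_Fi L r).trans step4) ((zc_le_Fi L t).trans step4)
    intro x hx
    apply hNzL t ht hLt
    rw [Subgroup.mem_centralizer_iff]
    intro z hz
    exact (Subgroup.mem_centralizer_iff.mp (h2 hz) x hx).symm
  -- Step 6: Bender
  have hgH : Cfsg.generalizedFittingSubgroup ↥H = Cfsg.fittingSubgroup ↥H := by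
    unfold Cfsg.generalizedFittingSubgroup; rw [hlayH, bot_sup_eq]
  have hgL : Cfsg.generalizedFittingSubgroup ↥L = Cfsg.fittingSubgroup ↥L := by
    unfold Cfsg.generalizedFittingSubgroup; rw [hlayL, bot_sup_eq]
  obtain ⟨p, hp, hpH, -⟩ := Cfsg.Agent.S1312.result hG.2.2.1 H L hH hL (Ne.symm hne)
    (by rw [hgH]; exact step5) (by rw [hgL]; exact step4)
  rw [hgH] at hpH
  haveI : Fact p.Prime := ⟨hp⟩
  obtain ⟨k, hk⟩ := IsPGroup.iff_card.1 hpH
  have hcard : Nat.card ↥(Fi H) = p ^ k := by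
    unfold Fi
    rw [Subgroup.card_map_of_injective (Subgroup.subtype_injective _)]
    exact hk
  rw [hcard] at hF2
  have hle : (p ^ k).primeFactors.card ≤ 1 := by
    rcases Nat.eq_zero_or_pos k with h0 | h0
    · rw [h0, pow_zero, Nat.primeFactors_one]; simp
    · rw [Nat.primeFactors_prime_pow h0.ne' hp]; simp
  omega

end Cfsg.Agent.Helper21.BenderU
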