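import Mathlib
import Cfsg.Agent.Helper24.BS1

/-!
# Exceptional characters of abelian T.I. subgroups with Frobenius normalizer (helper21)

Single-subgroup lemmas towards Suzuki's CA-theorem.
-/

set_option autoImplicit false
set_option maxHeartbeats 400000

namespace Cfsg.Agent.Helper21.CAChar

open Cfsg Cfsg.Agent.Helper24

universe u

/-- A sum of integers invariant under an involution with a unique fixed point, where the summand
at the fixed point is `1`, is nonzero (it is odd). -/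
theorem sum_invol_odd {X : Type*} [Fintype X] (σ : X → X) (hσ : ∀ x, σ (σ x) = x)
    (z : X → ℤ) (hz : ∀ x, z (σ x) = z x) (x₀ : X) (hfix : ∀ x, σ x = x → x = x₀)
    (h0 : σ x₀ = x₀) (h1 : z x₀ = 1) : ∑ x, z x ≠ 0 := by
  classical
  intro hsum
  have h2 : ∑ x ∈ Finset.univ.erase x₀, ((z x : ℤ) : ZMod 2) = 0 := by
    refine Finset.sum_involution (fun a _ => σ a) ?_ ?_ ?_ ?_
    · intro a _
      rw [hz a]
      have e : ((z a : ℤ) : ZMod 2) + (z a : ZMod 2) = 2 * (z a : ZMod 2) := by ring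
      rw [e]
      have h2 : (2 : ZMod 2) = 0 := by decide
      rw [h2, zero_mul]
    · intro a ha _ hfixa
      exact (Finset.mem_erase.mp ha).1 (hfix a hfixa)
    · intro a ha
      refine Finset.mem_erase.mpr ⟨?_, Finset.mem_univ _⟩
      intro h
      have : a = x₀ := by rw [← hσ a, h, h0]
      exact (Finset.mem_erase.mp ha).1 this
    · intro a _
      exact hσ a
  have h3 : ((∑ x, z x : ℤ) : ZMod 2) = 1 := by
    rw [← Finset.add_sum_erase Finset.univ z (Finset.mem_univ x₀)]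
    push_cast
    rw [h2, h1]
    simp
  rw [hsum] at h3
  simp at h3

section TI

variable {G : Type u} [Group G]

/-- The normalizer of `K` as a subgroup. -/
abbrev Nz (K : Subgroup G) : Subgroup G := Subgroup.normalizer (K : Set G)

/-- The index type of the exceptional characters. -/
abbrev Exc (K : Subgroup G) : Type u :=
  {χ : Cfsg.IrrCharacter (Nz K) //
    ∃ k : Nz K, (k : G) ∈ K ∧ (χ : Nz K → ℂ) k ≠ (χ : Nz K → ℂ) 1}

/-- `K` is an abelian T.I. subgroup containing the centralizers of its non-identity elements. -/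
structure TIData (K : Subgroup G) : Prop where
  ti : ∀ g : G, g ∉ Subgroup.normalizer (K : Set G) → ∀ k ∈ K, g * k * g⁻¹ ∈ K → k = 1
  cc : ∀ k ∈ K, k ≠ 1 → Subgroup.centralizer ({k} : Set G) ≤ K
  ab : ∀ a ∈ K, ∀ b ∈ K, a * b = b * a
  ne : K ≠ ⊥

/-- Exceptional characters attached to `K`. -/
structure ExcData [Fintype G] (K : Subgroup G) (ε : ℂ) (f : Exc K → Cfsg.IrrCharacter G) :
    Prop where
  eps : ε = 1 ∨ ε = -1
  inj : Function.Injective f
  ind : ∀ χ ξ : Exc K, Cfsg.indFun (Nz K) ((χ.1 : Nz K → ℂ) - (ξ.1 : Nz K → ℂ)) =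
    ε • ((f χ : G → ℂ) - (f ξ : G → ℂ))

theorem exists_excData [Fintype G] {K : Subgroup G} (hd : TIData K) :
    ∃ ε f, ExcData K ε f := by
  obtain ⟨ε, f, h1, h2, h3⟩ := ti_exceptional K hd.ti hd.cc hd.ab
  exact ⟨ε, f, h1, h2, h3⟩

theorem le_nz (K : Subgroup G) : K ≤ Nz K := Subgroup.le_normalizer

variable [Fintype G] {K : Subgroup G}

theorem exc_mem (χ : Exc K) : (χ.1 : Nz K → ℂ) ∈ tiS K := ⟨χ.1.2, χ.2⟩

theorem exc_vanish (hd : TIData K) (χ : Exc K) (n : Nz K) (hn : (n : G) ∉ K) :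
    (χ.1 : Nz K → ℂ) n = 0 :=
  (ti_vanish K hd.cc _ (exc_mem χ)).1 n hn

theorem exc_deg (hd : TIData K) (χ : Exc K) :
    (χ.1 : Nz K → ℂ) 1 = ((K.subgroupOf (Nz K)).index : ℂ) := by
  obtain ⟨θ, hθ, -, h1⟩ := (ti_vanish K hd.cc _ (exc_mem χ)).2
  have hcomm : ∀ a b : ↥(K.subgroupOf (Nz K)), a * b = b * a := by
    intro a b
    apply Subtype.ext
    apply Subtype.ext
    have := hd.ab _ (Subgroup.mem_subgroupOf.mp a.2) _ (Subgroup.mem_subgroupOf.mp b.2)
    simpa using this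
  have e1 : θ 1 = 1 := irr_one_of_comm hcomm ⟨θ, hθ⟩
  rw [h1, e1, mul_one]

theorem card_nz (K : Subgroup G) :
    Nat.card (Nz K) = Nat.card K * (K.subgroupOf (Nz K)).index := by
  rw [← Subgroup.card_mul_index (K.subgroupOf (Nz K))]
  congr 1
  exact Nat.card_congr (Subgroup.subgroupOfEquivOfLe (le_nz K)).toEquiv

/-! ### Block sums -/

open Classical in
/-- Sum of `F` over the non-identity elements of `K` (inside the normalizer). -/
noncomputable def bk (K : Subgroup G) [Fintype (Nz K)] {R : Type*} [AddCommMonoid R]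
    (F : Nz K → R) : R :=
  ∑ n : Nz K, if ((n : G) ∈ K ∧ n ≠ 1) then F n else 0

variable [Fintype (Nz K)]

theorem sum_eq_bk {R : Type*} [AddCommMonoid R] (F : Nz K → R)
    (hF : ∀ n : Nz K, (n : G) ∉ K → F n = 0) : ∑ n, F n = F 1 + bk K F := by
  classical
  unfold bk
  rw [show F 1 = ∑ n : Nz K, (if n = 1 then F n else 0) by simp, ← Finset.sum_add_distrib]
  refine Finset.sum_congr rfl fun n _ => ?_
  by_cases h1 : n = 1
  · simp [h1]
  · by_cases hK : (n : G) ∈ K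
    · simp [h1, hK]
    · simp [h1, hK, hF n hK]

theorem bk_congr {R : Type*} [AddCommMonoid R] {F F' : Nz K → R}
    (h : ∀ n : Nz K, (n : G) ∈ K → n ≠ 1 → F n = F' n) : bk K F = bk K F' := by
  unfold bk
  refine Finset.sum_congr rfl fun n _ => ?_
  by_cases hc : (n : G) ∈ K ∧ n ≠ 1
  · rw [if_pos hc, if_pos hc, h n hc.1 hc.2]
  · rw [if_neg hc, if_neg hc]

theorem bk_add {R : Type*} [AddCommMonoid R] (F F' : Nz K → R) :
    bk K (fun n => F n + F' n) = bk K F + bk K F' := by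
  unfold bk
  rw [← Finset.sum_add_distrib]
  refine Finset.sum_congr rfl fun n _ => ?_
  by_cases hc : (n : G) ∈ K ∧ n ≠ 1
  · rw [if_pos hc, if_pos hc, if_pos hc]
  · rw [if_neg hc, if_neg hc, if_neg hc, add_zero]

theorem bk_mul_left {R : Type*} [Semiring R] (c : R) (F : Nz K → R) :
    bk K (fun n => c * F n) = c * bk K F := by
  unfold bk
  rw [Finset.mul_sum]
  refine Finset.sum_congr rfl fun n _ => ?_
  by_cases hc : (n : G) ∈ K ∧ n ≠ 1
  · rw [if_pos hc, if_pos hc]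
  · rw [if_neg hc, if_neg hc, mul_zero]

theorem bk_mono {F F' : Nz K → ℝ}
    (h : ∀ n : Nz K, (n : G) ∈ K → n ≠ 1 → F n ≤ F' n) : bk K F ≤ bk K F' := by
  unfold bk
  refine Finset.sum_le_sum fun n _ => ?_
  by_cases hc : (n : G) ∈ K ∧ n ≠ 1
  · rw [if_pos hc, if_pos hc]; exact h n hc.1 hc.2
  · rw [if_neg hc, if_neg hc]

open Classical in
theorem sum_mem {R : Type*} [AddCommMonoid R] (F : Nz K → R) :
    (∑ n : Nz K, if (n : G) ∈ K then F n else 0) = ∑ k : K, F ⟨k, le_nz K k.2⟩ := by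
  have hinj : Function.Injective (fun k : K => (⟨k, le_nz K k.2⟩ : Nz K)) := by
    intro a b h
    exact Subtype.ext (congrArg (fun n : Nz K => (n : G)) h)
  rw [← Finset.sum_filter]
  have himg : Finset.univ.filter (fun n : Nz K => (n : G) ∈ K) =
      Finset.univ.image (fun k : K => (⟨k, le_nz K k.2⟩ : Nz K)) := by
    ext n
    simp only [Finset.mem_filter, Finset.mem_univ, true_and, Finset.mem_image]
    constructor
    · intro hn; exact ⟨⟨n, hn⟩, Subtype.ext rfl⟩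
    · rintro ⟨k, rfl⟩; exact k.2
  rw [himg, Finset.sum_image (fun a _ b _ h => hinj h)]

theorem bk_const {R : Type*} [Ring R] (c : R) :
    bk K (fun _ : Nz K => c) = ((Nat.card K : R) - 1) * c := by
  classical
  have h1 := sum_eq_bk (K := K) (fun n : Nz K => if (n : G) ∈ K then c else 0)
    (fun n hn => if_neg hn)
  rw [sum_mem (K := K) (fun _ => c)] at h1
  rw [if_pos (show ((1 : Nz K) : G) ∈ K from K.one_mem)] at h1
  have h2 : bk K (fun n : Nz K => if (n : G) ∈ K then c else 0) = bk K (fun _ : Nz K => c) :=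
    bk_congr (fun n hn _ => if_pos hn)
  rw [h2] at h1
  have h3 : ∑ _k : K, c = (Nat.card K : R) * c := by
    rw [Finset.sum_const, Finset.card_univ, Nat.card_eq_fintype_card, nsmul_eq_mul]
  rw [h3] at h1
  rw [sub_mul, one_mul, h1]
  abel

/-! ### The exceptional characters on `K` -/

theorem res_cf {ψ : G → ℂ} (hψ : IsClassFunction G ψ) :
    IsClassFunction (Nz K) (fun n : Nz K => ψ n) := by
  intro g h
  show ψ ((h * g * h⁻¹ : Nz K) : G) = ψ g
  have h2 := hψ (g : G) (h : G)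
  rw [← h2]; simp

theorem inner_res_sub {ε : ℂ} {f : Exc K → IrrCharacter G} (he : ExcData K ε f)
    (ψ : IrrCharacter G) (χ ξ : Exc K) :
    classInner ((χ.1 : Nz K → ℂ) - (ξ.1 : Nz K → ℂ)) (fun n : Nz K => (ψ : G → ℂ) n) =
      ε * (classInner (f χ : G → ℂ) (ψ : G → ℂ) - classInner (f ξ : G → ℂ) (ψ : G → ℂ)) := by
  rw [← classInner_indFun (Nz K) _ (ψ : G → ℂ) (irr_isClassFunction ψ), he.ind χ ξ,
    classInner_smul_left, classInner_sub_left]

theorem eps_conj {ε : ℂ} {f : Exc K → IrrCharacter G} (he : ExcData K ε f) :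
    starRingEnd ℂ ε = ε := by
  rcases he.eps with h | h <;> rw [h] <;> simp

theorem eps_ne {ε : ℂ} {f : Exc K → IrrCharacter G} (he : ExcData K ε f) : ε ≠ 0 := by
  rcases he.eps with h | h <;> rw [h] <;> norm_num

theorem index_ne_zero (K : Subgroup G) : ((K.subgroupOf (Nz K)).index : ℂ) ≠ 0 :=
  Nat.cast_ne_zero.mpr (Subgroup.index_ne_zero_of_finite)

/-- A non-exceptional irreducible character is constant, with an integer value, on `K^#`. -/
theorem nonexc_const (hd : TIData K) {ε : ℂ} {f : Exc K → IrrCharacter G}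
    (he : ExcData K ε f) (ψ : IrrCharacter G) (hψ : ∀ χ : Exc K, f χ ≠ ψ) :
    ∃ c : ℤ, ∀ n : Nz K, (n : G) ∈ K → n ≠ 1 → (ψ : G → ℂ) n = c := by
  classical
  have hcf : IsClassFunction (Nz K) (fun n : Nz K => (ψ : G → ℂ) n) :=
    res_cf (irr_isClassFunction ψ)
  have hl0 := index_ne_zero K
  have heq : ∀ χ ξ : Exc K,
      classInner (fun n : Nz K => (ψ : G → ℂ) n) (χ.1 : Nz K → ℂ) =
        classInner (fun n : Nz K => (ψ : G → ℂ) n) (ξ.1 : Nz K → ℂ) := by
    intro χ ξ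
    have h := inner_res_sub he ψ χ ξ
    rw [irr_inner_eq (f χ).2 ψ.2, irr_inner_eq (f ξ).2 ψ.2,
      if_neg (fun h => hψ χ (Subtype.ext h)), if_neg (fun h => hψ ξ (Subtype.ext h)), sub_zero,
      mul_zero, classInner_sub_left] at h
    rw [classInner_conj_symm _ (χ.1 : Nz K → ℂ), classInner_conj_symm _ (ξ.1 : Nz K → ℂ),
      sub_eq_zero.mp h]
  obtain ⟨v, hv⟩ : ∃ v : ℂ, ∀ k : Nz K, (k : G) ∈ K → k ≠ 1 → (ψ : G → ℂ) k = v := by
    by_cases hne : Nonempty (Exc K)
    · obtain ⟨χ₀⟩ := hne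
      refine ti_const K _ hcf (classInner (fun n : Nz K => (ψ : G → ℂ) n) (χ₀.1 : Nz K → ℂ) /
        ((K.subgroupOf (Nz K)).index : ℂ)) ?_
      intro ξ hξ
      have h1 := heq ⟨⟨ξ, hξ.1⟩, hξ.2⟩ χ₀
      have hdeg := exc_deg hd ⟨⟨ξ, hξ.1⟩, hξ.2⟩
      rw [show ξ 1 = ((K.subgroupOf (Nz K)).index : ℂ) from hdeg, div_mul_cancel₀ _ hl0]
      exact h1
    · refine ti_const K _ hcf 0 ?_
      intro ξ hξ
      exact absurd ⟨⟨⟨ξ, hξ.1⟩, hξ.2⟩⟩ hne
  haveI : Nontrivial K := (Subgroup.nontrivial_iff_ne_bot K).mpr hd.ne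
  haveI : Fintype K := Fintype.ofFinite K
  have hβ : IsGeneralizedCharacter K (fun k : K => (ψ : G → ℂ) k) :=
    ⟨_, 0, isCharacter_restrict K (isCharacter_of_isIrrCharacter ψ.2), isCharacter_zero,
      (sub_zero _).symm⟩
  obtain ⟨z, hz⟩ := genChar_const_int (fun k : K => (ψ : G → ℂ) k) hβ v (by
    intro k hk
    exact hv ⟨k, le_nz K k.2⟩ k.2
      (fun h => hk (Subtype.ext (congrArg (fun n : Nz K => (n : G)) h))))
  exact ⟨z, fun n hn hn1 => by rw [hv n hn hn1, hz]⟩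

/-- An exceptional character agrees on `K^#` with `ε χ₀` up to an integer constant. -/
theorem exc_const (hd : TIData K) {ε : ℂ} {f : Exc K → IrrCharacter G}
    (he : ExcData K ε f) (χ₀ : Exc K) :
    ∃ c : ℤ, ∀ n : Nz K, (n : G) ∈ K → n ≠ 1 →
      (f χ₀ : G → ℂ) n = ε * (χ₀.1 : Nz K → ℂ) n + c := by
  classical
  set F : Nz K → ℂ := (fun n : Nz K => (f χ₀ : G → ℂ) n) - ε • (χ₀.1 : Nz K → ℂ) with hF
  have hcf : IsClassFunction (Nz K) F := by
    intro g h
    have h1 := res_cf (K := K) (irr_isClassFunction (f χ₀)) g h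
    have h2 := irr_isClassFunction χ₀.1 g h
    simp only at h1
    show (f χ₀ : G → ℂ) ((h * g * h⁻¹ : Nz K) : G) - ε • (χ₀.1 : Nz K → ℂ) (h * g * h⁻¹) =
      (f χ₀ : G → ℂ) g - ε • (χ₀.1 : Nz K → ℂ) g
    rw [h1, h2]
  have hl0 := index_ne_zero K
  set m₀ : ℂ := classInner (fun n : Nz K => (f χ₀ : G → ℂ) n) (χ₀.1 : Nz K → ℂ) with hm₀
  have hin : ∀ ξ ∈ tiS K, classInner F ξ = m₀ - ε := by
    intro ξ hξ
    rw [hF, classInner_sub_left, classInner_smul_left]
    by_cases hξ0 : (⟨⟨ξ, hξ.1⟩, hξ.2⟩ : Exc K) = χ₀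
    · have e : ξ = (χ₀.1 : Nz K → ℂ) := by rw [← hξ0]
      rw [e, irr_inner_eq χ₀.1.2 χ₀.1.2, if_pos rfl, mul_one]
    · have h := inner_res_sub he (f χ₀) ⟨⟨ξ, hξ.1⟩, hξ.2⟩ χ₀
      rw [irr_inner_eq (f ⟨⟨ξ, hξ.1⟩, hξ.2⟩).2 (f χ₀).2, irr_inner_eq (f χ₀).2 (f χ₀).2,
        if_pos rfl, if_neg (fun h => hξ0 (he.inj (Subtype.ext h))), classInner_sub_left] at h
      have e0 : classInner (χ₀.1 : Nz K → ℂ) ξ = 0 := by
        rw [irr_inner_eq χ₀.1.2 hξ.1, if_neg]
        intro h'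
        exact hξ0 (Subtype.ext (Subtype.ext h'.symm))
      rw [e0, mul_zero, sub_zero, classInner_conj_symm _ ξ]
      have e1 : classInner ξ (fun n : Nz K => (f χ₀ : G → ℂ) n) =
          classInner (χ₀.1 : Nz K → ℂ) (fun n : Nz K => (f χ₀ : G → ℂ) n) - ε := by
        linear_combination h
      rw [e1, map_sub, eps_conj he, ← classInner_conj_symm]
  obtain ⟨v, hv⟩ := ti_const K F hcf ((m₀ - ε) / ((K.subgroupOf (Nz K)).index : ℂ)) (by
    intro ξ hξ
    have hdeg := exc_deg hd ⟨⟨ξ, hξ.1⟩, hξ.2⟩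
    rw [show ξ 1 = ((K.subgroupOf (Nz K)).index : ℂ) from hdeg, div_mul_cancel₀ _ hl0]
    exact hin ξ hξ)
  -- integrality on `K.subgroupOf (Nz K)`
  obtain ⟨k₀, hk₀⟩ := (Subgroup.ne_bot_iff_exists_ne_one).mp hd.ne
  haveI : Nontrivial ↥(K.subgroupOf (Nz K)) :=
    ⟨⟨⟨⟨k₀, le_nz K k₀.2⟩, Subgroup.mem_subgroupOf.mpr k₀.2⟩, 1, fun h => hk₀ (Subtype.ext
      (congrArg (fun t : ↥(K.subgroupOf (Nz K)) => ((t : Nz K) : G)) h))⟩⟩
  haveI : Fintype ↥(K.subgroupOf (Nz K)) := Fintype.ofFinite _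
  have hA : IsCharacter ↥(K.subgroupOf (Nz K))
      (fun k : ↥(K.subgroupOf (Nz K)) => (f χ₀ : G → ℂ) ((k : Nz K) : G)) :=
    isCharacter_restrict (K.subgroupOf (Nz K))
      (isCharacter_restrict (Nz K) (isCharacter_of_isIrrCharacter (f χ₀).2))
  have hB : IsCharacter ↥(K.subgroupOf (Nz K))
      (fun k : ↥(K.subgroupOf (Nz K)) => (χ₀.1 : Nz K → ℂ) (k : Nz K)) :=
    isCharacter_restrict (K.subgroupOf (Nz K)) (isCharacter_of_isIrrCharacter χ₀.1.2)
  have hβ : IsGeneralizedCharacter ↥(K.subgroupOf (Nz K))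
      (fun k : ↥(K.subgroupOf (Nz K)) => F (k : Nz K)) := by
    rcases he.eps with h | h
    · refine ⟨_, _, hA, hB, ?_⟩
      funext k
      simp [hF, h]
    · refine ⟨_, 0, isCharacter_add hA hB, isCharacter_zero, ?_⟩
      funext k
      simp [hF, h]
  obtain ⟨z, hz⟩ := genChar_const_int (fun k : ↥(K.subgroupOf (Nz K)) => F (k : Nz K)) hβ v (by
    intro k hk
    exact hv (k : Nz K) (Subgroup.mem_subgroupOf.mp k.2) (fun h => hk (Subtype.ext h)))
  refine ⟨z, fun n hn hn1 => ?_⟩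
  have h1 := hv n hn hn1
  rw [hF] at h1
  simp only [Pi.sub_apply, Pi.smul_apply, smul_eq_mul] at h1
  rw [← hz]
  linear_combination h1

theorem card_nz_real (K : Subgroup G) :
    (Nat.card (Nz K) : ℝ) = (Nat.card K : ℝ) * ((K.subgroupOf (Nz K)).index : ℝ) := by
  rw [card_nz K]; push_cast; ring

/-- Lower bound for the block sum of an exceptional character on its own block. -/
theorem exc_bk_ge (hd : TIData K) {ε : ℂ} {f : Exc K → IrrCharacter G}
    (he : ExcData K ε f) (χ₀ : Exc K)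
    (h2l : 2 * ((K.subgroupOf (Nz K)).index : ℝ) + 1 ≤ (Nat.card K : ℝ)) :
    (Nat.card K : ℝ) * ((K.subgroupOf (Nz K)).index : ℝ) -
        ((K.subgroupOf (Nz K)).index : ℝ) ^ 2 ≤
      bk K (fun n : Nz K => Complex.normSq ((f χ₀ : G → ℂ) n)) := by
  classical
  obtain ⟨c, hc⟩ := exc_const hd he χ₀
  obtain ⟨e, he1, hee⟩ : ∃ e : ℝ, (e = 1 ∨ e = -1) ∧ ε = (e : ℂ) := by
    rcases he.eps with h | h
    · exact ⟨1, Or.inl rfl, by rw [h]; simp⟩
    · exact ⟨-1, Or.inr rfl, by rw [h]; simp⟩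
  set l : ℝ := ((K.subgroupOf (Nz K)).index : ℝ) with hl
  set a : ℝ := (Nat.card K : ℝ) with ha
  have hdeg := exc_deg hd χ₀
  -- the sum of squares
  have hsq : bk K (fun n : Nz K => Complex.normSq ((χ₀.1 : Nz K → ℂ) n)) = a * l - l ^ 2 := by
    have h1 := sum_eq_bk (K := K) (fun n : Nz K => Complex.normSq ((χ₀.1 : Nz K → ℂ) n))
      (fun n hn => by rw [exc_vanish hd χ₀ n hn, map_zero])
    have h2 : ∑ n : Nz K, Complex.normSq ((χ₀.1 : Nz K → ℂ) n) = (Nat.card (Nz K) : ℝ) := by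
      have h3 := irr_inner_self χ₀.1
      rw [classInner_def'] at h3
      have hN : (Nat.card (Nz K) : ℂ) ≠ 0 := Nat.cast_ne_zero.mpr Nat.card_pos.ne'
      have h4 : ∑ n : Nz K, (χ₀.1 : Nz K → ℂ) n * starRingEnd ℂ ((χ₀.1 : Nz K → ℂ) n) =
          (Nat.card (Nz K) : ℂ) := by
        rw [inv_mul_eq_iff_eq_mul₀ hN, mul_one] at h3
        exact h3
      apply Complex.ofReal_injective
      push_cast
      rw [← h4]
      exact Finset.sum_congr rfl fun n _ => (Complex.mul_conj _).symm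
    rw [h2, card_nz_real K] at h1
    rw [hdeg, Complex.normSq_natCast] at h1
    rw [← hl, ← ha] at h1
    linarith [sq l, h1]
  have hre : bk K (fun n : Nz K => ((χ₀.1 : Nz K → ℂ) n).re) = -l := by
    have h1 := sum_eq_bk (K := K) (fun n : Nz K => ((χ₀.1 : Nz K → ℂ) n).re)
      (fun n hn => by rw [exc_vanish hd χ₀ n hn, Complex.zero_re])
    have h2 : ∑ n : Nz K, ((χ₀.1 : Nz K → ℂ) n).re = 0 := by
      rw [← Complex.re_sum, ti_sum_zero K _ (exc_mem χ₀), Complex.zero_re]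
    rw [h2] at h1
    rw [hdeg, Complex.natCast_re, ← hl] at h1
    linarith
  have hmain : bk K (fun n : Nz K => Complex.normSq ((f χ₀ : G → ℂ) n)) =
      bk K (fun n : Nz K => Complex.normSq ((χ₀.1 : Nz K → ℂ) n) +
        (2 * e * c * ((χ₀.1 : Nz K → ℂ) n).re + (c : ℝ) ^ 2)) := by
    refine bk_congr fun n hn hn1 => ?_
    rw [hc n hn hn1, hee]
    have he2 : e * e = 1 := by rcases he1 with h | h <;> rw [h] <;> norm_num
    rw [Complex.normSq_apply, Complex.normSq_apply]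
    simp only [Complex.add_re, Complex.mul_re, Complex.ofReal_re, Complex.ofReal_im, zero_mul,
      sub_zero, Complex.intCast_re, Complex.add_im, Complex.mul_im, Complex.intCast_im, add_zero]
    linear_combination (((χ₀.1 : Nz K → ℂ) n).re * ((χ₀.1 : Nz K → ℂ) n).re +
      ((χ₀.1 : Nz K → ℂ) n).im * ((χ₀.1 : Nz K → ℂ) n).im) * he2
  rw [hmain, bk_add, bk_add, bk_mul_left, bk_const, hsq, hre, ← ha]
  have hc1 : e * (c : ℝ) ≤ (c : ℝ) ^ 2 := by
    rcases he1 with h | h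
    · rw [h, one_mul]
      have := Int.le_self_sq c
      exact_mod_cast this
    · rw [h]
      have := Int.le_self_sq (-c)
      rw [neg_sq] at this
      have h' : ((-c : ℤ) : ℝ) ≤ ((c ^ 2 : ℤ) : ℝ) := by exact_mod_cast this
      push_cast at h'
      linarith
  have hl0 : 0 ≤ l := by rw [hl]; positivity
  have hc2 : 0 ≤ (c : ℝ) ^ 2 := sq_nonneg _
  nlinarith [mul_le_mul_of_nonneg_left hc1 hl0, mul_le_mul_of_nonneg_right h2l hc2]

/-- Column orthogonality summed over `K^#`. -/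
theorem col_sum (hd : TIData K) :
    ∑ ψ : IrrCharacter G, bk K (fun n : Nz K => Complex.normSq ((ψ : G → ℂ) n)) =
      ((Nat.card K : ℝ) - 1) * (Nat.card K : ℝ) := by
  classical
  have h1 : ∀ g : G, ∑ ψ : IrrCharacter G, Complex.normSq ((ψ : G → ℂ) g) =
      (Nat.card (Subgroup.centralizer ({g} : Set G)) : ℝ) := by
    intro g
    have h := (sum_irr_mul_conj g g).1 (IsConj.refl g)
    apply Complex.ofReal_injective
    push_cast
    rw [← h]
    exact Finset.sum_congr rfl fun ψ _ => (Complex.mul_conj _).symm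
  have h2 : ∀ n : Nz K, (n : G) ∈ K → n ≠ 1 →
      ∑ ψ : IrrCharacter G, Complex.normSq ((ψ : G → ℂ) n) = (Nat.card K : ℝ) := by
    intro n hn hn1
    rw [h1]
    have e : Subgroup.centralizer ({(n : G)} : Set G) = K := by
      apply le_antisymm (hd.cc _ hn (fun h => hn1 (Subtype.ext h)))
      intro k hk
      rw [Subgroup.mem_centralizer_iff]
      intro h hh
      rw [Set.mem_singleton_iff] at hh
      rw [hh]
      exact hd.ab _ hn _ hk
    rw [e]
  rw [← bk_const (K := K) (Nat.card K : ℝ)]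
  unfold bk
  rw [Finset.sum_comm]
  refine Finset.sum_congr rfl fun n _ => ?_
  by_cases hcnd : (n : G) ∈ K ∧ n ≠ 1
  · simp only [if_pos hcnd]
    exact h2 n hcnd.1 hcnd.2
  · simp only [if_neg hcnd]
    exact Finset.sum_const_zero

/-- The number of exceptional characters. -/
theorem card_exc (hd : TIData K) :
    Nat.card (Exc K) * (K.subgroupOf (Nz K)).index + 1 = Nat.card K := by
  classical
  haveI : Fintype (Exc K) := Fintype.ofFinite _
  set l : ℂ := ((K.subgroupOf (Nz K)).index : ℂ) with hl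
  set a : ℂ := (Nat.card K : ℂ) with ha
  have hl0 : l ≠ 0 := index_ne_zero K
  have ha0 : a ≠ 0 := Nat.cast_ne_zero.mpr Nat.card_pos.ne'
  have hN : (Nat.card (Nz K) : ℂ) = a * l := by rw [card_nz K]; push_cast; ring
  -- the predicate
  let P : IrrCharacter (Nz K) → Prop := fun χ =>
    ∃ k : Nz K, (k : G) ∈ K ∧ (χ : Nz K → ℂ) k ≠ (χ : Nz K → ℂ) 1
  have hsumK : ∀ χ : IrrCharacter (Nz K),
      (∑ n : Nz K, if (n : G) ∈ K then (χ : Nz K → ℂ) n else 0) =
        if P χ then 0 else a * (χ : Nz K → ℂ) 1 := by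
    intro χ
    by_cases hP : P χ
    · rw [if_pos hP]
      have h0 := ti_sum_zero K (χ : Nz K → ℂ) ⟨χ.2, hP⟩
      refine Eq.trans ?_ h0
      refine Finset.sum_congr rfl fun n _ => ?_
      by_cases hn : (n : G) ∈ K
      · rw [if_pos hn]
      · rw [if_neg hn, exc_vanish hd ⟨χ, hP⟩ n hn]
    · rw [if_neg hP]
      have hconst : ∀ n : Nz K, (n : G) ∈ K → (χ : Nz K → ℂ) n = (χ : Nz K → ℂ) 1 := by
        intro n hn
        by_contra hne
        exact hP ⟨n, hn, hne⟩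
      have e1 : (∑ n : Nz K, if (n : G) ∈ K then (χ : Nz K → ℂ) n else 0) =
          ∑ n : Nz K, if (n : G) ∈ K then (χ : Nz K → ℂ) 1 else 0 := by
        refine Finset.sum_congr rfl fun n _ => ?_
        by_cases hn : (n : G) ∈ K
        · rw [if_pos hn, if_pos hn, hconst n hn]
        · rw [if_neg hn, if_neg hn]
      rw [e1, sum_mem (K := K) (fun _ => (χ : Nz K → ℂ) 1), Finset.sum_const, Finset.card_univ,
        ← Nat.card_eq_fintype_card, nsmul_eq_mul]
  -- regular character summed over `K`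
  have hreg : (∑ n : Nz K, if (n : G) ∈ K then
      (∑ χ : IrrCharacter (Nz K), (χ : Nz K → ℂ) 1 * (χ : Nz K → ℂ) n) else 0) = a * l := by
    rw [← hN, Finset.sum_eq_single (1 : Nz K)]
    · rw [if_pos (show ((1 : Nz K) : G) ∈ K from K.one_mem), sum_irr_one_mul, if_pos rfl]
    · intro n _ hn1
      by_cases hn : (n : G) ∈ K
      · rw [if_pos hn, sum_irr_one_mul, if_neg hn1]
      · rw [if_neg hn]
    · intro h; exact absurd (Finset.mem_univ _) h
  have hswap : (∑ n : Nz K, if (n : G) ∈ K then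
      (∑ χ : IrrCharacter (Nz K), (χ : Nz K → ℂ) 1 * (χ : Nz K → ℂ) n) else 0) =
      ∑ χ : IrrCharacter (Nz K), (χ : Nz K → ℂ) 1 *
        (∑ n : Nz K, if (n : G) ∈ K then (χ : Nz K → ℂ) n else 0) := by
    have e1 : ∀ n : Nz K, (if (n : G) ∈ K then
        (∑ χ : IrrCharacter (Nz K), (χ : Nz K → ℂ) 1 * (χ : Nz K → ℂ) n) else 0) =
        ∑ χ : IrrCharacter (Nz K), (χ : Nz K → ℂ) 1 *
          (if (n : G) ∈ K then (χ : Nz K → ℂ) n else 0) := by
      intro n
      by_cases hn : (n : G) ∈ K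
      · simp only [if_pos hn]
      · simp only [if_neg hn, mul_zero, Finset.sum_const_zero]
    rw [Finset.sum_congr rfl (fun n _ => e1 n), Finset.sum_comm]
    refine Finset.sum_congr rfl fun χ _ => ?_
    rw [Finset.mul_sum]
  rw [hswap, Finset.sum_congr rfl (fun χ _ => by rw [hsumK χ])] at hreg
  -- hreg : ∑ χ, χ 1 * (if P χ then 0 else a * χ 1) = a * l
  have hD : ∑ χ : IrrCharacter (Nz K), (if P χ then 0 else (χ : Nz K → ℂ) 1 ^ 2) = l := by
    have e2 : ∑ χ : IrrCharacter (Nz K), (χ : Nz K → ℂ) 1 *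
        (if P χ then 0 else a * (χ : Nz K → ℂ) 1) =
        a * ∑ χ : IrrCharacter (Nz K), (if P χ then 0 else (χ : Nz K → ℂ) 1 ^ 2) := by
      rw [Finset.mul_sum]
      refine Finset.sum_congr rfl fun χ _ => ?_
      by_cases hP : P χ
      · simp only [if_pos hP, mul_zero]
      · simp only [if_neg hP]; ring
    rw [e2] at hreg
    exact mul_left_cancel₀ ha0 hreg
  have hsq := sum_irr_one_sq (G := Nz K)
  have hsplit : ∑ χ : IrrCharacter (Nz K), (χ : Nz K → ℂ) 1 ^ 2 =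
      (∑ χ : IrrCharacter (Nz K), if P χ then l ^ 2 else 0) +
        ∑ χ : IrrCharacter (Nz K), (if P χ then 0 else (χ : Nz K → ℂ) 1 ^ 2) := by
    rw [← Finset.sum_add_distrib]
    refine Finset.sum_congr rfl fun χ _ => ?_
    by_cases hP : P χ
    · simp only [if_pos hP, add_zero]
      rw [exc_deg hd ⟨χ, hP⟩]
    · simp only [if_neg hP, zero_add]
  have hcnt : (∑ χ : IrrCharacter (Nz K), if P χ then l ^ 2 else 0) =
      (Nat.card (Exc K) : ℂ) * l ^ 2 := by
    rw [← Finset.sum_filter, Finset.sum_const, nsmul_eq_mul]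
    congr 2
    rw [Nat.card_eq_fintype_card, Fintype.card_subtype]
  rw [hsplit, hcnt, hD, hN] at hsq
  have hfin : ((Nat.card (Exc K) * (K.subgroupOf (Nz K)).index + 1 : ℕ) : ℂ) =
      ((Nat.card K : ℕ) : ℂ) := by
    push_cast
    rw [← hl, ← ha]
    have : l * ((Nat.card (Exc K) : ℂ) * l + 1) = l * a := by linear_combination hsq
    exact mul_left_cancel₀ hl0 this
  exact_mod_cast hfin

/-- Two exceptional characters agree away from the conjugates of `K^#`. -/
theorem f_eq_off (hd : TIData K) {ε : ℂ} {f : Exc K → IrrCharacter G} (he : ExcData K ε f)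
    (χ ξ : Exc K) (y : G) (hy : ∀ x : G, x⁻¹ * y * x ∈ K → x⁻¹ * y * x = 1) :
    (f χ : G → ℂ) y = (f ξ : G → ℂ) y := by
  have h0 : indFun (Nz K) ((χ.1 : Nz K → ℂ) - (ξ.1 : Nz K → ℂ)) y = 0 := by
    apply indFun_eq_zero_of_not_conj
    intro x hx
    show (χ.1 : Nz K → ℂ) ⟨x⁻¹ * y * x, hx⟩ - (ξ.1 : Nz K → ℂ) ⟨x⁻¹ * y * x, hx⟩ = 0
    by_cases hK : x⁻¹ * y * x ∈ K
    · have h1 : (⟨x⁻¹ * y * x, hx⟩ : Nz K) = 1 := Subtype.ext (hy x hK)
      rw [h1, exc_deg hd χ, exc_deg hd ξ, sub_self]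
    · rw [exc_vanish hd χ _ hK, exc_vanish hd ξ _ hK, sub_self]
  have h1 := congrFun (he.ind χ ξ) y
  rw [h0] at h1
  have h2 : ε * ((f χ : G → ℂ) y - (f ξ : G → ℂ) y) = 0 := by
    simpa using h1.symm
  exact sub_eq_zero.mp ((mul_eq_zero.mp h2).resolve_left (eps_ne he))

theorem exc_ne_one (χ : Exc K) : (χ.1 : Nz K → ℂ) ≠ fun _ => 1 := by
  intro h
  obtain ⟨k, -, hk⟩ := χ.2
  apply hk
  rw [h]

/-- No exceptional character is the principal character. -/
theorem f_ne_one {ε : ℂ} {f : Exc K → IrrCharacter G} (he : ExcData K ε f)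
    (χ ξ : Exc K) (hne : ξ ≠ χ) : (f χ : G → ℂ) ≠ fun _ => 1 := by
  classical
  intro h1
  have hone : IsIrrCharacter G (fun _ => (1 : ℂ)) := isIrrCharacter_one
  have h := inner_res_sub he ⟨_, hone⟩ ξ χ
  have hone' : IsIrrCharacter (Nz K) (fun _ => (1 : ℂ)) := isIrrCharacter_one
  rw [classInner_sub_left, irr_inner_eq ξ.1.2 hone', irr_inner_eq χ.1.2 hone',
    if_neg (exc_ne_one ξ), if_neg (exc_ne_one χ), irr_inner_eq (f ξ).2 hone,
    irr_inner_eq (f χ).2 hone, if_pos h1, if_neg, sub_zero, zero_sub, mul_neg, mul_one] at h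
  · exact eps_ne he (neg_eq_zero.mp h.symm)
  · intro h2
    exact hne (he.inj (Subtype.ext (h2.trans h1.symm)))

end TI

section Cross

variable {G : Type u} [Group G] [Fintype G] {K K' : Subgroup G}

/-- Exceptional families of subgroups with disjoint conjugacy supports are disjoint. -/
theorem f_disjoint (hd : TIData K) (hd' : TIData K') {ε ε' : ℂ} {f : Exc K → IrrCharacter G}
    {f' : Exc K' → IrrCharacter G} (he : ExcData K ε f) (he' : ExcData K' ε' f')
    (hdis : ∀ y : G, (∃ x : G, x⁻¹ * y * x ∈ K) → (∃ x : G, x⁻¹ * y * x ∈ K') → y = 1)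
    (χ ξ : Exc K) (hne : ξ ≠ χ) (η ζ : Exc K') (hne' : ζ ≠ η) : f χ ≠ f' η := by
  classical
  intro heq
  have h0 : classInner ((f ξ : G → ℂ) - (f χ : G → ℂ)) ((f' η : G → ℂ) - (f' ζ : G → ℂ)) = 0 := by
    rw [classInner_def', Finset.sum_eq_zero, mul_zero]
    intro y _
    by_cases hy : ∀ x : G, x⁻¹ * y * x ∈ K → x⁻¹ * y * x = 1
    · rw [Pi.sub_apply, f_eq_off hd he ξ χ y hy, sub_self, zero_mul]
    · push Not at hy
      obtain ⟨x, hx, hx1⟩ := hy
      have hy' : ∀ x' : G, x'⁻¹ * y * x' ∈ K' → x'⁻¹ * y * x' = 1 := by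
        intro x' hx'
        have := hdis y ⟨x, hx⟩ ⟨x', hx'⟩
        rw [this]; group
      rw [Pi.sub_apply, Pi.sub_apply, f_eq_off hd' he' η ζ y hy', sub_self, map_zero, mul_zero]
  rw [← heq, classInner_sub_left, classInner_sub_right, classInner_sub_right,
    irr_inner_eq (f ξ).2 (f χ).2, irr_inner_eq (f χ).2 (f χ).2, irr_inner_eq (f χ).2 (f' ζ).2,
    irr_inner_eq (f ξ).2 (f' ζ).2, if_pos rfl,
    if_neg (show ¬ ((f ξ : G → ℂ) = (f χ : G → ℂ)) from fun h => hne (he.inj (Subtype.ext h))),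
    if_neg (show ¬ ((f χ : G → ℂ) = (f' ζ : G → ℂ)) from
      fun h => hne' (he'.inj (Subtype.ext (h.symm.trans (congrArg Subtype.val heq)))))] at h0
  split_ifs at h0 <;> norm_num at h0

/-- Parity: exceptional characters of two families cannot both vanish on the other block. -/
theorem parity [Fintype (Nz K)] [Fintype (Nz K')] (hodd : Odd (Nat.card G)) (hd : TIData K)
    (hd' : TIData K') {ε ε' : ℂ} {f : Exc K → IrrCharacter G} {f' : Exc K' → IrrCharacter G}
    (he : ExcData K ε f) (he' : ExcData K' ε' f')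
    (u : Nz K) (hu : (u : G) ∈ K) (hu1 : u ≠ 1) (v : Nz K') (hv : (v : G) ∈ K') (hv1 : v ≠ 1)
    (hnc : ¬ IsConj (u : G) (v : G))
    (h1 : ∀ χ : Exc K, (f χ : G → ℂ) v = 0) (h2 : ∀ η : Exc K', (f' η : G → ℂ) u = 0) :
    False := by
  classical
  have hz : ∀ ψ : IrrCharacter G, ∃ z : ℤ,
      (ψ : G → ℂ) u * starRingEnd ℂ ((ψ : G → ℂ) v) = z := by
    intro ψ
    by_cases hA : ∃ χ : Exc K, f χ = ψ
    · obtain ⟨χ, rfl⟩ := hA
      exact ⟨0, by rw [h1 χ]; simp⟩
    · by_cases hB : ∃ η : Exc K', f' η = ψ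
      · obtain ⟨η, rfl⟩ := hB
        exact ⟨0, by rw [h2 η]; simp⟩
      · obtain ⟨c, hc⟩ := nonexc_const hd he ψ (fun χ h => hA ⟨χ, h⟩)
        obtain ⟨c', hc'⟩ := nonexc_const hd' he' ψ (fun η h => hB ⟨η, h⟩)
        refine ⟨c * c', ?_⟩
        rw [hc u hu hu1, hc' v hv hv1]
        simp
  choose z hz using hz
  have hsum : ∑ ψ : IrrCharacter G, z ψ = 0 := by
    have h := (sum_irr_mul_conj (u : G) (v : G)).2 hnc
    have h' : ((∑ ψ : IrrCharacter G, z ψ : ℤ) : ℂ) = 0 := by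
      rw [← h]
      push_cast
      exact Finset.sum_congr rfl fun ψ _ => (hz ψ).symm
    exact_mod_cast h'
  let one : IrrCharacter G := ⟨fun _ => 1, isIrrCharacter_one⟩
  refine sum_invol_odd irrConj ?_ z ?_ one ?_ ?_ ?_ hsum
  · intro ψ
    apply Subtype.ext
    funext g
    simp [irrConj]
  · intro ψ
    have e1 := hz (irrConj ψ)
    have e2 := hz ψ
    have e3 : ((irrConj ψ : IrrCharacter G) : G → ℂ) u *
        starRingEnd ℂ (((irrConj ψ : IrrCharacter G) : G → ℂ) v) =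
        starRingEnd ℂ ((ψ : G → ℂ) u * starRingEnd ℂ ((ψ : G → ℂ) v)) := by
      simp [irrConj]
    rw [e3, e2] at e1
    simp only [map_intCast] at e1
    exact_mod_cast e1.symm
  · intro ψ hfix
    apply Subtype.ext
    apply irr_eq_one_of_real_of_odd hodd ψ
    intro g
    have h3 := congrArg (fun φ : IrrCharacter G => (φ : G → ℂ) g) hfix
    simp only [irrConj] at h3
    exact Complex.conj_eq_iff_im.mp h3
  · apply Subtype.ext
    funext g
    simp [irrConj, one]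
  · have e := hz one
    simp only [one, map_one, mul_one] at e
    exact_mod_cast e.symm

end Cross

section Global

variable {G : Type u} [Group G] [Fintype G] {ι : Type*} [Fintype ι] (H : ι → Subgroup G)
  [∀ i, Fintype (Nz (H i))]

/-- Integration over a group partitioned by the conjugates of T.I. subgroups. -/
theorem int_formula (hd : ∀ i, TIData (H i))
    (hcov : ∀ y : G, y ≠ 1 → ∃ i, ∃ x : G, x * y * x⁻¹ ∈ H i)
    (hdis : ∀ i k, i ≠ k → ∀ y : G, (∃ x : G, x * y * x⁻¹ ∈ H i) →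
      (∃ x : G, x * y * x⁻¹ ∈ H k) → y = 1)
    (F : G → ℂ) (hF : IsClassFunction G F) :
    ∑ y, F y = F 1 + ∑ i, ((Nat.card G : ℂ) / (Nat.card (Nz (H i)) : ℂ)) *
      bk (H i) (fun n : Nz (H i) => F n) := by
  classical
  let φ : ∀ i, Nz (H i) → ℂ := fun i n => if ((n : G) ∈ H i ∧ n ≠ 1) then F n else 0
  have hφdef : ∀ i (n : Nz (H i)), φ i n = if ((n : G) ∈ H i ∧ n ≠ 1) then F n else 0 :=
    fun i n => rfl
  have hφbk : ∀ i, bk (H i) (fun n : Nz (H i) => F n) = ∑ n, φ i n := by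
    intro i
    unfold bk
    refine Finset.sum_congr rfl fun n _ => ?_
    rw [hφdef]
  have hφcf : ∀ i, IsClassFunction (Nz (H i)) (φ i) := by
    intro i g h
    have hmem : ((h * g * h⁻¹ : Nz (H i)) : G) ∈ H i ↔ (g : G) ∈ H i := by
      have h3 := Subgroup.mem_normalizer_iff.mp h.2 (g : G)
      constructor
      · intro h4; exact h3.mpr (by simpa using h4)
      · intro h4; have := h3.mp h4; simpa using this
    have hne : (h * g * h⁻¹ ≠ 1) ↔ g ≠ 1 := by
      constructor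
      · intro h1 h2; apply h1; rw [h2]; simp
      · intro h1 h2; apply h1
        have h5 := congrArg (fun t => h⁻¹ * t * h) h2
        simpa [mul_assoc] using h5
    have hFv : F ((h * g * h⁻¹ : Nz (H i)) : G) = F g := by
      have h6 := hF (g : G) (h : G)
      rw [← h6]; simp
    rw [hφdef, hφdef, hFv]
    by_cases hc : (g : G) ∈ H i ∧ g ≠ 1
    · rw [if_pos hc, if_pos ⟨hmem.mpr hc.1, hne.mpr hc.2⟩]
    · rw [if_neg hc, if_neg (fun hc' => hc ⟨hmem.mp hc'.1, hne.mp hc'.2⟩)]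
  have hφvan : ∀ i, ∀ n : Nz (H i), (n : G) ∉ H i → φ i n = 0 := by
    intro i n hn
    rw [hφdef, if_neg (fun hc => hn hc.1)]
  have hpt : ∀ y : G, F y = (if y = 1 then F 1 else 0) +
      ∑ i, indFun (Nz (H i)) (φ i) y := by
    intro y
    by_cases hy : y = 1
    · subst hy
      rw [if_pos rfl]
      have h0 : ∀ i, indFun (Nz (H i)) (φ i) 1 = 0 := by
        intro i
        rw [indFun_one, hφdef, if_neg (fun hc => hc.2 rfl), mul_zero]
      rw [Finset.sum_congr rfl (fun i _ => h0 i), Finset.sum_const_zero, add_zero]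
    · rw [if_neg hy, zero_add]
      obtain ⟨i, x, hx⟩ := hcov y hy
      rw [Finset.sum_eq_single i]
      · have hcl := indFun_isClassFunction (Nz (H i)) (φ i) y x
        rw [← hcl]
        have hxN : x * y * x⁻¹ ∈ Nz (H i) := le_nz _ hx
        have hne1 : (⟨x * y * x⁻¹, hxN⟩ : Nz (H i)) ≠ 1 := by
          intro h
          apply hy
          have h7 : x * y * x⁻¹ = 1 := congrArg Subtype.val h
          have h8 : y = x⁻¹ * (x * y * x⁻¹) * x := by group
          rw [h8, h7]; group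
        have h9 : indFun (Nz (H i)) (φ i) (x * y * x⁻¹) = φ i ⟨x * y * x⁻¹, hxN⟩ :=
          indFun_TI_apply (H i : Set G) (hd i).ti (φ i) (hφcf i) (hφvan i)
            ⟨x * y * x⁻¹, hxN⟩ hx hne1
        rw [h9, hφdef, if_pos ⟨hx, hne1⟩]
        exact (hF y x).symm
      · intro k _ hki
        apply indFun_eq_zero_of_not_conj
        intro x' hx'
        rw [hφdef, if_neg]
        rintro ⟨hmem, -⟩
        exact hy (hdis i k (Ne.symm hki) y ⟨x, hx⟩ ⟨x'⁻¹, by simpa using hmem⟩)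
      · intro h; exact absurd (Finset.mem_univ i) h
  have hsumind : ∀ i, ∑ y, indFun (Nz (H i)) (φ i) y =
      ((Nat.card G : ℂ) / (Nat.card (Nz (H i)) : ℂ)) * bk (H i) (fun n : Nz (H i) => F n) := by
    intro i
    have h := classInner_indFun (Nz (H i)) (φ i) (fun _ => (1 : ℂ)) (fun _ _ => rfl)
    rw [classInner_def', classInner_def'] at h
    simp only [map_one, mul_one] at h
    have hG : (Nat.card G : ℂ) ≠ 0 := Nat.cast_ne_zero.mpr Nat.card_pos.ne'
    rw [hφbk i]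
    rw [inv_mul_eq_iff_eq_mul₀ hG] at h
    rw [h]
    ring
  calc ∑ y, F y = ∑ y, ((if y = 1 then F 1 else 0) + ∑ i, indFun (Nz (H i)) (φ i) y) :=
        Finset.sum_congr rfl (fun y _ => hpt y)
    _ = F 1 + ∑ i, ∑ y, indFun (Nz (H i)) (φ i) y := by
        rw [Finset.sum_add_distrib, Finset.sum_ite_eq' Finset.univ (1 : G) (fun _ => F 1),
          if_pos (Finset.mem_univ _), Finset.sum_comm]
    _ = _ := by rw [Finset.sum_congr rfl (fun i _ => hsumind i)]

theorem int_formula_real (hd : ∀ i, TIData (H i))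
    (hcov : ∀ y : G, y ≠ 1 → ∃ i, ∃ x : G, x * y * x⁻¹ ∈ H i)
    (hdis : ∀ i k, i ≠ k → ∀ y : G, (∃ x : G, x * y * x⁻¹ ∈ H i) →
      (∃ x : G, x * y * x⁻¹ ∈ H k) → y = 1)
    (F : G → ℝ) (hF : ∀ g h : G, F (h * g * h⁻¹) = F g) :
    ∑ y, F y = F 1 + ∑ i, ((Nat.card G : ℝ) / (Nat.card (Nz (H i)) : ℝ)) *
      bk (H i) (fun n : Nz (H i) => F n) := by
  have h := int_formula H hd hcov hdis (fun y => (F y : ℂ)) (fun g h => by
    show ((F (h * g * h⁻¹) : ℝ) : ℂ) = (F g : ℂ)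
    rw [hF g h])
  have hbk : ∀ i, bk (H i) (fun n : Nz (H i) => ((F n : ℝ) : ℂ)) =
      ((bk (H i) (fun n : Nz (H i) => F n) : ℝ) : ℂ) := by
    intro i
    unfold bk
    rw [Complex.ofReal_sum]
    refine Finset.sum_congr rfl fun n _ => ?_
    split_ifs <;> simp
  simp only [hbk] at h
  apply Complex.ofReal_injective
  push_cast
  exact h

/-- Column bound: the exceptional families which do not vanish on the block of `i₀` are few. -/
theorem col_bound (hd : ∀ i, TIData (H i)) (ε : ι → ℂ)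
    (f : ∀ i, Exc (H i) → IrrCharacter G) (he : ∀ i, ExcData (H i) (ε i) (f i))
    (hfdis : ∀ i k, i ≠ k → ∀ (χ : Exc (H i)) (η : Exc (H k)), f i χ ≠ f k η)
    (hex2 : ∀ i, ∀ χ : Exc (H i), ∃ ξ : Exc (H i), ξ ≠ χ)
    (i₀ : ι)
    (h2l : 2 * (((H i₀).subgroupOf (Nz (H i₀))).index : ℝ) + 1 ≤ (Nat.card (H i₀) : ℝ))
    (Z : Finset ι) (hZ : i₀ ∉ Z)
    (hlow : ∀ k ∈ Z, ∀ η : Exc (H k), (Nat.card (H i₀) : ℝ) - 1 ≤
      bk (H i₀) (fun n : Nz (H i₀) => Complex.normSq ((f k η : G → ℂ) n))) :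
    ∑ k ∈ Z, (Nat.card (Exc (H k)) : ℝ) ≤
      (((H i₀).subgroupOf (Nz (H i₀))).index : ℝ) - 1 := by
  classical
  haveI : ∀ k, Fintype (Exc (H k)) := fun k => Fintype.ofFinite _
  set a : ℝ := (Nat.card (H i₀) : ℝ) with ha
  set l : ℝ := (((H i₀).subgroupOf (Nz (H i₀))).index : ℝ) with hl
  let w : IrrCharacter G → ℝ := fun ψ =>
    bk (H i₀) (fun n : Nz (H i₀) => Complex.normSq ((ψ : G → ℂ) n))
  have hw0 : ∀ ψ, 0 ≤ w ψ := by
    intro ψ
    show 0 ≤ bk (H i₀) (fun n : Nz (H i₀) => Complex.normSq ((ψ : G → ℂ) n))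
    unfold bk
    refine Finset.sum_nonneg fun n _ => ?_
    split_ifs
    · exact Complex.normSq_nonneg _
    · exact le_refl 0
  have hcol : ∑ ψ, w ψ = (a - 1) * a := col_sum (hd i₀)
  let one : IrrCharacter G := ⟨fun _ => 1, isIrrCharacter_one⟩
  let Φ : Option (Σ k : ↥(insert i₀ Z), Exc (H k.1)) → IrrCharacter G := fun t =>
    match t with
    | none => one
    | some p => f p.1.1 p.2
  have hΦ : Function.Injective Φ := by
    intro t t' h
    match t, t', h with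
    | none, none, _ => rfl
    | none, some p, h =>
      exfalso
      obtain ⟨ξ, hξ⟩ := hex2 p.1.1 p.2
      exact f_ne_one (he p.1.1) p.2 ξ hξ (congrArg Subtype.val h).symm
    | some p, none, h =>
      exfalso
      obtain ⟨ξ, hξ⟩ := hex2 p.1.1 p.2
      exact f_ne_one (he p.1.1) p.2 ξ hξ (congrArg Subtype.val h)
    | some ⟨k, η⟩, some ⟨k', η'⟩, h =>
      by_cases hk : k = k'
      · subst hk
        have e : η = η' := (he k.1).inj h
        rw [e]
      · exfalso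
        exact hfdis k.1 k'.1 (fun h' => hk (Subtype.ext h')) η η' h
  have h1 : ∑ t, w (Φ t) ≤ ∑ ψ, w ψ := by
    rw [← Finset.sum_image (s := Finset.univ) (g := Φ) (f := w) (fun a _ b _ h => hΦ h)]
    exact Finset.sum_le_sum_of_subset_of_nonneg (Finset.subset_univ _) (fun ψ _ _ => hw0 ψ)
  have h2 : ∑ t, w (Φ t) = w one + ∑ k ∈ insert i₀ Z, ∑ η : Exc (H k), w (f k η) := by
    rw [Fintype.sum_option, Fintype.sum_sigma]
    congr 1
    exact Finset.sum_coe_sort (insert i₀ Z) (fun k => ∑ η : Exc (H k), w (f k η))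
  have h3 : w one = a - 1 := by
    show bk (H i₀) (fun _ : Nz (H i₀) => Complex.normSq (1 : ℂ)) = a - 1
    rw [map_one, bk_const, mul_one]
  have hs : (Nat.card (Exc (H i₀)) : ℝ) * l + 1 = a := by
    have := card_exc (hd i₀)
    rw [ha, ← this, hl]; push_cast; ring
  have h4 : (Nat.card (Exc (H i₀)) : ℝ) * (a * l - l ^ 2) ≤ ∑ η : Exc (H i₀), w (f i₀ η) := by
    have : ∑ _η : Exc (H i₀), (a * l - l ^ 2) ≤ ∑ η : Exc (H i₀), w (f i₀ η) :=
      Finset.sum_le_sum fun η _ => exc_bk_ge (hd i₀) (he i₀) η h2l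
    rw [Finset.sum_const, Finset.card_univ, ← Nat.card_eq_fintype_card, nsmul_eq_mul] at this
    exact this
  have h5 : ∑ k ∈ Z, (Nat.card (Exc (H k)) : ℝ) * (a - 1) ≤
      ∑ k ∈ Z, ∑ η : Exc (H k), w (f k η) := by
    refine Finset.sum_le_sum fun k hk => ?_
    have : ∑ _η : Exc (H k), (a - 1) ≤ ∑ η : Exc (H k), w (f k η) :=
      Finset.sum_le_sum fun η _ => hlow k hk η
    rw [Finset.sum_const, Finset.card_univ, ← Nat.card_eq_fintype_card, nsmul_eq_mul] at this
    exact this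
  rw [Finset.sum_insert hZ] at h2
  rw [← Finset.sum_mul] at h5
  have ha1 : 0 < a - 1 := by
    have : 0 < l := by
      rw [hl]
      exact Nat.cast_pos.mpr (Nat.pos_of_ne_zero Subgroup.index_ne_zero_of_finite)
    linarith
  have h6 : (a - 1) * (1 + (a - l) + ∑ k ∈ Z, (Nat.card (Exc (H k)) : ℝ)) ≤ (a - 1) * a := by
    have e : (Nat.card (Exc (H i₀)) : ℝ) * (a * l - l ^ 2) = (a - 1) * (a - l) := by
      have : (Nat.card (Exc (H i₀)) : ℝ) * l = a - 1 := by linarith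
      calc (Nat.card (Exc (H i₀)) : ℝ) * (a * l - l ^ 2)
          = ((Nat.card (Exc (H i₀)) : ℝ) * l) * (a - l) := by ring
        _ = (a - 1) * (a - l) := by rw [this]
    rw [e] at h4
    linarith
  have h7 := le_of_mul_le_mul_left h6 ha1
  linarith

/-- **Suzuki's counting argument.** A group of odd order is not partitioned by the conjugates of
abelian T.I. subgroups with Frobenius normalizers. -/
theorem no_partition [Nonempty ι] (hodd : Odd (Nat.card G)) (hd : ∀ i, TIData (H i))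
    (hlt : ∀ i, H i < Nz (H i))
    (hcop : ∀ i k, i ≠ k → Nat.Coprime (Nat.card (H i)) (Nat.card (H k)))
    (hcov : ∀ y : G, y ≠ 1 → ∃ i, ∃ x : G, x * y * x⁻¹ ∈ H i) : False := by
  classical
  have hdis : ∀ i k, i ≠ k → ∀ y : G, (∃ x : G, x * y * x⁻¹ ∈ H i) →
      (∃ x : G, x * y * x⁻¹ ∈ H k) → y = 1 := by
    rintro i k hik y ⟨x, hx⟩ ⟨x', hx'⟩
    have h1 : orderOf y ∣ Nat.card (H i) := by
      have := Subgroup.orderOf_dvd_natCard (H i) hx
      rwa [show x * y * x⁻¹ = MulAut.conj x y from rfl, MulEquiv.orderOf_eq] at this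
    have h2 : orderOf y ∣ Nat.card (H k) := by
      have := Subgroup.orderOf_dvd_natCard (H k) hx'
      rwa [show x' * y * x'⁻¹ = MulAut.conj x' y from rfl, MulEquiv.orderOf_eq] at this
    have h3 := Nat.dvd_gcd h1 h2
    rw [Nat.Coprime.gcd_eq_one (hcop i k hik)] at h3
    exact orderOf_eq_one_iff.mp (Nat.dvd_one.mp h3)
  have hdis' : ∀ i k, i ≠ k → ∀ y : G, (∃ x : G, x⁻¹ * y * x ∈ H i) →
      (∃ x : G, x⁻¹ * y * x ∈ H k) → y = 1 := by
    rintro i k hik y ⟨x, hx⟩ ⟨x', hx'⟩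
    exact hdis i k hik y ⟨x⁻¹, by simpa using hx⟩ ⟨x'⁻¹, by simpa using hx'⟩
  choose ε f he using fun i => exists_excData (hd i)
  set g : ℝ := (Nat.card G : ℝ) with hg
  have hgpos : 0 < g := by rw [hg]; exact_mod_cast Nat.card_pos
  let a : ι → ℕ := fun i => Nat.card (H i)
  let l : ι → ℕ := fun i => ((H i).subgroupOf (Nz (H i))).index
  let s : ι → ℕ := fun i => Nat.card (Exc (H i))
  have hsl : ∀ i, s i * l i + 1 = a i := fun i => card_exc (hd i)
  have hNr : ∀ i, (Nat.card (Nz (H i)) : ℝ) = (a i : ℝ) * (l i : ℝ) := fun i => card_nz_real (H i)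
  have ha_odd : ∀ i, Odd (a i) := fun i =>
    hodd.of_dvd_nat (Subgroup.card_subgroup_dvd_card (H i))
  have hl_odd : ∀ i, Odd (l i) := by
    intro i
    have h1 : l i ∣ Nat.card (Nz (H i)) := Subgroup.index_dvd_card _
    exact hodd.of_dvd_nat (h1.trans (Subgroup.card_subgroup_dvd_card _))
  have ha2 : ∀ i, 2 ≤ a i := fun i => (Subgroup.one_lt_card_iff_ne_bot (H i)).mpr (hd i).ne
  have hl2 : ∀ i, 2 ≤ l i := by
    intro i
    have h1 : l i ≠ 1 := by
      intro h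
      have h2 : (H i).subgroupOf (Nz (H i)) = ⊤ := Subgroup.index_eq_one.mp h
      have h3 : Nz (H i) ≤ H i := Subgroup.subgroupOf_eq_top.mp h2
      exact absurd h3 (not_le_of_gt (hlt i))
    have h0 : l i ≠ 0 := Subgroup.index_ne_zero_of_finite
    omega
  have hs2 : ∀ i, 2 ≤ s i := by
    intro i
    have h1 := hsl i
    have hs0 : s i ≠ 0 := by
      intro h0
      rw [h0] at h1
      have := ha2 i
      omega
    have hseven : Even (s i) := by
      have h2 : Even (s i * l i) := by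
        obtain ⟨m, hm⟩ := ha_odd i
        exact ⟨m, by omega⟩
      rcases Nat.even_mul.mp h2 with h | h
      · exact h
      · exact absurd h (Nat.not_even_iff_odd.mpr (hl_odd i))
    obtain ⟨m, hm⟩ := hseven
    omega
  have h2l : ∀ i, 2 * l i + 1 ≤ a i := by
    intro i
    have h1 := hsl i
    have h3 := Nat.mul_le_mul_right (l i) (hs2 i)
    omega
  obtain ⟨i₀, hmin⟩ : ∃ i₀, ∀ k, a i₀ ≤ a k := by
    obtain ⟨i₀, -, h⟩ := Finset.exists_min_image Finset.univ a Finset.univ_nonempty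
    exact ⟨i₀, fun k => h k (Finset.mem_univ k)⟩
  have hak : ∀ k, k ≠ i₀ → a i₀ + 1 ≤ a k := by
    intro k hk
    have h1 := hmin k
    have h2 : a k ≠ a i₀ := by
      intro h
      have h3 : Nat.Coprime (a k) (a i₀) := hcop k i₀ hk
      rw [h] at h3
      have h4 := (Nat.coprime_self _).mp h3
      have := ha2 i₀
      omega
    omega
  have hex2 : ∀ i, ∀ χ : Exc (H i), ∃ ξ : Exc (H i), ξ ≠ χ := by
    intro i χ
    haveI : Fintype (Exc (H i)) := Fintype.ofFinite _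
    have h1 : 1 < Fintype.card (Exc (H i)) := by
      rw [← Nat.card_eq_fintype_card]; exact hs2 i
    exact Fintype.exists_ne_of_one_lt_card h1 χ
  have hne0 : Nonempty (Exc (H i₀)) := by
    have h1 := hs2 i₀
    by_contra hno
    rw [not_nonempty_iff] at hno
    have h2 : s i₀ = 0 := Nat.card_of_isEmpty
    omega
  obtain ⟨χ₀⟩ := hne0
  have hfdis : ∀ i k, i ≠ k → ∀ (χ : Exc (H i)) (η : Exc (H k)), f i χ ≠ f k η := by
    intro i k hik χ η
    obtain ⟨ξ, hξ⟩ := hex2 i χ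
    obtain ⟨ζ, hζ⟩ := hex2 k η
    exact f_disjoint (hd i) (hd k) (he i) (he k) (hdis' i k hik) χ ξ hξ η ζ hζ
  have hc : ∀ k, k ≠ i₀ → ∃ c : ℤ, ∀ n : Nz (H k), (n : G) ∈ H k → n ≠ 1 →
      (f i₀ χ₀ : G → ℂ) n = c := by
    intro k hk
    exact nonexc_const (hd k) (he k) (f i₀ χ₀)
      (fun η h => hfdis i₀ k (Ne.symm hk) χ₀ η h.symm)
  choose! c hc using hc
  let Z : Finset ι := (Finset.univ.erase i₀).filter (fun k => c k = 0)
  have hZmem : ∀ k, k ∈ Z ↔ k ≠ i₀ ∧ c k = 0 := by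
    intro k
    simp [Z]
  -- the lower bound on the block of `i₀` for the families in `Z`
  have hlow : ∀ k ∈ Z, ∀ η : Exc (H k), ((a i₀ : ℕ) : ℝ) - 1 ≤
      bk (H i₀) (fun n : Nz (H i₀) => Complex.normSq ((f k η : G → ℂ) n)) := by
    intro k hkZ η
    obtain ⟨hk, hck⟩ := (hZmem k).mp hkZ
    obtain ⟨c', hc'⟩ := nonexc_const (hd i₀) (he i₀) (f k η)
      (fun χ h => hfdis i₀ k (Ne.symm hk) χ η h)
    have hc'0 : c' ≠ 0 := by
      intro h0
      obtain ⟨u₀, hu₀⟩ := (Subgroup.ne_bot_iff_exists_ne_one).mp (hd i₀).ne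
      obtain ⟨v₀, hv₀⟩ := (Subgroup.ne_bot_iff_exists_ne_one).mp (hd k).ne
      have hu1 : (⟨u₀, le_nz _ u₀.2⟩ : Nz (H i₀)) ≠ 1 := fun h =>
        hu₀ (Subtype.ext (congrArg (fun n : Nz (H i₀) => (n : G)) h))
      have hv1 : (⟨v₀, le_nz _ v₀.2⟩ : Nz (H k)) ≠ 1 := fun h =>
        hv₀ (Subtype.ext (congrArg (fun n : Nz (H k) => (n : G)) h))
      have hu1' : (u₀ : G) ≠ 1 := fun h => hu₀ (Subtype.ext h)
      have hv1' : (v₀ : G) ≠ 1 := fun h => hv₀ (Subtype.ext h)
      refine parity hodd (hd i₀) (hd k) (he i₀) (he k) ⟨u₀, le_nz _ u₀.2⟩ u₀.2 hu1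
        ⟨v₀, le_nz _ v₀.2⟩ v₀.2 hv1 ?_ ?_ ?_
      · rw [isConj_iff]
        rintro ⟨g', hg'⟩
        exact hu1' (hdis i₀ k (Ne.symm hk) u₀ ⟨1, by simpa using u₀.2⟩
          ⟨g', by rw [hg']; exact v₀.2⟩)
      · intro χ
        have h1 := f_eq_off (hd i₀) (he i₀) χ χ₀ (v₀ : G) (by
          intro x hx
          exact absurd (hdis' i₀ k (Ne.symm hk) (v₀ : G) ⟨x, hx⟩ ⟨1, by simpa using v₀.2⟩) hv1')
        have h2 := hc k hk ⟨v₀, le_nz _ v₀.2⟩ v₀.2 hv1
        show (f i₀ χ : G → ℂ) (v₀ : G) = 0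
        rw [h1]
        rw [show (f i₀ χ₀ : G → ℂ) (v₀ : G) = (c k : ℂ) from h2, hck]
        simp
      · intro η'
        have h1 := f_eq_off (hd k) (he k) η' η (u₀ : G) (by
          intro x hx
          exact absurd (hdis' k i₀ hk (u₀ : G) ⟨x, hx⟩ ⟨1, by simpa using u₀.2⟩) hu1')
        have h2 := hc' ⟨u₀, le_nz _ u₀.2⟩ u₀.2 hu1
        show (f k η' : G → ℂ) (u₀ : G) = 0
        rw [h1]
        rw [show (f k η : G → ℂ) (u₀ : G) = (c' : ℂ) from h2, h0]
        simp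
    have hbk : bk (H i₀) (fun n : Nz (H i₀) => Complex.normSq ((f k η : G → ℂ) n)) =
        (((a i₀ : ℕ) : ℝ) - 1) * ((c' : ℝ) * (c' : ℝ)) := by
      rw [← bk_const (K := H i₀) ((c' : ℝ) * (c' : ℝ))]
      refine bk_congr fun n hn hn1 => ?_
      rw [hc' n hn hn1, Complex.normSq_intCast]
    rw [hbk]
    have h1 : (1 : ℝ) ≤ (c' : ℝ) * (c' : ℝ) := by
      have h2 : (1 : ℤ) ≤ c' * c' := by
        rcases lt_or_gt_of_ne hc'0 with h | h
        · nlinarith
        · nlinarith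
      exact_mod_cast h2
    have h3 : (0 : ℝ) ≤ ((a i₀ : ℕ) : ℝ) - 1 := by
      have := ha2 i₀
      have h4 : (2 : ℝ) ≤ ((a i₀ : ℕ) : ℝ) := by exact_mod_cast this
      linarith
    nlinarith
  have hZ0 : i₀ ∉ Z := fun h => ((hZmem i₀).mp h).1 rfl
  have hcolb := col_bound H hd ε f he hfdis hex2 i₀ (by exact_mod_cast h2l i₀) Z hZ0 hlow
  -- row and counting identities
  have hrow : g = Complex.normSq ((f i₀ χ₀ : G → ℂ) 1) +
      ∑ i, (g / (Nat.card (Nz (H i)) : ℝ)) *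
        bk (H i) (fun n : Nz (H i) => Complex.normSq ((f i₀ χ₀ : G → ℂ) n)) := by
    have h1 := int_formula_real H hd hcov hdis
      (fun y => Complex.normSq ((f i₀ χ₀ : G → ℂ) y))
      (fun y h => by
        show Complex.normSq _ = Complex.normSq _
        rw [irr_isClassFunction (f i₀ χ₀) y h])
    rw [← h1]
    have h3 := irr_inner_self (f i₀ χ₀)
    rw [classInner_def'] at h3
    have hG : (Nat.card G : ℂ) ≠ 0 := Nat.cast_ne_zero.mpr Nat.card_pos.ne'
    rw [inv_mul_eq_iff_eq_mul₀ hG, mul_one] at h3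
    apply Complex.ofReal_injective
    rw [hg]
    push_cast
    rw [← h3]
    exact Finset.sum_congr rfl fun n _ => (Complex.mul_conj _)
  have hcnt : g = 1 + ∑ i, (g / (Nat.card (Nz (H i)) : ℝ)) * (((a i : ℕ) : ℝ) - 1) := by
    have h1 := int_formula_real H hd hcov hdis (fun _ => (1 : ℝ)) (fun _ _ => rfl)
    rw [Finset.sum_const, Finset.card_univ, nsmul_eq_mul, mul_one,
      ← Nat.card_eq_fintype_card] at h1
    rw [hg]
    refine h1.trans ?_
    congr 1
    refine Finset.sum_congr rfl fun i _ => ?_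
    rw [bk_const, mul_one]
  -- abbreviations
  set A : ℝ := ((a i₀ : ℕ) : ℝ) with hA
  set L : ℝ := ((l i₀ : ℕ) : ℝ) with hL
  have hL2 : 2 ≤ L := by rw [hL]; exact_mod_cast hl2 i₀
  have hA2 : 2 * L + 1 ≤ A := by rw [hA, hL]; exact_mod_cast h2l i₀
  let p : ι → ℝ := fun i => (g / (Nat.card (Nz (H i)) : ℝ)) * (((a i : ℕ) : ℝ) - 1)
  have hx2 : 1 ≤ Complex.normSq ((f i₀ χ₀ : G → ℂ) 1) := by
    obtain ⟨m, hm0, hm⟩ := irr_one_pos_nat (f i₀ χ₀)
    rw [hm, Complex.normSq_natCast]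
    have : (1 : ℝ) ≤ (m : ℝ) := by exact_mod_cast hm0
    nlinarith
  -- block bounds
  have hb0 : (g / (Nat.card (Nz (H i₀)) : ℝ)) * (A * L - L ^ 2) ≤
      (g / (Nat.card (Nz (H i₀)) : ℝ)) *
        bk (H i₀) (fun n : Nz (H i₀) => Complex.normSq ((f i₀ χ₀ : G → ℂ) n)) := by
    have h1 := exc_bk_ge (hd i₀) (he i₀) χ₀ (by exact_mod_cast h2l i₀)
    have h2 : 0 ≤ g / (Nat.card (Nz (H i₀)) : ℝ) := by positivity
    exact mul_le_mul_of_nonneg_left h1 h2
  have hbk : ∀ k, k ≠ i₀ → p k - (if c k = 0 then p k else 0) ≤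
      (g / (Nat.card (Nz (H k)) : ℝ)) *
        bk (H k) (fun n : Nz (H k) => Complex.normSq ((f i₀ χ₀ : G → ℂ) n)) := by
    intro k hk
    have e : bk (H k) (fun n : Nz (H k) => Complex.normSq ((f i₀ χ₀ : G → ℂ) n)) =
        (((a k : ℕ) : ℝ) - 1) * ((c k : ℝ) * (c k : ℝ)) := by
      rw [← bk_const (K := H k) ((c k : ℝ) * (c k : ℝ))]
      refine bk_congr fun n hn hn1 => ?_
      rw [hc k hk n hn hn1, Complex.normSq_intCast]
    rw [e]
    have h2 : 0 ≤ g / (Nat.card (Nz (H k)) : ℝ) := by positivity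
    have h3 : (0 : ℝ) ≤ ((a k : ℕ) : ℝ) - 1 := by
      have := ha2 k
      have h4 : (2 : ℝ) ≤ ((a k : ℕ) : ℝ) := by exact_mod_cast this
      linarith
    by_cases hck : c k = 0
    · rw [if_pos hck, sub_self, hck]
      simp
    · rw [if_neg hck, sub_zero]
      have h1 : (1 : ℝ) ≤ (c k : ℝ) * (c k : ℝ) := by
        have h2 : (1 : ℤ) ≤ c k * c k := by
          rcases lt_or_gt_of_ne hck with h | h
          · nlinarith
          · nlinarith
        exact_mod_cast h2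
      show (g / (Nat.card (Nz (H k)) : ℝ)) * (((a k : ℕ) : ℝ) - 1) ≤ _
      have h5 : (((a k : ℕ) : ℝ) - 1) ≤ (((a k : ℕ) : ℝ) - 1) * ((c k : ℝ) * (c k : ℝ)) := by
        nlinarith
      exact mul_le_mul_of_nonneg_left h5 h2
  -- the sum over `Z`
  have hpZ : ∑ k ∈ Finset.univ.erase i₀, (if c k = 0 then p k else 0) ≤
      g * (L - 1) / (A + 1) := by
    rw [← Finset.sum_filter]
    have h1 : ∀ k ∈ Z, p k ≤ (g / (A + 1)) * (s k : ℝ) := by
      intro k hkZ
      obtain ⟨hk, -⟩ := (hZmem k).mp hkZ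
      show (g / (Nat.card (Nz (H k)) : ℝ)) * (((a k : ℕ) : ℝ) - 1) ≤ _
      rw [hNr k]
      have e1 : ((a k : ℕ) : ℝ) - 1 = (s k : ℝ) * (l k : ℝ) := by
        have := hsl k
        have h' : ((s k * l k + 1 : ℕ) : ℝ) = ((a k : ℕ) : ℝ) := by exact_mod_cast this
        push_cast at h'
        linarith
      rw [e1]
      have hlk : (0 : ℝ) < (l k : ℝ) := by
        have := hl2 k
        exact_mod_cast (by omega : 0 < l k)
      have hak' : A + 1 ≤ ((a k : ℕ) : ℝ) := by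
        rw [hA]
        exact_mod_cast hak k hk
      have hApos : (0 : ℝ) < A + 1 := by linarith
      have hakpos : (0 : ℝ) < ((a k : ℕ) : ℝ) := by linarith
      have e2 : g / (((a k : ℕ) : ℝ) * (l k : ℝ)) * ((s k : ℝ) * (l k : ℝ)) =
          g * (s k : ℝ) / ((a k : ℕ) : ℝ) := by
        field_simp
      rw [e2, div_mul_eq_mul_div]
      have hnum : (0 : ℝ) ≤ g * (s k : ℝ) := by positivity
      exact div_le_div_of_nonneg_left hnum hApos hak'
    calc ∑ k ∈ Z, p k ≤ ∑ k ∈ Z, (g / (A + 1)) * (s k : ℝ) := Finset.sum_le_sum h1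
      _ = (g / (A + 1)) * ∑ k ∈ Z, (s k : ℝ) := by rw [Finset.mul_sum]
      _ ≤ (g / (A + 1)) * (L - 1) := by
          have hpos : 0 ≤ g / (A + 1) := by
            have : (0 : ℝ) < A + 1 := by linarith
            positivity
          exact mul_le_mul_of_nonneg_left hcolb hpos
      _ = g * (L - 1) / (A + 1) := by ring
  -- assemble
  have hsplit1 : ∑ i, p i = p i₀ + ∑ k ∈ Finset.univ.erase i₀, p k :=
    (Finset.add_sum_erase Finset.univ p (Finset.mem_univ i₀)).symm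
  have hsplit2 : ∑ i, (g / (Nat.card (Nz (H i)) : ℝ)) *
        bk (H i) (fun n : Nz (H i) => Complex.normSq ((f i₀ χ₀ : G → ℂ) n)) =
      (g / (Nat.card (Nz (H i₀)) : ℝ)) *
        bk (H i₀) (fun n : Nz (H i₀) => Complex.normSq ((f i₀ χ₀ : G → ℂ) n)) +
      ∑ k ∈ Finset.univ.erase i₀, (g / (Nat.card (Nz (H k)) : ℝ)) *
        bk (H k) (fun n : Nz (H k) => Complex.normSq ((f i₀ χ₀ : G → ℂ) n)) :=
    (Finset.add_sum_erase Finset.univ _ (Finset.mem_univ i₀)).symm
  have hrest : ∑ k ∈ Finset.univ.erase i₀, p k -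
      ∑ k ∈ Finset.univ.erase i₀, (if c k = 0 then p k else 0) ≤
      ∑ k ∈ Finset.univ.erase i₀, (g / (Nat.card (Nz (H k)) : ℝ)) *
        bk (H k) (fun n : Nz (H k) => Complex.normSq ((f i₀ χ₀ : G → ℂ) n)) := by
    rw [← Finset.sum_sub_distrib]
    exact Finset.sum_le_sum fun k hk => hbk k (Finset.ne_of_mem_erase hk)
  have hcnt' : g = 1 + ∑ i, p i := hcnt
  rw [hsplit1] at hcnt'
  rw [hsplit2] at hrow
  have hp0 : p i₀ = g / (A * L) * (A - 1) := by
    show (g / (Nat.card (Nz (H i₀)) : ℝ)) * (((a i₀ : ℕ) : ℝ) - 1) = _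
    rw [hNr i₀]
  rw [hNr i₀] at hb0
  rw [hNr i₀] at hrow
  -- final inequality
  have hApos : 0 < A := by linarith
  have hLpos : 0 < L := by linarith
  have key : g * (L - 1) / (A + 1) < g / (A * L) * (A * L - L ^ 2 - A + 1) := by
    have e1 : g * (L - 1) / (A + 1) = (g / (A * L * (A + 1))) * (A * L * (L - 1)) := by
      field_simp
    have e2 : g / (A * L) * (A * L - L ^ 2 - A + 1) =
        (g / (A * L * (A + 1))) * ((A + 1) * (A * L - L ^ 2 - A + 1)) := by
      field_simp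
    rw [e1, e2]
    have hr : 0 < g / (A * L * (A + 1)) := by positivity
    have h1 : 0 < A ^ 2 - 2 * A * L - L - 1 := by nlinarith
    have h2 : 0 < (L - 1) * (A ^ 2 - 2 * A * L - L - 1) := mul_pos (by linarith) h1
    have h3 : (A + 1) * (A * L - L ^ 2 - A + 1) - A * L * (L - 1) =
        (L - 1) * (A ^ 2 - 2 * A * L - L - 1) := by ring
    have h4 : A * L * (L - 1) < (A + 1) * (A * L - L ^ 2 - A + 1) := by linarith
    exact mul_lt_mul_of_pos_left h4 hr
  have e3 : g / (A * L) * (A * L - L ^ 2 - A + 1) =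
      g / (A * L) * (A * L - L ^ 2) - g / (A * L) * (A - 1) := by ring
  linarith

end Global

end Cfsg.Agent.Helper21.CAChar
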