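import Mathlib
import Cfsg.Agent.Helper21.CAChar

/-!
# Irreducible characters of degree `|K| - 1` for an abelian T.I. subgroup `K` (helper21)

If `K` is an abelian T.I. subgroup containing the centralizers of its non-identity elements,
`|K| ≥ 3`, `|N(K) : K| ≥ 2` and `χ` is an irreducible character of degree `|K| - 1`, then
`χ = -1` on `K^#` and `χ` vanishes on `N(K) \ K`.
-/

set_option autoImplicit false
set_option maxHeartbeats 400000

namespace Cfsg.Agent.Helper21.DegPm1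

open Cfsg Cfsg.Agent.Helper24 Cfsg.Agent.Helper21.CAChar

universe u

theorem arith_exc (a l t c k e : ℤ) (he : e = 1 ∨ e = -1) (ht : 1 ≤ t) (hl : 2 ≤ l)
    (ha : a = t * l + 1) (hk : a * k = (a - 1) - e * l + c * (a - 1))
    (hdag : t * c ^ 2 - 2 * e * c ≤ l - 1) : t = 1 ∧ c = e - 1 := by
  have htl : l ≤ t * l := by nlinarith
  rcases he with rfl | rfl
  · have h1 : (c - 1) ^ 2 ≤ l := by nlinarith [mul_nonneg (sub_nonneg.mpr ht) (sq_nonneg c)]
    have h2 : c ≤ l := by
      by_contra h'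
      have h := not_le.mp h'
      nlinarith
    have h3 : 2 - l ≤ c := by
      by_contra h'
      have h := not_le.mp h'
      nlinarith
    have hq : a * (1 + c - k) = 1 + c + l := by linear_combination -hk
    have hq1 : 1 ≤ 1 + c - k := by
      by_contra h'
      have h := not_le.mp h'
      have h4 : a * (1 + c - k) ≤ 0 :=
        mul_nonpos_of_nonneg_of_nonpos (by linarith) (by linarith)
      linarith
    have hq2 : 1 + c - k = 1 := by
      by_contra h
      have h5 : 2 ≤ 1 + c - k := by omega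
      nlinarith
    rw [hq2, mul_one] at hq
    have ht1 : t = 1 := by
      by_contra h
      have ht2 : 2 ≤ t := by omega
      have hc : c = l := by nlinarith
      subst hc
      nlinarith
    subst ht1
    exact ⟨rfl, by linarith⟩
  · have h1 : (c + 1) ^ 2 ≤ l := by nlinarith [mul_nonneg (sub_nonneg.mpr ht) (sq_nonneg c)]
    have h2 : c ≤ l - 2 := by
      by_contra h'
      have h := not_le.mp h'
      nlinarith
    have h3 : -l ≤ c := by
      by_contra h'
      have h := not_le.mp h'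
      nlinarith
    have hq : a * (k - 1 - c) = l - 1 - c := by linear_combination hk
    have hq1 : 1 ≤ k - 1 - c := by
      by_contra h'
      have h := not_le.mp h'
      have h4 : a * (k - 1 - c) ≤ 0 :=
        mul_nonpos_of_nonneg_of_nonpos (by linarith) (by linarith)
      linarith
    have hq2 : k - 1 - c = 1 := by
      by_contra h
      have h5 : 2 ≤ k - 1 - c := by omega
      nlinarith
    rw [hq2, mul_one] at hq
    have ht1 : t = 1 := by
      by_contra h
      have ht2 : 2 ≤ t := by omega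
      nlinarith
    subst ht1
    exact ⟨rfl, by linarith⟩

theorem arith_nonexc (a c k : ℤ) (ha : 3 ≤ a) (hk : a * k = (a - 1) + (a - 1) * c)
    (hc : c ^ 2 ≤ a - 1) : c = -1 := by
  have hq : a * (1 + c - k) = 1 + c := by linear_combination -hk
  have h1 : c ≤ a - 2 := by
    by_contra h'
    have h := not_le.mp h'
    nlinarith
  have h2 : -(a - 2) ≤ c := by
    by_contra h'
    have h := not_le.mp h'
    nlinarith
  have h3 : 1 + c - k = 0 := by
    by_contra h
    rcases lt_or_gt_of_ne h with h4 | h4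
    · have : a * (1 + c - k) ≤ a * (-1) := mul_le_mul_of_nonneg_left (by omega) (by linarith)
      linarith
    · have : a * 1 ≤ a * (1 + c - k) := mul_le_mul_of_nonneg_left (by omega) (by linarith)
      linarith
  rw [h3, mul_zero] at hq
  linarith

variable {G : Type u} [Group G] [Fintype G] {K : Subgroup G} [Fintype (Nz K)]

theorem exc_sums (hd : TIData K) (χ₀ : Exc K) :
    bk K (fun n : Nz K => Complex.normSq ((χ₀.1 : Nz K → ℂ) n)) =
        (Nat.card K : ℝ) * ((K.subgroupOf (Nz K)).index : ℝ) -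
          ((K.subgroupOf (Nz K)).index : ℝ) ^ 2 ∧
      bk K (fun n : Nz K => ((χ₀.1 : Nz K → ℂ) n).re) =
        -((K.subgroupOf (Nz K)).index : ℝ) := by
  classical
  set l : ℝ := ((K.subgroupOf (Nz K)).index : ℝ) with hl
  set a : ℝ := (Nat.card K : ℝ) with ha
  have hdeg := exc_deg hd χ₀
  constructor
  · have h1 := sum_eq_bk (K := K) (fun n : Nz K => Complex.normSq ((χ₀.1 : Nz K → ℂ) n))
      (fun n hn => by rw [exc_vanish hd χ₀ n hn, map_zero])
    have h2 : ∑ n : Nz K, Complex.normSq ((χ₀.1 : Nz K → ℂ) n) = (Nat.card (Nz K) : ℝ) := by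
      have h3 := irr_inner_self χ₀.1
      rw [classInner_def'] at h3
      have hN : (Nat.card (Nz K) : ℂ) ≠ 0 := Nat.cast_ne_zero.mpr Nat.card_pos.ne'
      have h4 : ∑ n : Nz K, (χ₀.1 : Nz K → ℂ) n * starRingEnd ℂ ((χ₀.1 : Nz K → ℂ) n) =
          (Nat.card (Nz K) : ℂ) := by
        rw [inv_mul_eq_iff_eq_mul₀ hN, mul_one] at h3
        exact h3
      apply Complex.ofReal_injective
      push_cast
      rw [← h4]
      exact Finset.sum_congr rfl fun n _ => (Complex.mul_conj _).symm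
    rw [h2, card_nz_real K] at h1
    rw [hdeg, Complex.normSq_natCast] at h1
    rw [← hl, ← ha] at h1
    linarith [sq l, h1]
  · have h1 := sum_eq_bk (K := K) (fun n : Nz K => ((χ₀.1 : Nz K → ℂ) n).re)
      (fun n hn => by rw [exc_vanish hd χ₀ n hn, Complex.zero_re])
    have h2 : ∑ n : Nz K, ((χ₀.1 : Nz K → ℂ) n).re = 0 := by
      rw [← Complex.re_sum, ti_sum_zero K _ (exc_mem χ₀), Complex.zero_re]
    rw [h2] at h1
    rw [hdeg, Complex.natCast_re, ← hl] at h1
    linarith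

theorem lin_sums (hd : TIData K) (χ₀ : Exc K) (ψ : G → ℂ) (e c : ℝ)
    (h : ∀ n : Nz K, (n : G) ∈ K → n ≠ 1 →
      ψ n = (e : ℂ) * (χ₀.1 : Nz K → ℂ) n + (c : ℂ)) :
    bk K (fun n : Nz K => Complex.normSq (ψ n)) =
        e ^ 2 * ((Nat.card K : ℝ) * ((K.subgroupOf (Nz K)).index : ℝ) -
          ((K.subgroupOf (Nz K)).index : ℝ) ^ 2)
          - 2 * e * c * ((K.subgroupOf (Nz K)).index : ℝ) + c ^ 2 * ((Nat.card K : ℝ) - 1) ∧
      bk K (fun n : Nz K => (ψ n).re) =
        -e * ((K.subgroupOf (Nz K)).index : ℝ) + c * ((Nat.card K : ℝ) - 1) := by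
  obtain ⟨hsq, hre⟩ := exc_sums hd χ₀
  constructor
  · have hmain : bk K (fun n : Nz K => Complex.normSq (ψ n)) =
        bk K (fun n : Nz K => e ^ 2 * Complex.normSq ((χ₀.1 : Nz K → ℂ) n) +
          (2 * e * c * ((χ₀.1 : Nz K → ℂ) n).re + c ^ 2)) := by
      refine bk_congr fun n hn hn1 => ?_
      rw [h n hn hn1]
      rw [Complex.normSq_apply, Complex.normSq_apply]
      simp only [Complex.add_re, Complex.mul_re, Complex.ofReal_re, Complex.ofReal_im, zero_mul,
        sub_zero, Complex.add_im, Complex.mul_im, add_zero]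
      ring
    rw [hmain, bk_add, bk_add, bk_mul_left, bk_mul_left, bk_const, hsq, hre]
    ring
  · have hmain : bk K (fun n : Nz K => (ψ n).re) =
        bk K (fun n : Nz K => e * ((χ₀.1 : Nz K → ℂ) n).re + c) := by
      refine bk_congr fun n hn hn1 => ?_
      rw [h n hn hn1]
      simp
    rw [hmain, bk_add, bk_mul_left, bk_const, hre]
    ring

theorem sum_K {χ : G → ℂ} (hχ : IsCharacter G χ) :
    ∃ k : ℕ, (Nat.card K : ℝ) * k = (χ 1).re + bk K (fun n : Nz K => (χ n).re) := by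
  classical
  obtain ⟨m, ρ, rfl⟩ := hχ
  have h1 := classInner_char_one (MonoidHom.comp ρ K.subtype : Representation ℂ K (Fin m → ℂ))
  rw [classInner_def'] at h1
  refine ⟨Module.finrank ℂ (Representation.invariants
    (MonoidHom.comp ρ K.subtype : Representation ℂ K (Fin m → ℂ))), ?_⟩
  have hK0 : (Nat.card K : ℂ) ≠ 0 := Nat.cast_ne_zero.mpr Nat.card_pos.ne'
  have h2 : ∑ x : K, ρ.character (x : G) = (Nat.card K : ℂ) *
      (Module.finrank ℂ (Representation.invariants
        (MonoidHom.comp ρ K.subtype : Representation ℂ K (Fin m → ℂ))) : ℂ) := by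
    rw [← h1, ← mul_assoc, mul_inv_cancel₀ hK0, one_mul]
    refine Finset.sum_congr rfl fun x _ => ?_
    simp [Representation.character]
  have h3 := sum_mem (K := K) (fun n : Nz K => (ρ.character (n : G)).re)
  have h4 := sum_eq_bk (K := K)
    (fun n : Nz K => if (n : G) ∈ K then (ρ.character (n : G)).re else 0) (fun n hn => if_neg hn)
  rw [h3] at h4
  rw [if_pos (show ((1 : Nz K) : G) ∈ K from K.one_mem)] at h4
  have h5 : bk K (fun n : Nz K => if (n : G) ∈ K then (ρ.character (n : G)).re else 0) =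
      bk K (fun n : Nz K => (ρ.character (n : G)).re) := bk_congr (fun n hn _ => if_pos hn)
  rw [h5] at h4
  have h6 := congrArg Complex.re h2
  rw [Complex.re_sum] at h6
  have h7 : ((Nat.card K : ℂ) * (Module.finrank ℂ (Representation.invariants
        (MonoidHom.comp ρ K.subtype : Representation ℂ K (Fin m → ℂ))) : ℂ)).re =
      (Nat.card K : ℝ) * (Module.finrank ℂ (Representation.invariants
        (MonoidHom.comp ρ K.subtype : Representation ℂ K (Fin m → ℂ))) : ℝ) := by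
    rw [← Nat.cast_mul, Complex.natCast_re, Nat.cast_mul]
  rw [h7] at h6
  rw [← h6]
  exact h4

theorem col_part (hd : TIData K) (A : Finset (IrrCharacter G)) :
    ∑ ψ ∈ A, bk K (fun n : Nz K => Complex.normSq ((ψ : G → ℂ) n)) ≤
      ((Nat.card K : ℝ) - 1) * (Nat.card K : ℝ) := by
  classical
  rw [← col_sum hd]
  refine Finset.sum_le_univ_sum_of_nonneg fun ψ => ?_
  unfold bk
  refine Finset.sum_nonneg fun n _ => ?_
  split_ifs
  · exact Complex.normSq_nonneg _
  · exact le_rfl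

omit [Fintype G] in
theorem bk_eq_zero {F : Nz K → ℝ} (hF : ∀ n, 0 ≤ F n) (h : bk K F = 0) :
    ∀ n : Nz K, (n : G) ∈ K → n ≠ 1 → F n = 0 := by
  classical
  intro n hn hn1
  unfold bk at h
  have h1 := (Finset.sum_eq_zero_iff_of_nonneg (fun n _ => by
    split_ifs
    · exact hF n
    · exact le_rfl)).mp h n (Finset.mem_univ n)
  rw [if_pos ⟨hn, hn1⟩] at h1
  exact h1

/-- An irreducible character of degree `|K| - 1` takes the value `-1` on `K^#`. -/
theorem val_neg_one (hd : TIData K) (χ : IrrCharacter G)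
    (ha3 : 3 ≤ Nat.card K) (hl2 : 2 ≤ (K.subgroupOf (Nz K)).index)
    (hdeg : (χ : G → ℂ) 1 = (Nat.card K : ℂ) - 1) :
    ∀ n : Nz K, (n : G) ∈ K → n ≠ 1 → (χ : G → ℂ) n = -1 := by
  classical
  obtain ⟨ε, f, he⟩ := exists_excData hd
  have hone : IsIrrCharacter G (fun _ => (1 : ℂ)) := isIrrCharacter_one
  have hχ1 : χ ≠ ⟨_, hone⟩ := by
    intro h
    have h1 : (χ : G → ℂ) 1 = 1 := by rw [h]
    rw [hdeg] at h1
    have h2 : (Nat.card K : ℂ) = 2 := by linear_combination h1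
    have h3 : Nat.card K = 2 := by exact_mod_cast h2
    omega
  obtain ⟨k, hk⟩ := sum_K (K := K) (isCharacter_of_isIrrCharacter χ.2)
  have hre1 : ((χ : G → ℂ) 1).re = (Nat.card K : ℝ) - 1 := by rw [hdeg]; simp
  rw [hre1] at hk
  have hbk1 : bk K (fun n : Nz K =>
      Complex.normSq (((⟨_, hone⟩ : IrrCharacter G) : G → ℂ) n)) = (Nat.card K : ℝ) - 1 := by
    have h1 : (fun n : Nz K => Complex.normSq (((⟨_, hone⟩ : IrrCharacter G) : G → ℂ) n)) =
        fun _ => (1 : ℝ) := by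
      funext n; simp
    rw [h1, bk_const, mul_one]
  have haR : (3 : ℝ) ≤ (Nat.card K : ℝ) := by exact_mod_cast ha3
  have hlR : (2 : ℝ) ≤ ((K.subgroupOf (Nz K)).index : ℝ) := by exact_mod_cast hl2
  by_cases hex : ∃ ξ₀ : Exc K, f ξ₀ = χ
  · obtain ⟨ξ₀, rfl⟩ := hex
    obtain ⟨c, hc⟩ := exc_const hd he ξ₀
    obtain ⟨e, he1, hee⟩ : ∃ e : ℤ, (e = 1 ∨ e = -1) ∧ ε = (e : ℂ) := by
      rcases he.eps with h | h
      · exact ⟨1, Or.inl rfl, by rw [h]; simp⟩
      · exact ⟨-1, Or.inr rfl, by rw [h]; simp⟩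
    have hε2 : ε * ε = 1 := by rcases he.eps with h | h <;> rw [h] <;> norm_num
    have he2 : (e : ℝ) ^ 2 = 1 := by rcases he1 with h | h <;> rw [h] <;> norm_num
    have hunif : ∀ ξ : Exc K, ∀ n : Nz K, (n : G) ∈ K → n ≠ 1 →
        (f ξ : G → ℂ) n = (((e : ℤ) : ℝ) : ℂ) * (ξ.1 : Nz K → ℂ) n + (((c : ℤ) : ℝ) : ℂ) := by
      intro ξ n hn hn1
      have h1 := congrFun (he.ind ξ₀ ξ) (n : G)
      have h2 : indFun (Nz K) ((ξ₀.1 : Nz K → ℂ) - (ξ.1 : Nz K → ℂ)) n =
          ((ξ₀.1 : Nz K → ℂ) - (ξ.1 : Nz K → ℂ)) n := by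
        refine indFun_TI_apply' (K : Set G) (Nz K) hd.ti _ ?_ ?_ n hn hn1
        · intro g h
          show (ξ₀.1 : Nz K → ℂ) (h * g * h⁻¹) - (ξ.1 : Nz K → ℂ) (h * g * h⁻¹) =
            (ξ₀.1 : Nz K → ℂ) g - (ξ.1 : Nz K → ℂ) g
          rw [irr_isClassFunction ξ₀.1 g h, irr_isClassFunction ξ.1 g h]
        · intro x hx
          show (ξ₀.1 : Nz K → ℂ) x - (ξ.1 : Nz K → ℂ) x = 0
          rw [exc_vanish hd ξ₀ x hx, exc_vanish hd ξ x hx, sub_zero]
      rw [h2] at h1
      have h3 := hc n hn hn1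
      simp only [Pi.sub_apply, Pi.smul_apply, smul_eq_mul] at h1
      push_cast
      rw [← hee]
      linear_combination h3 + ε * h1 + ((f ξ₀ : G → ℂ) n - (f ξ : G → ℂ) n) * hε2
    have hsum : ∀ ξ : Exc K, bk K (fun n : Nz K => Complex.normSq ((f ξ : G → ℂ) n)) =
        ((Nat.card K : ℝ) * ((K.subgroupOf (Nz K)).index : ℝ) -
          ((K.subgroupOf (Nz K)).index : ℝ) ^ 2)
          - 2 * (e : ℝ) * (c : ℝ) * ((K.subgroupOf (Nz K)).index : ℝ)
          + (c : ℝ) ^ 2 * ((Nat.card K : ℝ) - 1) := by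
      intro ξ
      rw [(lin_sums hd ξ (f ξ : G → ℂ) (e : ℝ) (c : ℝ) (hunif ξ)).1, he2, one_mul]
    have hdegs : ∀ ξ : Exc K, f ξ ≠ ⟨_, hone⟩ := by
      intro ξ h
      have h1 := f_eq_off hd he ξ ξ₀ 1 (fun x _ => by simp)
      rw [h, hdeg] at h1
      have h2 : (Nat.card K : ℂ) = 2 := by linear_combination -h1
      have h3 : Nat.card K = 2 := by exact_mod_cast h2
      omega
    haveI : Fintype (Exc K) := Fintype.ofFinite _
    have hcol := col_part hd (insert (⟨_, hone⟩ : IrrCharacter G) (Finset.univ.image f))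
    rw [Finset.sum_insert (by
      rw [Finset.mem_image]
      rintro ⟨ξ, -, h⟩
      exact hdegs ξ h), Finset.sum_image (fun x _ y _ h => he.inj h), hbk1,
      Finset.sum_congr rfl (fun ξ _ => hsum ξ), Finset.sum_const, Finset.card_univ,
      nsmul_eq_mul] at hcol
    have hcard := card_exc hd
    rw [Nat.card_eq_fintype_card] at hcard
    have hkr := (lin_sums hd ξ₀ (f ξ₀ : G → ℂ) (e : ℝ) (c : ℝ) (hunif ξ₀)).2
    rw [hkr] at hk
    have hcardR : (Nat.card K : ℝ) =
        (Fintype.card (Exc K) : ℝ) * ((K.subgroupOf (Nz K)).index : ℝ) + 1 := by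
      exact_mod_cast hcard.symm
    have htpos : 1 ≤ Fintype.card (Exc K) := Fintype.card_pos_iff.mpr ⟨ξ₀⟩
    have htR : (1 : ℝ) ≤ (Fintype.card (Exc K) : ℝ) := by exact_mod_cast htpos
    have hpos : 0 < (Fintype.card (Exc K) : ℝ) * ((K.subgroupOf (Nz K)).index : ℝ) := by
      nlinarith
    have hdagR : (Fintype.card (Exc K) : ℝ) * (c : ℝ) ^ 2 - 2 * (e : ℝ) * (c : ℝ) -
        (((K.subgroupOf (Nz K)).index : ℝ) - 1) ≤ 0 := by
      by_contra h'
      have h := not_le.mp h'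
      have h4 := mul_pos hpos h
      rw [hcardR] at hcol
      nlinarith
    have hcardZ : (Nat.card K : ℤ) =
        (Fintype.card (Exc K) : ℤ) * ((K.subgroupOf (Nz K)).index : ℤ) + 1 := by
      exact_mod_cast hcard.symm
    have hkZ : (Nat.card K : ℤ) * (k : ℤ) = ((Nat.card K : ℤ) - 1) -
        e * ((K.subgroupOf (Nz K)).index : ℤ) + c * ((Nat.card K : ℤ) - 1) := by
      apply Int.cast_injective (α := ℝ)
      push_cast
      linarith
    have hdagZ : (Fintype.card (Exc K) : ℤ) * c ^ 2 - 2 * e * c ≤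
        ((K.subgroupOf (Nz K)).index : ℤ) - 1 := by
      have h4 : (((Fintype.card (Exc K) : ℤ) * c ^ 2 - 2 * e * c : ℤ) : ℝ) ≤
          ((((K.subgroupOf (Nz K)).index : ℤ) - 1 : ℤ) : ℝ) := by
        push_cast
        linarith
      exact_mod_cast h4
    obtain ⟨ht1, hce⟩ := arith_exc (Nat.card K : ℤ) ((K.subgroupOf (Nz K)).index : ℤ)
      (Fintype.card (Exc K) : ℤ) c (k : ℤ) e he1 (by exact_mod_cast htpos)
      (by exact_mod_cast hl2) hcardZ hkZ hdagZ
    have ht1R : (Fintype.card (Exc K) : ℝ) = 1 := by exact_mod_cast ht1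
    have hceR : (c : ℝ) = (e : ℝ) - 1 := by exact_mod_cast hce
    rw [ht1R, one_mul] at hcardR
    intro n hn hn1
    have hψ' : ∀ n : Nz K, (n : G) ∈ K → n ≠ 1 →
        (fun g : G => (f ξ₀ : G → ℂ) g + 1) n =
          (((e : ℤ) : ℝ) : ℂ) * (ξ₀.1 : Nz K → ℂ) n + (((e : ℤ) : ℝ) : ℂ) := by
      intro n hn hn1
      show (f ξ₀ : G → ℂ) n + 1 = _
      rw [hunif ξ₀ n hn hn1, hceR]
      push_cast
      ring
    have h5 := (lin_sums hd ξ₀ (fun g : G => (f ξ₀ : G → ℂ) g + 1) (e : ℝ) (e : ℝ) hψ').1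
    have h6 : bk K (fun n : Nz K => Complex.normSq ((fun g : G => (f ξ₀ : G → ℂ) g + 1) n)) = 0 := by
      rw [h5, hcardR]
      have he2' : (e : ℝ) * (e : ℝ) = 1 := by rw [← sq]; exact he2
      nlinarith
    have h7 := bk_eq_zero (K := K) (fun n => Complex.normSq_nonneg _) h6 n hn hn1
    have h8 := Complex.normSq_eq_zero.mp h7
    exact eq_neg_of_add_eq_zero_left h8
  · have hex' : ∀ ξ : Exc K, f ξ ≠ χ := fun ξ h => hex ⟨ξ, h⟩
    obtain ⟨c, hc⟩ := nonexc_const hd he χ hex'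
    have hb2 : bk K (fun n : Nz K => Complex.normSq ((χ : G → ℂ) n)) =
        ((Nat.card K : ℝ) - 1) * (c : ℝ) ^ 2 := by
      rw [bk_congr (F' := fun _ => (c : ℝ) ^ 2) (fun n hn hn1 => by
        rw [hc n hn hn1, ← Complex.ofReal_intCast, Complex.normSq_ofReal]; ring), bk_const]
    have hb3 : bk K (fun n : Nz K => ((χ : G → ℂ) n).re) =
        ((Nat.card K : ℝ) - 1) * (c : ℝ) := by
      rw [bk_congr (F' := fun _ => (c : ℝ)) (fun n hn hn1 => by
        rw [hc n hn hn1]; simp), bk_const]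
    have hcol := col_part hd ({(⟨_, hone⟩ : IrrCharacter G), χ} : Finset (IrrCharacter G))
    rw [Finset.sum_pair hχ1.symm, hbk1, hb2] at hcol
    rw [hb3] at hk
    have hcR : (c : ℝ) ^ 2 ≤ (Nat.card K : ℝ) - 1 := by
      by_contra h'
      have h := not_le.mp h'
      nlinarith
    have hkZ : (Nat.card K : ℤ) * (k : ℤ) = ((Nat.card K : ℤ) - 1) +
        ((Nat.card K : ℤ) - 1) * c := by
      apply Int.cast_injective (α := ℝ)
      push_cast
      linarith
    have hcZ : c ^ 2 ≤ (Nat.card K : ℤ) - 1 := by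
      have h4 : ((c ^ 2 : ℤ) : ℝ) ≤ (((Nat.card K : ℤ) - 1 : ℤ) : ℝ) := by
        push_cast
        linarith
      exact_mod_cast h4
    have hc1 := arith_nonexc (Nat.card K : ℤ) c (k : ℤ) (by exact_mod_cast ha3) hkZ hcZ
    intro n hn hn1
    rw [hc n hn hn1, hc1]
    simp

/-- A character of degree `|K| - 1` with value `-1` on `K^#` vanishes on `N(K) \ K`. -/
theorem vanish_off (hd : TIData K) {χ : G → ℂ} (hχ : IsCharacter G χ)
    (hdeg : χ 1 = (Nat.card K : ℂ) - 1)
    (hval : ∀ n : Nz K, (n : G) ∈ K → n ≠ 1 → χ n = -1) :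
    ∀ n : Nz K, (n : G) ∉ K → χ n = 0 := by
  classical
  have hφ : IsCharacter (Nz K) (fun n : Nz K => χ n) := isCharacter_restrict (Nz K) hχ
  obtain ⟨c, -, hc2⟩ := isCharacter_decomp hφ
  have hS0 : ∑ n : Nz K, (if (n : G) ∈ K then χ n else 0) = 0 := by
    have h4 := sum_eq_bk (K := K) (fun n : Nz K => if (n : G) ∈ K then χ (n : G) else 0)
      (fun n hn => if_neg hn)
    rw [if_pos (show ((1 : Nz K) : G) ∈ K from K.one_mem)] at h4
    have h5 : bk K (fun n : Nz K => if (n : G) ∈ K then χ (n : G) else 0) =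
        bk K (fun _ : Nz K => (-1 : ℂ)) :=
      bk_congr (fun n hn hn1 => by rw [if_pos hn, hval n hn hn1])
    rw [h5, bk_const] at h4
    rw [h4, Subgroup.coe_one, hdeg]
    ring
  have hexp : ∀ n : Nz K, χ n = ∑ ψ : IrrCharacter (Nz K), (c ψ : ℂ) * (ψ : Nz K → ℂ) n := by
    intro n
    have h1 := congrFun hc2 n
    simp only [Finset.sum_apply, Pi.smul_apply, smul_eq_mul] at h1
    exact h1
  have hSψ : ∀ ψ : IrrCharacter (Nz K), ∃ s : ℕ,
      ∑ n : Nz K, (if (n : G) ∈ K then (ψ : Nz K → ℂ) n else 0) = (s : ℂ) ∧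
      ((∀ k : Nz K, (k : G) ∈ K → (ψ : Nz K → ℂ) k = (ψ : Nz K → ℂ) 1) → s ≠ 0) := by
    intro ψ
    by_cases hψ : ∃ k : Nz K, (k : G) ∈ K ∧ (ψ : Nz K → ℂ) k ≠ (ψ : Nz K → ℂ) 1
    · refine ⟨0, ?_, fun h => ?_⟩
      · have h1 : ∀ n : Nz K, (if (n : G) ∈ K then (ψ : Nz K → ℂ) n else 0) =
            (ψ : Nz K → ℂ) n := by
          intro n
          by_cases hn : (n : G) ∈ K
          · rw [if_pos hn]
          · rw [if_neg hn]
            exact (exc_vanish hd ⟨ψ, hψ⟩ n hn).symm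
        rw [Finset.sum_congr rfl (fun n _ => h1 n), ti_sum_zero K _ (exc_mem ⟨ψ, hψ⟩)]
        simp
      · obtain ⟨k, hk, hk'⟩ := hψ
        exact absurd (h k hk) hk'
    · have hconst : ∀ k : Nz K, (k : G) ∈ K → (ψ : Nz K → ℂ) k = (ψ : Nz K → ℂ) 1 := by
        intro k hk
        by_contra h
        exact hψ ⟨k, hk, h⟩
      obtain ⟨d, hd0, hd1⟩ := irr_one_pos_nat ψ
      refine ⟨Nat.card K * d, ?_, fun _ => (Nat.mul_pos Nat.card_pos hd0).ne'⟩
      have h1 : ∀ n : Nz K, (if (n : G) ∈ K then (ψ : Nz K → ℂ) n else 0) =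
          if (n : G) ∈ K then (d : ℂ) else 0 := by
        intro n
        by_cases hn : (n : G) ∈ K
        · rw [if_pos hn, if_pos hn, hconst n hn, hd1]
        · rw [if_neg hn, if_neg hn]
      rw [Finset.sum_congr rfl (fun n _ => h1 n), sum_mem (K := K) (fun _ => (d : ℂ)),
        Finset.sum_const, Finset.card_univ, Nat.card_eq_fintype_card, nsmul_eq_mul]
      push_cast
      ring
  choose s hs1 hs2 using hSψ
  have hsum : ∑ ψ : IrrCharacter (Nz K), c ψ * s ψ = 0 := by
    have h1 : ∑ n : Nz K, (if (n : G) ∈ K then χ n else 0) =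
        ∑ ψ : IrrCharacter (Nz K), ((c ψ * s ψ : ℕ) : ℂ) := by
      calc ∑ n : Nz K, (if (n : G) ∈ K then χ n else 0)
          = ∑ n : Nz K, ∑ ψ : IrrCharacter (Nz K),
              (c ψ : ℂ) * (if (n : G) ∈ K then (ψ : Nz K → ℂ) n else 0) := by
            refine Finset.sum_congr rfl fun n _ => ?_
            by_cases hn : (n : G) ∈ K
            · simp only [if_pos hn]; exact hexp n
            · simp only [if_neg hn, mul_zero, Finset.sum_const_zero]
        _ = ∑ ψ : IrrCharacter (Nz K), ((c ψ * s ψ : ℕ) : ℂ) := by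
            rw [Finset.sum_comm]
            refine Finset.sum_congr rfl fun ψ _ => ?_
            rw [← Finset.mul_sum, hs1 ψ]
            push_cast
            ring
    rw [hS0] at h1
    have h2 : ((∑ ψ : IrrCharacter (Nz K), c ψ * s ψ : ℕ) : ℂ) = 0 := by
      rw [Nat.cast_sum]
      exact h1.symm
    exact_mod_cast h2
  have hzero : ∀ ψ : IrrCharacter (Nz K), c ψ * s ψ = 0 := fun ψ =>
    (Finset.sum_eq_zero_iff.mp hsum) ψ (Finset.mem_univ ψ)
  intro n hn
  rw [hexp n]
  refine Finset.sum_eq_zero fun ψ _ => ?_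
  by_cases hψ : ∃ k : Nz K, (k : G) ∈ K ∧ (ψ : Nz K → ℂ) k ≠ (ψ : Nz K → ℂ) 1
  · have h1 : (ψ : Nz K → ℂ) n = 0 := exc_vanish hd ⟨ψ, hψ⟩ n hn
    rw [h1, mul_zero]
  · have hconst : ∀ k : Nz K, (k : G) ∈ K → (ψ : Nz K → ℂ) k = (ψ : Nz K → ℂ) 1 := by
      intro k hk
      by_contra h
      exact hψ ⟨k, hk, h⟩
    have h1 := hzero ψ
    have h2 : c ψ = 0 := by
      rcases Nat.mul_eq_zero.mp h1 with h | h
      · exact h
      · exact absurd h (hs2 ψ hconst)
    rw [h2]
    simp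

end Cfsg.Agent.Helper21.DegPm1
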