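import Mathlib

/-!
# Determinant of a finite-order operator whose proper powers are traceless (helper21)
-/

set_option autoImplicit false

namespace Cfsg.Agent.Helper21.DetRoots

open Module

variable {V : Type*} [AddCommGroup V] [Module ℂ V] [FiniteDimensional ℂ V]

omit [FiniteDimensional ℂ V] in
theorem pow_apply_eigen (f : Module.End ℂ V) (μ : ℂ) (x : V) (hx : f x = μ • x) (k : ℕ) :
    (f ^ k) x = μ ^ k • x := by
  induction k with
  | zero => simp
  | succ k ih =>
    rw [pow_succ, Module.End.mul_apply, hx, map_smul, ih, smul_smul, pow_succ, mul_comm]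

theorem eigen_root (f : Module.End ℂ V) (m : ℕ) (hf : f ^ m = 1) (μ : ℂ)
    (hne : f.eigenspace μ ≠ ⊥) : μ ^ m = 1 := by
  obtain ⟨x, hx, hx0⟩ := (Submodule.ne_bot_iff _).mp hne
  have hx' := Module.End.mem_eigenspace_iff.mp hx
  have h1 := pow_apply_eigen f μ x hx' m
  rw [hf] at h1
  have h2 : (μ ^ m - 1) • x = 0 := by
    rw [sub_smul, ← h1]; simp
  rcases smul_eq_zero.mp h2 with h | h
  · exact sub_eq_zero.mp h
  · exact absurd h hx0

theorem det_eq_prod (f : Module.End ℂ V) (m : ℕ) (hm : 0 < m) (hf : f ^ m = 1) :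
    LinearMap.det f =
      ∏ μ ∈ Polynomial.nthRootsFinset m (1 : ℂ), μ ^ finrank ℂ (f.eigenspace μ) := by
  classical
  have hsq : Squarefree (Polynomial.X ^ m - 1 : Polynomial ℂ) :=
    (Polynomial.X_pow_sub_one_separable_iff.mpr (Nat.cast_ne_zero.mpr hm.ne')).squarefree
  have hss : f.IsSemisimple := by
    apply Module.End.isSemisimple_of_squarefree_aeval_eq_zero hsq
    simp [hf]
  have htop := hss.iSup_eigenspace_eq_top
  have hind := Module.End.eigenspaces_iSupIndep f
  set N : {μ : ℂ // μ ∈ Polynomial.nthRootsFinset m (1 : ℂ)} → Submodule ℂ V :=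
    fun μ => f.eigenspace μ with hN
  have hNind : iSupIndep N := hind.comp Subtype.val_injective
  have hNtop : ⨆ i, N i = ⊤ := by
    rw [eq_top_iff, ← htop]
    refine iSup_le fun μ => ?_
    by_cases hne : f.eigenspace μ = ⊥
    · rw [hne]; exact bot_le
    · have hμ : μ ∈ Polynomial.nthRootsFinset m (1 : ℂ) := by
        rw [Polynomial.mem_nthRootsFinset hm]
        exact eigen_root f m hf μ hne
      exact le_iSup N ⟨μ, hμ⟩
  have hds := DirectSum.isInternal_submodule_of_iSupIndep_of_iSup_eq_top hNind hNtop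
  have hmaps : ∀ i, Set.MapsTo f (N i) (N i) := by
    intro μ x hx
    have hx' := Module.End.mem_eigenspace_iff.mp hx
    simp only [SetLike.mem_coe] at hx ⊢
    rw [hN] at hx ⊢
    simp only at hx ⊢
    rw [hx']
    exact Submodule.smul_mem _ _ hx
  let b : ∀ i, Basis (Fin (finrank ℂ (N i))) ℂ (N i) := fun i => Module.finBasis ℂ (N i)
  have h1 := LinearMap.toMatrix_directSum_collectedBasis_eq_blockDiagonal' hds hds b b hmaps
  have h2 : ∀ i, f.restrict (hmaps i) = (i : ℂ) • LinearMap.id := by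
    intro i
    ext x
    simp only [LinearMap.smul_apply, LinearMap.id_coe, id_eq, Submodule.coe_smul]
    exact Module.End.mem_eigenspace_iff.mp x.2
  have h3 : (fun i => LinearMap.toMatrix (b i) (b i) (f.restrict (hmaps i))) =
      fun i : {μ : ℂ // μ ∈ Polynomial.nthRootsFinset m (1 : ℂ)} =>
        Matrix.diagonal (fun _ : Fin (finrank ℂ (N i)) => (i : ℂ)) := by
    funext i
    rw [h2 i, map_smul, LinearMap.toMatrix_id, Matrix.smul_one_eq_diagonal]
  rw [← LinearMap.det_toMatrix (hds.collectedBasis b), h1, h3, Matrix.blockDiagonal'_diagonal,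
    Matrix.det_diagonal, Fintype.prod_sigma, ← Finset.prod_coe_sort
      (Polynomial.nthRootsFinset m (1 : ℂ)) (fun μ => μ ^ finrank ℂ (f.eigenspace μ))]
  refine Finset.prod_congr rfl fun i _ => ?_
  show ∏ _y : Fin (finrank ℂ (N i)), (i : ℂ) = (i : ℂ) ^ finrank ℂ (f.eigenspace (i : ℂ))
  rw [Finset.prod_const, Finset.card_univ, Fintype.card_fin]

theorem finrank_eigenspace (f : Module.End ℂ V) (m : ℕ) (hm : 0 < m) (hf : f ^ m = 1)
    (htr : ∀ j, 0 < j → j < m → LinearMap.trace ℂ V (f ^ j) = 0) (ν : ℂ) (hν : ν ^ m = 1) :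
    (m : ℂ) * (finrank ℂ (f.eigenspace ν) : ℂ) = (finrank ℂ V : ℂ) := by
  classical
  set g : Module.End ℂ V := ν • 1 with hg
  have hcomm : Commute f g := by
    rw [hg]; exact (Commute.one_right f).smul_right ν
  set π' : Module.End ℂ V := ∑ i ∈ Finset.range m, f ^ i * g ^ (m - 1 - i) with hπ'
  have hgm : g ^ m = 1 := by rw [hg, smul_pow, one_pow, hν, one_smul]
  have h1 : (f - g) * π' = 0 := by
    rw [hπ', hcomm.mul_geom_sum₂, hf, hgm, sub_self]
  have hν0 : ν ≠ 0 := by
    rintro rfl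
    rw [zero_pow hm.ne'] at hν
    exact zero_ne_one hν
  have hc0 : (m : ℂ) * ν ^ (m - 1) ≠ 0 :=
    mul_ne_zero (Nat.cast_ne_zero.mpr hm.ne') (pow_ne_zero _ hν0)
  have hid : ∀ x ∈ f.eigenspace ν, π' x = ((m : ℂ) * ν ^ (m - 1)) • x := by
    intro x hx
    have hx' := Module.End.mem_eigenspace_iff.mp hx
    rw [hπ', LinearMap.sum_apply]
    have h3 : ∀ i ∈ Finset.range m, (f ^ i * g ^ (m - 1 - i)) x = ν ^ (m - 1) • x := by
      intro i hi
      rw [Module.End.mul_apply, hg, smul_pow, one_pow, LinearMap.smul_apply,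
        Module.End.one_apply, map_smul, pow_apply_eigen f ν x hx' i, smul_smul, ← pow_add]
      congr 2
      have := Finset.mem_range.mp hi
      omega
    rw [Finset.sum_congr rfl h3, Finset.sum_const, Finset.card_range,
      ← Nat.cast_smul_eq_nsmul ℂ, smul_smul]
  have hmem : ∀ x, π' x ∈ f.eigenspace ν := by
    intro x
    rw [Module.End.mem_eigenspace_iff]
    have h2 := congrArg (fun φ : Module.End ℂ V => φ x) h1
    simp only [Module.End.mul_apply, LinearMap.sub_apply, LinearMap.zero_apply] at h2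
    rw [hg] at h2
    simp only [LinearMap.smul_apply, Module.End.one_apply] at h2
    exact sub_eq_zero.mp h2
  set c : ℂ := ((m : ℂ) * ν ^ (m - 1))⁻¹ with hc
  have hproj : LinearMap.IsProj (f.eigenspace ν) (c • π') := by
    constructor
    · intro x
      rw [LinearMap.smul_apply]
      exact Submodule.smul_mem _ _ (hmem x)
    · intro x hx
      rw [LinearMap.smul_apply, hid x hx, smul_smul, hc, inv_mul_cancel₀ hc0, one_smul]
  have htrace := hproj.trace
  have htπ : LinearMap.trace ℂ V π' = ν ^ (m - 1) * (finrank ℂ V : ℂ) := by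
    rw [hπ', map_sum]
    rw [Finset.sum_eq_single_of_mem 0 (Finset.mem_range.mpr hm)]
    · rw [pow_zero, one_mul, hg, smul_pow, one_pow, map_smul, LinearMap.trace_one, smul_eq_mul,
        Nat.sub_zero]
    · intro j hj hj0
      have hj' := Finset.mem_range.mp hj
      rw [hg, smul_pow, one_pow, mul_smul_comm, mul_one, map_smul,
        htr j (Nat.pos_of_ne_zero hj0) hj', smul_zero]
  rw [map_smul, htπ, smul_eq_mul] at htrace
  have hm0 : (m : ℂ) ≠ 0 := Nat.cast_ne_zero.mpr hm.ne'
  have hp0 : ν ^ (m - 1) ≠ 0 := pow_ne_zero _ hν0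
  rw [← htrace, hc]
  field_simp

theorem prod_nthRoots (m : ℕ) (hm : 0 < m) (hm2 : Even m) :
    ∏ μ ∈ Polynomial.nthRootsFinset m (1 : ℂ), μ = -1 := by
  have hprim := Complex.isPrimitiveRoot_exp m hm.ne'
  have h1 := Polynomial.X_pow_sub_one_eq_prod hm hprim
  have h2 := congrArg (Polynomial.eval 0) h1
  rw [Polynomial.eval_prod] at h2
  simp only [Polynomial.eval_sub, Polynomial.eval_pow, Polynomial.eval_X, Polynomial.eval_one,
    Polynomial.eval_C, zero_sub] at h2
  rw [zero_pow hm.ne', zero_sub, Finset.prod_neg, hprim.card_nthRootsFinset, hm2.neg_one_pow,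
    one_mul] at h2
  exact h2.symm

/-- If `f ^ m = 1` with `m` even, all proper powers of `f` are traceless and the dimension is an
odd multiple of `m`, then `det f = -1`. -/
theorem det_eq_neg_one (f : Module.End ℂ V) (m M : ℕ) (hm : 0 < m) (hm2 : Even m) (hM : Odd M)
    (hf : f ^ m = 1) (hdim : finrank ℂ V = M * m)
    (htr : ∀ j, 0 < j → j < m → LinearMap.trace ℂ V (f ^ j) = 0) :
    LinearMap.det f = -1 := by
  rw [det_eq_prod f m hm hf]
  have h1 : ∀ μ ∈ Polynomial.nthRootsFinset m (1 : ℂ),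
      μ ^ finrank ℂ (f.eigenspace μ) = μ ^ M := by
    intro μ hμ
    have hμ' : μ ^ m = 1 := (Polynomial.mem_nthRootsFinset hm 1).mp hμ
    have h2 := finrank_eigenspace f m hm hf htr μ hμ'
    rw [hdim] at h2
    have h3 : finrank ℂ (f.eigenspace μ) = M := by
      have hm0 : (m : ℂ) ≠ 0 := Nat.cast_ne_zero.mpr hm.ne'
      have h4 : (finrank ℂ (f.eigenspace μ) : ℂ) = (M : ℂ) := by
        apply mul_left_cancel₀ hm0
        rw [h2]; push_cast; ring
      exact_mod_cast h4
    rw [h3]
  rw [Finset.prod_congr rfl h1, Finset.prod_pow, prod_nthRoots m hm hm2, hM.neg_one_pow]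

end Cfsg.Agent.Helper21.DetRoots
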