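import Mathlib
import Cfsg.Agent.Helper21.DegPm1
import Cfsg.Agent.S4508
import Cfsg.Agent.Helper5.LinChar

/-!
# Brauer's degree equation for a self-centralizing subgroup of prime order (helper21)

For an abelian T.I. subgroup `K` containing the centralizers of its non-identity elements, with
`t = (|K| - 1) / l` exceptional characters (`l = |N(K) : K|`) and `t ≥ l + 2`: the non-exceptional
non-principal characters `ψ` have integer values `cv ψ` on `K^#` with `∑ cv ψ ^ 2 = l - 1`, and the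
common degree `d₀` of the exceptional characters satisfies `ε d₀ = 1 + ∑ cv ψ * ψ(1)`,
`d₀ ≡ ε l`, `ψ(1) ≡ cv ψ (mod |K|)`.
-/

set_option autoImplicit false
set_option maxHeartbeats 400000

namespace Cfsg.Agent.Helper21.BrauerLite

open Cfsg Cfsg.Agent.Helper24 Cfsg.Agent.Helper21.CAChar Cfsg.Agent.Helper21.DegPm1

universe u

section chars

variable {G : Type u} [Group G] [Fintype G] {K : Subgroup G} [Fintype (Nz K)]

omit [Fintype (Nz K)] in
theorem exc_unif (hd : TIData K) {ε : ℂ} {f : Exc K → IrrCharacter G} (he : ExcData K ε f)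
    (ξ₀ : Exc K) (c : ℂ)
    (hc : ∀ n : Nz K, (n : G) ∈ K → n ≠ 1 →
      (f ξ₀ : G → ℂ) n = ε * (ξ₀.1 : Nz K → ℂ) n + c)
    (ξ : Exc K) (n : Nz K) (hn : (n : G) ∈ K) (hn1 : n ≠ 1) :
    (f ξ : G → ℂ) n = ε * (ξ.1 : Nz K → ℂ) n + c := by
  have hε2 : ε * ε = 1 := by rcases he.eps with h | h <;> rw [h] <;> norm_num
  have h1 := congrFun (he.ind ξ₀ ξ) (n : G)
  have h2 : indFun (Nz K) ((ξ₀.1 : Nz K → ℂ) - (ξ.1 : Nz K → ℂ)) n =
      ((ξ₀.1 : Nz K → ℂ) - (ξ.1 : Nz K → ℂ)) n := by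
    refine indFun_TI_apply' (K : Set G) (Nz K) hd.ti _ ?_ ?_ n hn hn1
    · intro g h
      show (ξ₀.1 : Nz K → ℂ) (h * g * h⁻¹) - (ξ.1 : Nz K → ℂ) (h * g * h⁻¹) =
        (ξ₀.1 : Nz K → ℂ) g - (ξ.1 : Nz K → ℂ) g
      rw [irr_isClassFunction ξ₀.1 g h, irr_isClassFunction ξ.1 g h]
    · intro x hx
      show (ξ₀.1 : Nz K → ℂ) x - (ξ.1 : Nz K → ℂ) x = 0
      rw [exc_vanish hd ξ₀ x hx, exc_vanish hd ξ x hx, sub_zero]
  rw [h2] at h1
  have h3 := hc n hn hn1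
  simp only [Pi.sub_apply, Pi.smul_apply, smul_eq_mul] at h1
  linear_combination h3 + ε * h1 + ((f ξ₀ : G → ℂ) n - (f ξ : G → ℂ) n) * hε2

/-- Column orthogonality against the identity, summed over `K^#`. -/
theorem col_one :
    ∑ ψ : IrrCharacter G,
      ((ψ : G → ℂ) 1).re * bk K (fun n : Nz K => ((ψ : G → ℂ) n).re) = 0 := by
  classical
  have h2 : ∀ n : Nz K, (n : G) ∈ K → n ≠ 1 →
      ∑ ψ : IrrCharacter G, ((ψ : G → ℂ) 1).re * ((ψ : G → ℂ) n).re = 0 := by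
    intro n hn hn1
    have h := (sum_irr_mul_conj (1 : G) (n : G)).2 (by
      intro hc
      have h1 : (n : G) = 1 := isConj_one_right.mp hc
      exact hn1 (Subtype.ext h1))
    have h3 := congrArg Complex.re h
    rw [Complex.re_sum, Complex.zero_re] at h3
    rw [← h3]
    refine Finset.sum_congr rfl fun ψ _ => ?_
    obtain ⟨d, -, hd1⟩ := irr_one_pos_nat ψ
    rw [hd1]
    simp
  unfold bk
  simp_rw [Finset.mul_sum]
  rw [Finset.sum_comm]
  refine Finset.sum_eq_zero fun n _ => ?_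
  by_cases hcnd : (n : G) ∈ K ∧ n ≠ 1
  · simp only [if_pos hcnd]
    exact h2 n hcnd.1 hcnd.2
  · simp only [if_neg hcnd, mul_zero]
    exact Finset.sum_const_zero

theorem brauer_lite (hd : TIData K)
    (ht : (K.subgroupOf (Nz K)).index + 2 ≤ Nat.card (Exc K)) :
    ∃ (NE : Finset (IrrCharacter G)) (cv : IrrCharacter G → ℤ) (dg : IrrCharacter G → ℕ)
      (ψ₀ : IrrCharacter G) (e : ℤ),
      (e = 1 ∨ e = -1) ∧ (∀ ψ : IrrCharacter G, (ψ : G → ℂ) 1 = (dg ψ : ℂ)) ∧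
      (∀ ψ ∈ NE, (ψ : G → ℂ) ≠ fun _ => 1) ∧
      (∀ ψ ∈ NE, (Nat.card K : ℤ) ∣ (dg ψ : ℤ) - cv ψ) ∧
      (Nat.card K : ℤ) ∣ (dg ψ₀ : ℤ) - e * ((K.subgroupOf (Nz K)).index : ℤ) ∧
      ∑ ψ ∈ NE, cv ψ ^ 2 = ((K.subgroupOf (Nz K)).index : ℤ) - 1 ∧
      e * (dg ψ₀ : ℤ) = 1 + ∑ ψ ∈ NE, cv ψ * (dg ψ : ℤ) := by
  classical
  obtain ⟨ε, f, he⟩ := exists_excData hd
  haveI : Fintype (Exc K) := Fintype.ofFinite _
  have hcard := card_exc hd
  rw [Nat.card_eq_fintype_card] at hcard ht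
  have ht1 : 0 < Fintype.card (Exc K) := by omega
  obtain ⟨ξ₀⟩ := Fintype.card_pos_iff.mp ht1
  obtain ⟨c, hc⟩ := exc_const hd he ξ₀
  obtain ⟨e, he1, hee⟩ : ∃ e : ℤ, (e = 1 ∨ e = -1) ∧ ε = (e : ℂ) := by
    rcases he.eps with h | h
    · exact ⟨1, Or.inl rfl, by rw [h]; simp⟩
    · exact ⟨-1, Or.inr rfl, by rw [h]; simp⟩
  have he2 : (e : ℝ) ^ 2 = 1 := by rcases he1 with h | h <;> rw [h] <;> norm_num
  have hunif : ∀ ξ : Exc K, ∀ n : Nz K, (n : G) ∈ K → n ≠ 1 →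
      (f ξ : G → ℂ) n = (((e : ℤ) : ℝ) : ℂ) * (ξ.1 : Nz K → ℂ) n + (((c : ℤ) : ℝ) : ℂ) := by
    intro ξ n hn hn1
    have h1 := exc_unif hd he ξ₀ (c : ℂ) hc ξ n hn hn1
    push_cast
    rw [← hee]
    exact h1
  choose dg hdg0 hdg using fun ψ : IrrCharacter G => irr_one_pos_nat ψ
  have hone : IsIrrCharacter G (fun _ => (1 : ℂ)) := isIrrCharacter_one
  obtain ⟨triv, htriv⟩ : ∃ T : IrrCharacter G, (T : G → ℂ) = fun _ => 1 := ⟨⟨_, hone⟩, rfl⟩
  have hfne : ∀ ξ : Exc K, f ξ ≠ triv := by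
    intro ξ h
    obtain ⟨ξ', hξ'⟩ : ∃ ξ' : Exc K, ξ' ≠ ξ := by
      by_contra hne
      have h1 : ∀ ξ' : Exc K, ξ' = ξ := fun ξ' => by
        by_contra h2
        exact hne ⟨ξ', h2⟩
      have h3 : Fintype.card (Exc K) ≤ 1 :=
        Fintype.card_le_one_iff.mpr (fun a b => (h1 a).trans (h1 b).symm)
      omega
    exact f_ne_one he ξ ξ' hξ' ((congrArg Subtype.val h).trans htriv)
  obtain ⟨NE, hNE⟩ : ∃ S : Finset (IrrCharacter G),
      ∀ ψ, ψ ∈ S ↔ (ψ ≠ triv ∧ ∀ ξ : Exc K, f ξ ≠ ψ) :=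
    ⟨Finset.univ.filter (fun ψ => ψ ≠ triv ∧ ∀ ξ : Exc K, f ξ ≠ ψ), fun ψ => by simp⟩
  have hcv : ∀ ψ : IrrCharacter G, ∃ z : ℤ, (∀ ξ : Exc K, f ξ ≠ ψ) →
      ∀ n : Nz K, (n : G) ∈ K → n ≠ 1 → (ψ : G → ℂ) n = z := by
    intro ψ
    by_cases h : ∀ ξ : Exc K, f ξ ≠ ψ
    · obtain ⟨z, hz⟩ := nonexc_const hd he ψ h
      exact ⟨z, fun _ => hz⟩
    · exact ⟨0, fun h' => absurd h' h⟩
  choose cv hcv using hcv
  have hsplit : ∀ F : IrrCharacter G → ℝ,
      ∑ ψ, F ψ = F triv + ∑ ψ ∈ NE, F ψ + ∑ ξ : Exc K, F (f ξ) := by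
    intro F
    have huniv : (Finset.univ : Finset (IrrCharacter G)) =
        insert triv (NE ∪ Finset.univ.image f) := by
      ext ψ
      simp only [Finset.mem_univ, Finset.mem_insert, Finset.mem_union, Finset.mem_image,
        true_and, true_iff, hNE]
      by_cases h1 : ψ = triv
      · exact Or.inl h1
      · by_cases h2 : ∃ ξ, f ξ = ψ
        · exact Or.inr (Or.inr h2)
        · exact Or.inr (Or.inl ⟨h1, fun ξ h => h2 ⟨ξ, h⟩⟩)
    rw [huniv, Finset.sum_insert, Finset.sum_union, Finset.sum_image (fun x _ y _ h => he.inj h),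
      add_assoc]
    · rw [Finset.disjoint_left]
      intro ψ h1 h2
      obtain ⟨ξ, -, hξ⟩ := Finset.mem_image.mp h2
      exact ((hNE ψ).mp h1).2 ξ hξ
    · rw [Finset.mem_union, not_or]
      constructor
      · exact fun h => ((hNE triv).mp h).1 rfl
      · rw [Finset.mem_image]
        rintro ⟨ξ, -, h⟩
        exact hfne ξ h
  have hcardR : (Nat.card K : ℝ) =
      (Fintype.card (Exc K) : ℝ) * ((K.subgroupOf (Nz K)).index : ℝ) + 1 := by
    exact_mod_cast hcard.symm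
  have hlpos : 0 < (K.subgroupOf (Nz K)).index :=
    Nat.pos_of_ne_zero Subgroup.index_ne_zero_of_finite
  have hlR : (0 : ℝ) < ((K.subgroupOf (Nz K)).index : ℝ) := by exact_mod_cast hlpos
  have htR : (0 : ℝ) < (Fintype.card (Exc K) : ℝ) := by exact_mod_cast ht1
  have hpos : 0 < (Fintype.card (Exc K) : ℝ) * ((K.subgroupOf (Nz K)).index : ℝ) :=
    mul_pos htR hlR
  -- values
  have hT1 : bk K (fun n : Nz K => Complex.normSq ((triv : G → ℂ) n)) =
      (Nat.card K : ℝ) - 1 := by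
    have h1 : (fun n : Nz K => Complex.normSq ((triv : G → ℂ) n)) = fun _ => (1 : ℝ) := by
      funext n; rw [htriv]; simp
    rw [h1, bk_const, mul_one]
  have hT2 : bk K (fun n : Nz K => ((triv : G → ℂ) n).re) = (Nat.card K : ℝ) - 1 := by
    have h1 : (fun n : Nz K => ((triv : G → ℂ) n).re) = fun _ => (1 : ℝ) := by
      funext n; rw [htriv]; simp
    rw [h1, bk_const, mul_one]
  have hT3 : ((triv : G → ℂ) 1).re = 1 := by rw [htriv]; simp
  have hN1 : ∀ ψ ∈ NE, bk K (fun n : Nz K => Complex.normSq ((ψ : G → ℂ) n)) =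
      ((Nat.card K : ℝ) - 1) * (cv ψ : ℝ) ^ 2 := by
    intro ψ hψ
    rw [bk_congr (F' := fun _ => (cv ψ : ℝ) ^ 2) (fun n hn hn1 => by
      rw [hcv ψ ((hNE ψ).mp hψ).2 n hn hn1, ← Complex.ofReal_intCast, Complex.normSq_ofReal]
      ring), bk_const]
  have hN2 : ∀ ψ ∈ NE, ((ψ : G → ℂ) 1).re * bk K (fun n : Nz K => ((ψ : G → ℂ) n).re) =
      ((Nat.card K : ℝ) - 1) * ((cv ψ : ℝ) * (dg ψ : ℝ)) := by
    intro ψ hψ
    rw [bk_congr (F' := fun _ => (cv ψ : ℝ)) (fun n hn hn1 => by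
      rw [hcv ψ ((hNE ψ).mp hψ).2 n hn hn1]; simp), bk_const, hdg ψ]
    simp only [Complex.natCast_re]
    ring
  have hE1 : ∀ ξ : Exc K, bk K (fun n : Nz K => Complex.normSq ((f ξ : G → ℂ) n)) =
      ((Nat.card K : ℝ) * ((K.subgroupOf (Nz K)).index : ℝ) -
        ((K.subgroupOf (Nz K)).index : ℝ) ^ 2)
        - 2 * (e : ℝ) * (c : ℝ) * ((K.subgroupOf (Nz K)).index : ℝ)
        + (c : ℝ) ^ 2 * ((Nat.card K : ℝ) - 1) := by
    intro ξ
    rw [(lin_sums hd ξ (f ξ : G → ℂ) (e : ℝ) (c : ℝ) (hunif ξ)).1, he2, one_mul]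
  have hE2 : ∀ ξ : Exc K,
      ((f ξ : G → ℂ) 1).re * bk K (fun n : Nz K => ((f ξ : G → ℂ) n).re) =
      (dg (f ξ₀) : ℝ) * (-(e : ℝ) * ((K.subgroupOf (Nz K)).index : ℝ) +
        (c : ℝ) * ((Nat.card K : ℝ) - 1)) := by
    intro ξ
    rw [(lin_sums hd ξ (f ξ : G → ℂ) (e : ℝ) (c : ℝ) (hunif ξ)).2,
      f_eq_off hd he ξ ξ₀ 1 (fun x _ => by simp), hdg]
    simp only [Complex.natCast_re]
  -- equation (i)
  have hi : bk K (fun n : Nz K => Complex.normSq ((triv : G → ℂ) n)) +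
      ∑ ψ ∈ NE, bk K (fun n : Nz K => Complex.normSq ((ψ : G → ℂ) n)) +
      ∑ ξ : Exc K, bk K (fun n : Nz K => Complex.normSq ((f ξ : G → ℂ) n)) =
      ((Nat.card K : ℝ) - 1) * (Nat.card K : ℝ) := by
    rw [← col_sum hd]
    exact (hsplit (fun ψ => bk K (fun n : Nz K => Complex.normSq ((ψ : G → ℂ) n)))).symm
  rw [hT1, Finset.sum_congr rfl hN1, Finset.sum_congr rfl (fun ξ _ => hE1 ξ), Finset.sum_const,
    Finset.card_univ, nsmul_eq_mul, ← Finset.mul_sum, hcardR] at hi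
  have hi1 : ((Fintype.card (Exc K) : ℝ) * ((K.subgroupOf (Nz K)).index : ℝ)) *
      (∑ ψ ∈ NE, (cv ψ : ℝ) ^ 2 + (Fintype.card (Exc K) : ℝ) * (c : ℝ) ^ 2 -
        2 * (e : ℝ) * (c : ℝ) - (((K.subgroupOf (Nz K)).index : ℝ) - 1)) = 0 := by
    linear_combination hi
  have hi2 : ∑ ψ ∈ NE, (cv ψ : ℝ) ^ 2 + (Fintype.card (Exc K) : ℝ) * (c : ℝ) ^ 2 -
        2 * (e : ℝ) * (c : ℝ) - (((K.subgroupOf (Nz K)).index : ℝ) - 1) = 0 := by
    rcases mul_eq_zero.mp hi1 with h | h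
    · exact absurd h hpos.ne'
    · exact h
  have hiZ : ∑ ψ ∈ NE, cv ψ ^ 2 + (Fintype.card (Exc K) : ℤ) * c ^ 2 - 2 * e * c -
      (((K.subgroupOf (Nz K)).index : ℤ) - 1) = 0 := by
    apply Int.cast_injective (α := ℝ)
    push_cast
    linarith
  have hsum0 : 0 ≤ ∑ ψ ∈ NE, cv ψ ^ 2 := Finset.sum_nonneg (fun ψ _ => sq_nonneg _)
  have htZ : (((K.subgroupOf (Nz K)).index : ℤ)) + 2 ≤ (Fintype.card (Exc K) : ℤ) := by
    exact_mod_cast ht
  have hl0 : (0 : ℤ) ≤ ((K.subgroupOf (Nz K)).index : ℤ) := Int.natCast_nonneg _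
  have hc0 : c = 0 := by
    by_contra hne
    have hc2 : 1 ≤ c ^ 2 := by
      rcases lt_or_gt_of_ne hne with h | h
      · nlinarith
      · nlinarith
    have hc3 : c ≤ c ^ 2 := by nlinarith
    have hc4 : -c ≤ c ^ 2 := by nlinarith
    have h5 := mul_le_mul_of_nonneg_right htZ (sq_nonneg c)
    have h6 := mul_nonneg hl0 (sub_nonneg.mpr hc2)
    rcases he1 with h | h
    · rw [h] at hiZ
      nlinarith
    · rw [h] at hiZ
      nlinarith
  rw [hc0] at hiZ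
  have hc0R : (c : ℝ) = 0 := by rw [hc0]; simp
  -- equation (iii)
  have hiii : ((triv : G → ℂ) 1).re * bk K (fun n : Nz K => ((triv : G → ℂ) n).re) +
      ∑ ψ ∈ NE, ((ψ : G → ℂ) 1).re * bk K (fun n : Nz K => ((ψ : G → ℂ) n).re) +
      ∑ ξ : Exc K, ((f ξ : G → ℂ) 1).re * bk K (fun n : Nz K => ((f ξ : G → ℂ) n).re) = 0 := by
    rw [← col_one (K := K)]
    exact (hsplit (fun ψ =>
      ((ψ : G → ℂ) 1).re * bk K (fun n : Nz K => ((ψ : G → ℂ) n).re))).symm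
  rw [hT2, hT3, one_mul, Finset.sum_congr rfl hN2, Finset.sum_congr rfl (fun ξ _ => hE2 ξ),
    Finset.sum_const, Finset.card_univ, nsmul_eq_mul, ← Finset.mul_sum, hcardR, hc0R] at hiii
  have hiii1 : ((Fintype.card (Exc K) : ℝ) * ((K.subgroupOf (Nz K)).index : ℝ)) *
      (1 + ∑ ψ ∈ NE, (cv ψ : ℝ) * (dg ψ : ℝ) - (e : ℝ) * (dg (f ξ₀) : ℝ)) = 0 := by
    linear_combination hiii
  have hiii2 : 1 + ∑ ψ ∈ NE, (cv ψ : ℝ) * (dg ψ : ℝ) - (e : ℝ) * (dg (f ξ₀) : ℝ) = 0 := by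
    rcases mul_eq_zero.mp hiii1 with h | h
    · exact absurd h hpos.ne'
    · exact h
  have hiiiZ : e * (dg (f ξ₀) : ℤ) = 1 + ∑ ψ ∈ NE, cv ψ * (dg ψ : ℤ) := by
    apply Int.cast_injective (α := ℝ)
    push_cast
    linarith
  refine ⟨NE, cv, dg, f ξ₀, e, he1, hdg, ?_, ?_, ?_, by linarith, hiiiZ⟩
  · intro ψ hψ h
    exact ((hNE ψ).mp hψ).1 (Subtype.ext (h.trans htriv.symm))
  · intro ψ hψ
    obtain ⟨k, hk⟩ := sum_K (K := K) (isCharacter_of_isIrrCharacter ψ.2)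
    rw [bk_congr (F' := fun _ => (cv ψ : ℝ)) (fun n hn hn1 => by
      rw [hcv ψ ((hNE ψ).mp hψ).2 n hn hn1]; simp), bk_const, hdg ψ] at hk
    simp only [Complex.natCast_re] at hk
    refine ⟨(k : ℤ) - cv ψ, ?_⟩
    apply Int.cast_injective (α := ℝ)
    push_cast
    linarith
  · obtain ⟨k, hk⟩ := sum_K (K := K) (isCharacter_of_isIrrCharacter (f ξ₀).2)
    rw [(lin_sums hd ξ₀ (f ξ₀ : G → ℂ) (e : ℝ) (c : ℝ) (hunif ξ₀)).2, hdg, hc0R] at hk
    simp only [Complex.natCast_re] at hk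
    refine ⟨(k : ℤ), ?_⟩
    apply Int.cast_injective (α := ℝ)
    push_cast
    linarith

end chars

section arith

theorem sq_sum_one {ι : Type*} (S : Finset ι) (f : ι → ℤ) (h : ∑ i ∈ S, f i ^ 2 = 1) :
    ∃ i ∈ S, (f i = 1 ∨ f i = -1) ∧ ∀ j ∈ S, j ≠ i → f j = 0 := by
  classical
  have hex : ∃ i ∈ S, f i ≠ 0 := by
    by_contra hne
    have h0 : ∑ i ∈ S, f i ^ 2 = 0 := Finset.sum_eq_zero (fun i hi => by
      have h1 : f i = 0 := by
        by_contra h'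
        exact hne ⟨i, hi, h'⟩
      rw [h1]; ring)
    omega
  obtain ⟨i, hi, hfi⟩ := hex
  have hsplit : f i ^ 2 + ∑ j ∈ S.erase i, f j ^ 2 = ∑ j ∈ S, f j ^ 2 :=
    Finset.add_sum_erase S (fun i => f i ^ 2) hi
  have hrest0 : 0 ≤ ∑ j ∈ S.erase i, f j ^ 2 := Finset.sum_nonneg (fun j _ => sq_nonneg _)
  have hfi2 : 1 ≤ f i ^ 2 := by
    rcases lt_or_gt_of_ne hfi with h' | h' <;> nlinarith
  have hfi1 : f i ^ 2 = 1 := by linarith
  have hrest : ∑ j ∈ S.erase i, f j ^ 2 = 0 := by linarith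
  refine ⟨i, hi, ?_, ?_⟩
  · have h1 : (f i - 1) * (f i + 1) = 0 := by linear_combination hfi1
    rcases mul_eq_zero.mp h1 with h' | h'
    · left; linarith
    · right; linarith
  · intro j hj hji
    have h1 := (Finset.sum_eq_zero_iff_of_nonneg (fun j _ => sq_nonneg (f j))).mp hrest j
      (Finset.mem_erase.mpr ⟨hji, hj⟩)
    exact pow_eq_zero_iff (two_ne_zero) |>.mp h1

theorem sq_sum_two {ι : Type*} (S : Finset ι) (f : ι → ℤ) (h : ∑ i ∈ S, f i ^ 2 = 2) :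
    ∃ i ∈ S, ∃ j ∈ S, i ≠ j ∧ (f i = 1 ∨ f i = -1) ∧ (f j = 1 ∨ f j = -1) ∧
      ∀ k ∈ S, k ≠ i → k ≠ j → f k = 0 := by
  classical
  have hex : ∃ i ∈ S, f i ≠ 0 := by
    by_contra hne
    have h0 : ∑ i ∈ S, f i ^ 2 = 0 := Finset.sum_eq_zero (fun i hi => by
      have h1 : f i = 0 := by
        by_contra h'
        exact hne ⟨i, hi, h'⟩
      rw [h1]; ring)
    omega
  obtain ⟨i, hi, hfi⟩ := hex
  have hsplit : f i ^ 2 + ∑ j ∈ S.erase i, f j ^ 2 = ∑ j ∈ S, f j ^ 2 :=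
    Finset.add_sum_erase S (fun i => f i ^ 2) hi
  have hrest0 : 0 ≤ ∑ j ∈ S.erase i, f j ^ 2 := Finset.sum_nonneg (fun j _ => sq_nonneg _)
  have hle : f i ≤ 1 := by
    by_contra h'
    have h2 := not_le.mp h'
    nlinarith
  have hge : -1 ≤ f i := by
    by_contra h'
    have h2 := not_le.mp h'
    nlinarith
  have hfi' : f i = 1 ∨ f i = -1 := by omega
  have hfi1 : f i ^ 2 = 1 := by rcases hfi' with h' | h' <;> rw [h'] <;> norm_num
  have hrest : ∑ j ∈ S.erase i, f j ^ 2 = 1 := by linarith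
  obtain ⟨j, hj, hfj, hothers⟩ := sq_sum_one (S.erase i) f hrest
  refine ⟨i, hi, j, Finset.mem_of_mem_erase hj, (Finset.ne_of_mem_erase hj).symm, hfi', hfj, ?_⟩
  intro k hk hki hkj
  exact hothers k (Finset.mem_erase.mpr ⟨hki, hk⟩) hkj

end arith

section grp

open Cfsg.Agent.S4508

variable {G : Type*} [Group G] [Finite G]

/-- Sylow set-up: in a simple group of order `p * m` (`p ∤ m`) in which the only admissible
numbers of Sylow `p`-subgroups are `1` and `n₀`, with `m = n₀ * e₀` and `e₀` prime, a Sylow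
`p`-subgroup is generated by a self-centralizing element and has index `e₀` in its normalizer. -/
theorem sylow_setup [IsSimpleGroup G] (p m n₀ e₀ : ℕ) [hp : Fact p.Prime]
    (hcard : Nat.card G = p * m) (hpm : ¬ p ∣ m)
    (hn : ∀ n, n ∣ m → n % p = 1 → n = 1 ∨ n = n₀) (hm : m = n₀ * e₀) (he₀ : e₀.Prime)
    (hm1 : 1 < m) :
    ∃ x : G, orderOf x = p ∧ Subgroup.centralizer ({x} : Set G) = Subgroup.zpowers x ∧
      ((Subgroup.zpowers x).subgroupOf (Nz (Subgroup.zpowers x))).index = e₀ := by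
  classical
  haveI : Fintype G := Fintype.ofFinite G
  obtain ⟨P⟩ : Nonempty (Sylow p G) := inferInstance
  have hm0 : m ≠ 0 := by omega
  have hp0 : p ≠ 0 := hp.out.ne_zero
  have hcardP : Nat.card (P : Subgroup G) = p := by
    have h := P.card_eq_multiplicity
    rw [hcard, Nat.factorization_mul hp0 hm0, Finsupp.add_apply,
      hp.out.factorization_self, Nat.factorization_eq_zero_of_not_dvd hpm, pow_one] at h
    exact h
  have hidx : (P : Subgroup G).index = m := by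
    have h1 := Subgroup.card_mul_index (P : Subgroup G)
    rw [hcardP, hcard] at h1
    exact Nat.eq_of_mul_eq_mul_left hp.out.pos h1
  have hn1 := card_sylow_modEq_one p G
  have hn2 : Nat.card (Sylow p G) ∣ m := by
    have h := P.card_dvd_index
    rw [hidx] at h
    exact h
  have hn3 : Nat.card (Sylow p G) % p = 1 := by
    have h := hn1
    rw [Nat.ModEq, Nat.mod_eq_of_lt hp.out.one_lt] at h
    exact h
  have hPbot : (P : Subgroup G) ≠ ⊥ := by
    intro h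
    rw [h, Subgroup.card_bot] at hcardP
    exact hp.out.one_lt.ne hcardP
  have hPtop : (P : Subgroup G) ≠ ⊤ := by
    intro h
    rw [h, Subgroup.index_top] at hidx
    omega
  have hnp : Nat.card (Sylow p G) = n₀ := by
    rcases hn _ hn2 hn3 with h | h
    · exfalso
      rw [P.card_eq_index_normalizer, Subgroup.index_eq_one] at h
      have hnorm : (P : Subgroup G).Normal :=
        (Subgroup.normalizer_eq_top_iff (H := (P : Subgroup G))).mp h
      rcases hnorm.eq_bot_or_eq_top with h' | h'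
      · exact hPbot h'
      · exact hPtop h'
    · exact h
  have hn₀ : 0 < n₀ := by
    rcases Nat.eq_zero_or_pos n₀ with h | h
    · rw [h, zero_mul] at hm
      omega
    · exact h
  have hNcard : Nat.card (Subgroup.normalizer (P : Set G)) = p * e₀ := by
    have h1 := Subgroup.card_mul_index (Subgroup.normalizer (P : Set G))
    rw [← P.card_eq_index_normalizer, hnp, hcard, hm] at h1
    apply Nat.eq_of_mul_eq_mul_right hn₀
    rw [h1]
    ring
  haveI : Nontrivial (P : Subgroup G) := (Subgroup.nontrivial_iff_ne_bot _).mpr hPbot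
  obtain ⟨x', hx'⟩ := exists_ne (1 : (P : Subgroup G))
  have hxP : (x' : G) ∈ (P : Subgroup G) := x'.2
  have hx1 : (x' : G) ≠ 1 := fun h => hx' (Subtype.ext h)
  have hord : orderOf (x' : G) = p := by
    have h1 : orderOf (x' : G) ∣ p := by
      have h := orderOf_dvd_natCard x'
      rw [hcardP] at h
      rwa [Subgroup.orderOf_coe]
    rcases (Nat.dvd_prime hp.out).mp h1 with h | h
    · exact absurd (orderOf_eq_one_iff.mp h) hx1
    · exact h
  have hzP : Subgroup.zpowers (x' : G) = (P : Subgroup G) := by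
    apply Subgroup.eq_of_le_of_card_ge (Subgroup.zpowers_le.mpr hxP)
    rw [Nat.card_zpowers, hord, hcardP]
  have hNz : Nat.card (Nz (Subgroup.zpowers (x' : G))) = p * e₀ := by
    rw [hzP]
    exact hNcard
  have hzle : Subgroup.zpowers (x' : G) ≤ Subgroup.centralizer ({(x' : G)} : Set G) := by
    rw [Subgroup.zpowers_le, Subgroup.mem_centralizer_iff]
    intro y hy
    rw [Set.mem_singleton_iff] at hy
    rw [hy]
  have hCN : Subgroup.centralizer ({(x' : G)} : Set G) ≤ Nz (Subgroup.zpowers (x' : G)) := by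
    intro c hc
    apply mem_nz_of_conj
    intro a ha
    obtain ⟨i, rfl⟩ := Subgroup.mem_zpowers_iff.mp ha
    have h1 : Commute (x' : G) c := Subgroup.mem_centralizer_iff.mp hc _ (Set.mem_singleton _)
    have h2 : c * (x' : G) ^ i * c⁻¹ = (x' : G) ^ i := by
      rw [← conj_zpow]
      congr 1
      rw [← h1.eq, mul_inv_cancel_right]
    rw [h2]
    exact Subgroup.zpow_mem _ (Subgroup.mem_zpowers _) i
  refine ⟨(x' : G), hord, ?_, ?_⟩
  · obtain ⟨k, hk⟩ : p ∣ Nat.card (Subgroup.centralizer ({(x' : G)} : Set G)) := by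
      have h := Subgroup.card_dvd_of_le hzle
      rwa [Nat.card_zpowers, hord] at h
    have hk2 : Nat.card (Subgroup.centralizer ({(x' : G)} : Set G)) ∣ p * e₀ := by
      rw [← hNz]
      exact Subgroup.card_dvd_of_le hCN
    rw [hk] at hk2
    have hk3 : k ∣ e₀ := Nat.dvd_of_mul_dvd_mul_left hp.out.pos hk2
    rcases (Nat.dvd_prime he₀).mp hk3 with h | h
    · symm
      apply Subgroup.eq_of_le_of_card_ge hzle
      rw [hk, h, mul_one, Nat.card_zpowers, hord]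
    · exfalso
      have hCeqN : Subgroup.centralizer ({(x' : G)} : Set G) =
          Nz (Subgroup.zpowers (x' : G)) := by
        apply Subgroup.eq_of_le_of_card_ge hCN
        rw [hk, h, hNz]
      have hN : Subgroup.normalizer (P : Set G) ≤ Subgroup.centralizer (P : Set G) := by
        intro g hg
        have hg' : g ∈ Subgroup.centralizer ({(x' : G)} : Set G) := by
          rw [hCeqN, hzP]
          exact hg
        rw [Subgroup.mem_centralizer_iff]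
        intro a ha
        have ha' : a ∈ Subgroup.zpowers (x' : G) := by
          rw [hzP]
          exact ha
        obtain ⟨i, rfl⟩ := Subgroup.mem_zpowers_iff.mp ha'
        have h1 : Commute (x' : G) g :=
          Subgroup.mem_centralizer_iff.mp hg' _ (Set.mem_singleton _)
        exact (h1.zpow_left i).eq
      have hcompl := MonoidHom.ker_transferSylow_isComplement' P hN
      have hidxk : (MonoidHom.transferSylow P hN).ker.index = p := by
        rw [hcompl.symm.index_eq_card]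
        exact hcardP
      rcases (MonoidHom.normal_ker (MonoidHom.transferSylow P hN)).eq_bot_or_eq_top with h' | h'
      · have h2 := Subgroup.card_mul_index (MonoidHom.transferSylow P hN).ker
        rw [hidxk, h', Subgroup.card_bot, hcard, one_mul] at h2
        have h3 : p * 1 = p * m := by rw [mul_one]; exact h2
        have h4 := Nat.eq_of_mul_eq_mul_left hp.out.pos h3
        omega
      · rw [h', Subgroup.index_top] at hidxk
        exact hp.out.one_lt.ne hidxk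
  · have h1 := card_nz (Subgroup.zpowers (x' : G))
    rw [hNz, Nat.card_zpowers, hord] at h1
    exact (Nat.eq_of_mul_eq_mul_left hp.out.pos h1).symm

omit [Finite G] in
theorem no_linear [IsSimpleGroup G] (hnc : ∃ a b : G, a * b ≠ b * a) (ψ : IrrCharacter G)
    (h1 : (ψ : G → ℂ) 1 = 1) : (ψ : G → ℂ) = fun _ => 1 := by
  obtain ⟨φ, hφ⟩ :=
    Cfsg.Agent.Helper5.linChar_exists_hom (isCharacter_of_isIrrCharacter ψ.2) h1
  rcases (MonoidHom.normal_ker φ).eq_bot_or_eq_top with h | h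
  · exfalso
    obtain ⟨a, b, hab⟩ := hnc
    apply hab
    have hinj : Function.Injective φ := (MonoidHom.ker_eq_bot_iff φ).mp h
    apply hinj
    rw [map_mul, map_mul, mul_comm]
  · funext g
    rw [← hφ g]
    have h2 : g ∈ φ.ker := by rw [h]; trivial
    rw [MonoidHom.mem_ker.mp h2]
    simp

/-- Brauer's degree equation in a simple group with a self-centralizing element of prime order
`p` whose group has index `l` in its normalizer, `(l + 2) l + 1 ≤ p`. -/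
theorem bl_group [IsSimpleGroup G] (p l : ℕ) [hp : Fact p.Prime] (x : G) (hx : orderOf x = p)
    (hC : Subgroup.centralizer ({x} : Set G) = Subgroup.zpowers x)
    (hl : ((Subgroup.zpowers x).subgroupOf (Nz (Subgroup.zpowers x))).index = l)
    (htl : (l + 2) * l + 1 ≤ p) (hG : p < Nat.card G) :
    ∃ (NE : Finset (IrrCharacter G)) (cv : IrrCharacter G → ℤ) (dg : IrrCharacter G → ℕ)
      (d₀ : ℕ) (e : ℤ), (e = 1 ∨ e = -1) ∧
      (∀ ψ ∈ NE, dg ψ ∣ Nat.card G ∧ dg ψ ≠ 1 ∧ (p : ℤ) ∣ (dg ψ : ℤ) - cv ψ) ∧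
      d₀ ∣ Nat.card G ∧ (p : ℤ) ∣ (d₀ : ℤ) - e * (l : ℤ) ∧
      ∑ ψ ∈ NE, cv ψ ^ 2 = (l : ℤ) - 1 ∧
      e * (d₀ : ℤ) = 1 + ∑ ψ ∈ NE, cv ψ * (dg ψ : ℤ) := by
  classical
  haveI : Fintype G := Fintype.ofFinite G
  haveI : Fintype (Nz (Subgroup.zpowers x)) := Fintype.ofFinite _
  have hd : TIData (Subgroup.zpowers x) := tidata p hx hC
  have hcardK : Nat.card (Subgroup.zpowers x) = p := by rw [Nat.card_zpowers, hx]
  have hce := card_exc hd
  rw [hl, hcardK] at hce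
  have hl0 : 0 < l := by
    rw [← hl]
    exact Nat.pos_of_ne_zero Subgroup.index_ne_zero_of_finite
  have ht : ((Subgroup.zpowers x).subgroupOf (Nz (Subgroup.zpowers x))).index + 2 ≤
      Nat.card (Exc (Subgroup.zpowers x)) := by
    rw [hl]
    have h1 : (l + 2) * l ≤ Nat.card (Exc (Subgroup.zpowers x)) * l := by omega
    exact Nat.le_of_mul_le_mul_right h1 hl0
  obtain ⟨NE, cv, dg, ψ₀, e, he, hdg, hNE, hcong, hcong0, hsq, heq⟩ := brauer_lite hd ht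
  rw [hl, hcardK] at hcong0
  rw [hl] at hsq
  have hnc : ∃ a b : G, a * b ≠ b * a := by
    by_contra hne
    have hcomm : ∀ a b : G, a * b = b * a := fun a b => by
      by_contra h'
      exact hne ⟨a, b, h'⟩
    have htop : Subgroup.centralizer ({x} : Set G) = ⊤ := by
      rw [Subgroup.eq_top_iff']
      intro g
      rw [Subgroup.mem_centralizer_iff]
      intro y _
      exact hcomm y g
    rw [hC] at htop
    rw [htop, Subgroup.card_top] at hcardK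
    omega
  have hdvd : ∀ ψ : IrrCharacter G, dg ψ ∣ Nat.card G := by
    intro ψ
    obtain ⟨n, hn1, hn2⟩ := irr_degree_dvd_card ψ
    rw [hdg ψ] at hn1
    have h1 : dg ψ = n := by exact_mod_cast hn1
    rw [h1]
    exact hn2
  refine ⟨NE, cv, dg, dg ψ₀, e, he, ?_, hdvd ψ₀, hcong0, hsq, heq⟩
  intro ψ hψ
  refine ⟨hdvd ψ, ?_, ?_⟩
  · intro h1
    apply hNE ψ hψ
    apply no_linear hnc ψ
    rw [hdg ψ, h1]
    simp
  · have h2 := hcong ψ hψ
    rw [hcardK] at h2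
    exact h2

/-- The case `l = 2`. -/
theorem end2 [IsSimpleGroup G] (p : ℕ) [hp : Fact p.Prime] (x : G) (hx : orderOf x = p)
    (hC : Subgroup.centralizer ({x} : Set G) = Subgroup.zpowers x)
    (hl : ((Subgroup.zpowers x).subgroupOf (Nz (Subgroup.zpowers x))).index = 2)
    (htl : 9 ≤ p) (hG : p < Nat.card G) :
    ∃ (D d₀ : ℕ) (s e : ℤ), (s = 1 ∨ s = -1) ∧ (e = 1 ∨ e = -1) ∧ D ∣ Nat.card G ∧
      d₀ ∣ Nat.card G ∧ D ≠ 1 ∧ (p : ℤ) ∣ (D : ℤ) - s ∧ (p : ℤ) ∣ (d₀ : ℤ) - e * 2 ∧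
      e * (d₀ : ℤ) = 1 + s * (D : ℤ) := by
  classical
  obtain ⟨NE, cv, dg, d₀, e, he, hNE, hd₀, hcong0, hsq, heq⟩ :=
    bl_group p 2 x hx hC hl (by omega) hG
  have hsq' : ∑ ψ ∈ NE, cv ψ ^ 2 = 1 := by rw [hsq]; norm_num
  obtain ⟨ψ₁, hψ₁, hs, hothers⟩ := sq_sum_one NE cv hsq'
  have hsum : ∑ ψ ∈ NE, cv ψ * (dg ψ : ℤ) = cv ψ₁ * (dg ψ₁ : ℤ) := by
    apply Finset.sum_eq_single_of_mem ψ₁ hψ₁
    intro j hj hj1
    rw [hothers j hj hj1, zero_mul]
  rw [hsum] at heq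
  obtain ⟨h1, h2, h3⟩ := hNE ψ₁ hψ₁
  exact ⟨dg ψ₁, d₀, cv ψ₁, e, hs, he, h1, hd₀, h2, h3, by exact_mod_cast hcong0, heq⟩

/-- The case `l = 3`. -/
theorem end3 [IsSimpleGroup G] (p : ℕ) [hp : Fact p.Prime] (x : G) (hx : orderOf x = p)
    (hC : Subgroup.centralizer ({x} : Set G) = Subgroup.zpowers x)
    (hl : ((Subgroup.zpowers x).subgroupOf (Nz (Subgroup.zpowers x))).index = 3)
    (htl : 16 ≤ p) (hG : p < Nat.card G) :
    ∃ (D₁ D₂ d₀ : ℕ) (s₁ s₂ e : ℤ), (s₁ = 1 ∨ s₁ = -1) ∧ (s₂ = 1 ∨ s₂ = -1) ∧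
      (e = 1 ∨ e = -1) ∧ D₁ ∣ Nat.card G ∧ D₂ ∣ Nat.card G ∧ d₀ ∣ Nat.card G ∧ D₁ ≠ 1 ∧
      D₂ ≠ 1 ∧ (p : ℤ) ∣ (D₁ : ℤ) - s₁ ∧ (p : ℤ) ∣ (D₂ : ℤ) - s₂ ∧
      (p : ℤ) ∣ (d₀ : ℤ) - e * 3 ∧ e * (d₀ : ℤ) = 1 + s₁ * (D₁ : ℤ) + s₂ * (D₂ : ℤ) := by
  classical
  obtain ⟨NE, cv, dg, d₀, e, he, hNE, hd₀, hcong0, hsq, heq⟩ :=
    bl_group p 3 x hx hC hl (by omega) hG
  have hsq' : ∑ ψ ∈ NE, cv ψ ^ 2 = 2 := by rw [hsq]; norm_num
  obtain ⟨ψ₁, hψ₁, ψ₂, hψ₂, hne, hs₁, hs₂, hothers⟩ := sq_sum_two NE cv hsq'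
  have hsum : ∑ ψ ∈ NE, cv ψ * (dg ψ : ℤ) =
      cv ψ₁ * (dg ψ₁ : ℤ) + cv ψ₂ * (dg ψ₂ : ℤ) := by
    apply Finset.sum_eq_add_of_mem ψ₁ ψ₂ hψ₁ hψ₂ hne
    intro j hj hj1
    rw [hothers j hj hj1.1 hj1.2, zero_mul]
  rw [hsum] at heq
  obtain ⟨h1, h2, h3⟩ := hNE ψ₁ hψ₁
  obtain ⟨h1', h2', h3'⟩ := hNE ψ₂ hψ₂
  exact ⟨dg ψ₁, dg ψ₂, d₀, cv ψ₁, cv ψ₂, e, hs₁, hs₂, he, h1, h1', hd₀, h2, h2', h3, h3',
    by exact_mod_cast hcong0, by rw [heq]; ring⟩

end grp

end Cfsg.Agent.Helper21.BrauerLite
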