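import Mathlib

set_option autoImplicit false
set_option linter.style.haveILetI false

namespace Cfsg.Agent.Helper21.FieldReg

/-- a commuting family `S` of injective endomorphisms of a finite elementary abelian 2-group `V`,
regular on the nonzero vectors from a base point `m`, coordinatises `V` by a finite field of
characteristic two (living in `Type`) in which `S` is the set of multiplications by nonzero
scalars -/
theorem field_of_regular {V : Type*} [AddCommGroup V] [Finite V] (S : Set (AddMonoid.End V))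
    (hScomm : ∀ f ∈ S, ∀ g ∈ S, f * g = g * f) (hSinj : ∀ f ∈ S, ∀ v : V, f v = 0 → v = 0)
    (m : V) (hreg : ∀ v : V, v ≠ 0 → ∃ f ∈ S, f m = v) (hV : ∃ v : V, v ≠ 0)
    (h2 : ∀ v : V, v + v = 0) :
    ∃ (n : ℕ) (F : Type) (_ : Field F) (_ : Fintype F) (ev : F → V), n ≠ 0 ∧
      Fintype.card F = 2 ^ n ∧ (1 : F) + 1 = 0 ∧ (∀ x : F, ∃ r : F, r * r = x) ∧
      Function.Bijective ev ∧ (∀ x y : F, ev (x + y) = ev x + ev y) ∧ ev 1 = m ∧
      (∀ s : F, s ≠ 0 → ∃ f ∈ S, ∀ x : F, ev (s * x) = f (ev x)) ∧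
      (∀ f ∈ S, ∃ s : F, s ≠ 0 ∧ ∀ x : F, ev (s * x) = f (ev x)) := by
  classical
  obtain ⟨C, hCdef⟩ : ∃ C : Subring (AddMonoid.End V), C = Subring.centralizer S := ⟨_, rfl⟩
  have hCmem : ∀ φ : AddMonoid.End V, φ ∈ C ↔ ∀ f ∈ S, f * φ = φ * f := fun φ => by
    rw [hCdef]; exact Subring.mem_centralizer_iff
  have hSC : ∀ f ∈ S, f ∈ C := fun f hf => (hCmem f).2 (fun g hg => hScomm g hg f hf)
  have hev : ∀ φ ∈ C, ∀ ψ ∈ C, φ m = ψ m → φ = ψ := by
    intro φ hφ ψ hψ hm'
    refine DFunLike.ext _ _ (fun v => ?_)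
    by_cases hv : v = 0
    · rw [hv, map_zero, map_zero]
    · obtain ⟨f, hf, rfl⟩ := hreg v hv
      have e1 : φ (f m) = f (φ m) := by
        have := congrArg (fun g : AddMonoid.End V => g m) ((hCmem φ).1 hφ f hf)
        exact this.symm
      have e2 : ψ (f m) = f (ψ m) := by
        have := congrArg (fun g : AddMonoid.End V => g m) ((hCmem ψ).1 hψ f hf)
        exact this.symm
      rw [e1, e2, hm']
  have hC0S : ∀ φ ∈ C, φ = 0 ∨ φ ∈ S := by
    intro φ hφ
    by_cases hv : φ m = 0
    · left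
      exact hev φ hφ 0 C.zero_mem hv
    · right
      obtain ⟨f, hf, hfm⟩ := hreg _ hv
      have : φ = f := hev φ hφ f (hSC f hf) hfm.symm
      rw [this]; exact hf
  have hm0 : m ≠ 0 := by
    intro hm
    obtain ⟨v, hv⟩ := hV
    obtain ⟨f, hf, hfm⟩ := hreg v hv
    rw [hm, map_zero] at hfm
    exact hv hfm.symm
  haveI : Nontrivial C := ⟨⟨0, 1, by
    intro h01
    have : ((0 : C) : AddMonoid.End V) m = ((1 : C) : AddMonoid.End V) m := by rw [h01]
    exact hm0 this.symm⟩⟩
  haveI : NoZeroDivisors C := ⟨by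
    intro φ ψ hφψ
    by_contra hcon
    rw [not_or] at hcon
    obtain ⟨h1, h2'⟩ := hcon
    rcases hC0S φ φ.2 with h0 | hS
    · exact h1 (Subtype.ext h0)
    · apply h2'
      apply Subtype.ext
      refine DFunLike.ext _ _ (fun v => ?_)
      have e : (φ : AddMonoid.End V) ((ψ : AddMonoid.End V) v) = 0 := by
        have := congrArg (fun g : C => (g : AddMonoid.End V) v) hφψ
        exact this
      exact hSinj _ hS _ e⟩
  haveI : IsDomain C := NoZeroDivisors.to_isDomain C
  haveI : Finite (AddMonoid.End V) :=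
    Finite.of_injective (fun f : AddMonoid.End V => (f : V → V)) DFunLike.coe_injective
  haveI : Fintype C := Fintype.ofFinite C
  letI : DivisionRing C := Fintype.divisionRingOfIsDomain C
  letI : Field C := littleWedderburn C
  have h11 : (1 : C) + 1 = 0 := by
    apply Subtype.ext
    refine DFunLike.ext _ _ (fun v => ?_)
    exact h2 v
  have htwo : (2 : C) = 0 := by rw [← one_add_one_eq_two]; exact h11
  haveI hchar : CharP C 2 := CharTwo.of_one_ne_zero_of_two_eq_zero one_ne_zero htwo
  obtain ⟨n, -, hn⟩ := FiniteField.card C 2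
  have hn0 : (n : ℕ) ≠ 0 := n.pos.ne'
  haveI : Fact (Nat.Prime 2) := ⟨Nat.prime_two⟩
  haveI : Fintype (GaloisField 2 n) := Fintype.ofFinite _
  have hGF0 : Fintype.card (GaloisField 2 n) = 2 ^ (n : ℕ) := by
    rw [← Nat.card_eq_fintype_card]; exact GaloisField.card 2 n hn0
  have hGF : Fintype.card (GaloisField 2 n) = Fintype.card C := by rw [hGF0, hn]
  obtain ⟨e⟩ : Nonempty (GaloisField 2 n ≃+* C) := ⟨FiniteField.ringEquivOfCardEq hGF⟩
  have hevC : ∀ x : GaloisField 2 n, ((e x : C) : AddMonoid.End V) ∈ C := fun x => (e x).2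
  refine ⟨n, GaloisField 2 n, inferInstance, inferInstance,
    fun x => ((e x : C) : AddMonoid.End V) m, hn0, hGF0, ?_, ?_, ?_, ?_, ?_, ?_, ?_⟩
  · exact CharTwo.add_self_eq_zero (1 : GaloisField 2 n)
  · intro x
    obtain ⟨r, hr⟩ := FiniteField.isSquare_of_char_two (ringChar.eq (GaloisField 2 n) 2) x
    exact ⟨r, hr.symm⟩
  · constructor
    · intro x y hxy
      have h1 : ((e x : C) : AddMonoid.End V) = (e y : C) := hev _ (hevC x) _ (hevC y) hxy
      exact e.injective (Subtype.ext h1)
    · intro v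
      by_cases hv : v = 0
      · refine ⟨0, ?_⟩
        show ((e 0 : C) : AddMonoid.End V) m = v
        rw [map_zero, hv]; rfl
      · obtain ⟨f, hf, hfm⟩ := hreg v hv
        refine ⟨e.symm ⟨f, hSC f hf⟩, ?_⟩
        show ((e (e.symm ⟨f, hSC f hf⟩) : C) : AddMonoid.End V) m = v
        rw [RingEquiv.apply_symm_apply]; exact hfm
  · intro x y
    show ((e (x + y) : C) : AddMonoid.End V) m = ((e x : C) : AddMonoid.End V) m +
      ((e y : C) : AddMonoid.End V) m
    rw [map_add]; rfl
  · show ((e 1 : C) : AddMonoid.End V) m = m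
    rw [map_one]; rfl
  · intro s hs
    have hes : e s ≠ 0 := fun h => hs (e.injective (h.trans (map_zero e).symm))
    rcases hC0S _ (hevC s) with h0 | hS
    · exact absurd (Subtype.ext h0) hes
    · refine ⟨_, hS, fun x => ?_⟩
      show ((e (s * x) : C) : AddMonoid.End V) m = ((e s : C) : AddMonoid.End V)
        (((e x : C) : AddMonoid.End V) m)
      rw [map_mul]; rfl
  · intro f hf
    refine ⟨e.symm ⟨f, hSC f hf⟩, ?_, fun x => ?_⟩
    · intro h
      have h' : (⟨f, hSC f hf⟩ : C) = 0 := by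
        have := congrArg e h
        rw [RingEquiv.apply_symm_apply, map_zero] at this
        exact this
      have h'' : f = 0 := congrArg Subtype.val h'
      have : f m = 0 := by rw [h'']; rfl
      exact hm0 (hSinj f hf m this)
    · show ((e (e.symm ⟨f, hSC f hf⟩ * x) : C) : AddMonoid.End V) m =
        f (((e x : C) : AddMonoid.End V) m)
      rw [map_mul, RingEquiv.apply_symm_apply]; rfl

end Cfsg.Agent.Helper21.FieldReg
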