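import Mathlib

set_option autoImplicit false

namespace Cfsg.Agent.Helper21.Moeb

open Matrix OnePoint

variable {F : Type*} [Field F] [DecidableEq F]

/-- the Moebius action of `SL₂(F)` on the projective line -/
noncomputable def act (M : SpecialLinearGroup (Fin 2) F) (P : OnePoint F) : OnePoint F :=
  (SpecialLinearGroup.toGL M) • P

theorem act_mul (M N : SpecialLinearGroup (Fin 2) F) (P : OnePoint F) :
    act (M * N) P = act M (act N P) := by
  unfold act
  rw [map_mul, mul_smul]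

theorem act_one (P : OnePoint F) : act (1 : SpecialLinearGroup (Fin 2) F) P = P := by
  unfold act
  rw [map_one, one_smul]

theorem act_infty (M : SpecialLinearGroup (Fin 2) F) :
    act M ∞ = if M 1 0 = 0 then ∞ else ((M 0 0 / M 1 0 : F) : OnePoint F) := by
  unfold act
  rw [OnePoint.smul_infty_eq_ite]
  rfl

theorem act_coe (M : SpecialLinearGroup (Fin 2) F) (k : F) :
    act M (k : OnePoint F) = if M 1 0 * k + M 1 1 = 0 then ∞
      else (((M 0 0 * k + M 0 1) / (M 1 0 * k + M 1 1) : F) : OnePoint F) := by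
  unfold act
  rw [OnePoint.smul_some_eq_ite]
  rfl

/-- translation -/
def mU (t : F) : SpecialLinearGroup (Fin 2) F :=
  ⟨!![1, t; 0, 1], by simp [Matrix.det_fin_two]⟩

/-- dilation by `s * s` -/
def mD (s : F) (hs : s ≠ 0) : SpecialLinearGroup (Fin 2) F :=
  ⟨!![s, 0; 0, s⁻¹], by simp [Matrix.det_fin_two, hs]⟩

/-- inversion -/
def mW : SpecialLinearGroup (Fin 2) F :=
  ⟨!![0, -1; 1, 0], by simp [Matrix.det_fin_two]⟩

theorem act_U_infty (t : F) : act (mU t) ∞ = ∞ := by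
  rw [act_infty]
  simp [mU]

theorem act_U_coe (t x : F) : act (mU t) (x : OnePoint F) = ((x + t : F) : OnePoint F) := by
  rw [act_coe]
  simp [mU]

theorem act_D_infty (s : F) (hs : s ≠ 0) : act (mD s hs) ∞ = ∞ := by
  rw [act_infty]
  simp [mD]

theorem act_D_coe (s : F) (hs : s ≠ 0) (x : F) :
    act (mD s hs) (x : OnePoint F) = ((s * s * x : F) : OnePoint F) := by
  rw [act_coe]
  simp [mD, hs]
  field_simp

theorem act_W_infty : act (mW : SpecialLinearGroup (Fin 2) F) ∞ = ((0 : F) : OnePoint F) := by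
  rw [act_infty]
  simp [mW]

theorem act_W_coe (x : F) : act (mW : SpecialLinearGroup (Fin 2) F) (x : OnePoint F) =
    if x = 0 then ∞ else ((-x⁻¹ : F) : OnePoint F) := by
  rw [act_coe]
  simp [mW, neg_div]

theorem det_eq (M : SpecialLinearGroup (Fin 2) F) : M 0 0 * M 1 1 - M 0 1 * M 1 0 = 1 := by
  have h := M.det_coe
  rw [Matrix.det_fin_two] at h
  exact h

theorem act_faithful (h2 : (1 : F) + 1 = 0) (M : SpecialLinearGroup (Fin 2) F)
    (hM : ∀ P, act M P = P) : M = 1 := by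
  have hdet := det_eq M
  have c : M 1 0 = 0 := by
    by_contra c
    have h := hM ∞
    rw [act_infty, if_neg c] at h
    exact OnePoint.coe_ne_infty _ h
  rw [c, mul_zero, sub_zero] at hdet
  have hd : M 1 1 ≠ 0 := by
    intro hd
    rw [hd, mul_zero] at hdet
    exact zero_ne_one hdet
  have hb : M 0 1 = 0 := by
    have h := hM ((0 : F) : OnePoint F)
    rw [act_coe, c, mul_zero, zero_add, if_neg hd, mul_zero, zero_add] at h
    have h' : M 0 1 / M 1 1 = 0 := OnePoint.coe_injective h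
    rcases div_eq_zero_iff.mp h' with h'' | h''
    · exact h''
    · exact absurd h'' hd
  have had : M 0 0 = M 1 1 := by
    have h := hM ((1 : F) : OnePoint F)
    rw [act_coe, c, zero_mul, zero_add, if_neg hd, mul_one, hb, add_zero] at h
    have h' : M 0 0 / M 1 1 = 1 := OnePoint.coe_injective h
    exact (div_eq_one_iff_eq hd).mp h'
  have ha : M 0 0 = 1 := by
    rw [← had] at hdet
    have e : (M 0 0 + 1) * (M 0 0 + 1) = 0 := by
      have e1 : (M 0 0 + 1) * (M 0 0 + 1) = M 0 0 * M 0 0 + M 0 0 * (1 + 1) + 1 := by ring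
      rw [e1, hdet, h2, mul_zero, add_zero, h2]
    have e2 : M 0 0 + 1 = 0 := by
      rcases mul_eq_zero.mp e with h | h <;> exact h
    have e3 : M 0 0 = -1 := eq_neg_of_add_eq_zero_left e2
    rw [e3]
    exact neg_eq_of_add_eq_zero_right h2
  apply Subtype.ext
  ext i j
  fin_cases i <;> fin_cases j
  · simpa using ha
  · simpa using hb
  · simpa using c
  · simpa using (had.symm.trans ha)

theorem decomp_eq (M : SpecialLinearGroup (Fin 2) F) (c : M 1 0 = 0) (ha : M 0 0 ≠ 0) :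
    M = mU (M 0 0 * M 0 1) * mD (M 0 0) ha := by
  have hdet := det_eq M
  rw [c, mul_zero, sub_zero] at hdet
  have hd : M 1 1 = (M 0 0)⁻¹ := eq_inv_of_mul_eq_one_right hdet
  apply Subtype.ext
  show (M : Matrix (Fin 2) (Fin 2) F) =
    (!![1, M 0 0 * M 0 1; 0, 1] : Matrix (Fin 2) (Fin 2) F) * !![M 0 0, 0; 0, (M 0 0)⁻¹]
  ext i j
  fin_cases i <;> fin_cases j
  · simp [Matrix.mul_apply, Fin.sum_univ_two]
  · simp [Matrix.mul_apply, Fin.sum_univ_two]
    field_simp
  · simp [Matrix.mul_apply, Fin.sum_univ_two, c]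
  · simp [Matrix.mul_apply, Fin.sum_univ_two, hd]

theorem decomp_ne (M : SpecialLinearGroup (Fin 2) F) (c : M 1 0 ≠ 0) :
    M = mU (M 0 0 / M 1 0) * mD (M 1 0)⁻¹ (inv_ne_zero c) * mW * mU (M 1 1 / M 1 0) := by
  have hdet := det_eq M
  apply Subtype.ext
  show (M : Matrix (Fin 2) (Fin 2) F) =
    (!![1, M 0 0 / M 1 0; 0, 1] : Matrix (Fin 2) (Fin 2) F) * !![(M 1 0)⁻¹, 0; 0, ((M 1 0)⁻¹)⁻¹] *
      !![0, -1; 1, 0] * !![1, M 1 1 / M 1 0; 0, 1]
  ext i j
  fin_cases i <;> fin_cases j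
  · simp [Matrix.mul_apply, Fin.sum_univ_two]
    field_simp
  · simp [Matrix.mul_apply, Fin.sum_univ_two]
    field_simp
    linear_combination (-1 : F) * hdet
  · simp [Matrix.mul_apply, Fin.sum_univ_two]
  · simp [Matrix.mul_apply, Fin.sum_univ_two]
    field_simp

/-- abstract recognition of `SL₂(F)` in characteristic two from a coordinatisation of the
permutation action -/
theorem recog {G Ω : Type*} [Group G] [MulAction G Ω]
    (h2 : (1 : F) + 1 = 0) (hsq : ∀ x : F, ∃ r : F, r * r = x)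
    (ι : OnePoint F → Ω) (hι : Function.Bijective ι)
    (hfaith : ∀ g : G, (∀ x : Ω, g • x = x) → g = 1)
    (hA2 : ∀ t : F, ∃ g : G, g • ι ∞ = ι ∞ ∧
      ∀ x : F, g • ι (x : OnePoint F) = ι ((x + t : F) : OnePoint F))
    (hA3 : ∀ s : F, s ≠ 0 → ∃ g : G, g • ι ∞ = ι ∞ ∧
      ∀ x : F, g • ι (x : OnePoint F) = ι ((s * x : F) : OnePoint F))
    (hA4 : ∃ g : G, g • ι ∞ = ι ((0 : F) : OnePoint F) ∧ g • ι ((0 : F) : OnePoint F) = ι ∞ ∧
      ∀ x : F, x ≠ 0 → g • ι (x : OnePoint F) = ι ((x⁻¹ : F) : OnePoint F))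
    (hA5 : ∀ g : G, g • ι ∞ = ι ∞ → ∃ s t : F, s ≠ 0 ∧
      ∀ x : F, g • ι (x : OnePoint F) = ι ((s * x + t : F) : OnePoint F)) :
    Nonempty (G ≃* SpecialLinearGroup (Fin 2) F) := by
  have hneg : (-1 : F) = 1 := neg_eq_of_add_eq_zero_right h2
  have R_mul : ∀ (M N : SpecialLinearGroup (Fin 2) F) (g k : G),
      (∀ P, g • ι P = ι (act M P)) → (∀ P, k • ι P = ι (act N P)) →
      ∀ P, (g * k) • ι P = ι (act (M * N) P) := by
    intro M N g k hg hk P
    rw [mul_smul, hk, hg, act_mul]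
  have R_U : ∀ t : F, ∃ g : G, ∀ P, g • ι P = ι (act (mU t) P) := by
    intro t
    obtain ⟨g, hg1, hg2⟩ := hA2 t
    refine ⟨g, fun P => ?_⟩
    induction P using OnePoint.rec with
    | infty => rw [act_U_infty]; exact hg1
    | coe x => rw [act_U_coe]; exact hg2 x
  have R_D : ∀ (s : F) (hs : s ≠ 0), ∃ g : G, ∀ P, g • ι P = ι (act (mD s hs) P) := by
    intro s hs
    obtain ⟨g, hg1, hg2⟩ := hA3 (s * s) (mul_ne_zero hs hs)
    refine ⟨g, fun P => ?_⟩
    induction P using OnePoint.rec with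
    | infty => rw [act_D_infty]; exact hg1
    | coe x => rw [act_D_coe]; exact hg2 x
  have R_W : ∃ g : G, ∀ P, g • ι P = ι (act (mW : SpecialLinearGroup (Fin 2) F) P) := by
    obtain ⟨g, hg1, hg2, hg3⟩ := hA4
    refine ⟨g, fun P => ?_⟩
    induction P using OnePoint.rec with
    | infty => rw [act_W_infty]; exact hg1
    | coe x =>
      rw [act_W_coe]
      by_cases hx : x = 0
      · rw [if_pos hx, hx]; exact hg2
      · have e : (-x⁻¹ : F) = x⁻¹ := by rw [← neg_one_mul, hneg, one_mul]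
        rw [if_neg hx, hg3 x hx, e]
  have Ra : ∀ M : SpecialLinearGroup (Fin 2) F, ∃ g : G, ∀ P, g • ι P = ι (act M P) := by
    intro M
    by_cases c : M 1 0 = 0
    · have ha : M 0 0 ≠ 0 := by
        intro ha
        have hdet := det_eq M
        rw [c, ha, mul_zero, zero_mul, sub_zero] at hdet
        exact zero_ne_one hdet
      obtain ⟨g1, h1⟩ := R_U (M 0 0 * M 0 1)
      obtain ⟨g2, h2'⟩ := R_D (M 0 0) ha
      refine ⟨g1 * g2, fun P => ?_⟩
      have key := R_mul _ _ g1 g2 h1 h2' P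
      rw [← decomp_eq M c ha] at key
      exact key
    · obtain ⟨g1, h1⟩ := R_U (M 0 0 / M 1 0)
      obtain ⟨g2, h2'⟩ := R_D (M 1 0)⁻¹ (inv_ne_zero c)
      obtain ⟨g3, h3⟩ := R_W
      obtain ⟨g4, h4⟩ := R_U (M 1 1 / M 1 0)
      refine ⟨g1 * g2 * g3 * g4, fun P => ?_⟩
      have key := R_mul _ _ _ g4 (R_mul _ _ _ g3 (R_mul _ _ g1 g2 h1 h2') h3) h4 P
      rw [← decomp_ne M c] at key
      exact key
  have Rb0 : ∀ g : G, g • ι ∞ = ι ∞ →
      ∃ M : SpecialLinearGroup (Fin 2) F, ∀ P, g • ι P = ι (act M P) := by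
    intro g hg
    obtain ⟨s, t, hs, hst⟩ := hA5 g hg
    obtain ⟨r, hr⟩ := hsq s
    have hr0 : r ≠ 0 := by
      rintro rfl
      rw [mul_zero] at hr
      exact hs hr.symm
    refine ⟨mU t * mD r hr0, fun P => ?_⟩
    rw [act_mul]
    induction P using OnePoint.rec with
    | infty => rw [act_D_infty, act_U_infty]; exact hg
    | coe x => rw [act_D_coe, act_U_coe, hst x, hr]
  have Rb : ∀ g : G, ∃ M : SpecialLinearGroup (Fin 2) F, ∀ P, g • ι P = ι (act M P) := by
    intro g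
    by_cases hg : g • ι ∞ = ι ∞
    · exact Rb0 g hg
    · obtain ⟨Q, hQ⟩ := hι.2 (g • ι ∞)
      induction Q using OnePoint.rec with
      | infty => exact absurd hQ.symm hg
      | coe y =>
        obtain ⟨g1, h1⟩ := R_U y
        obtain ⟨g2, h2'⟩ := R_W
        have h12 : (g1 * g2) • ι ∞ = ι (y : OnePoint F) := by
          rw [mul_smul, h2', act_W_infty, h1, act_U_coe, zero_add]
        have hfix : ((g1 * g2)⁻¹ * g) • ι ∞ = ι ∞ := by
          rw [mul_smul, ← hQ, ← h12, inv_smul_smul]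
        obtain ⟨M', hM'⟩ := Rb0 _ hfix
        refine ⟨mU y * mW * M', fun P => ?_⟩
        have key := R_mul _ _ _ _ (R_mul _ _ _ _ h1 h2') hM' P
        rw [mul_inv_cancel_left] at key
        exact key
  have Rc : ∀ (M : SpecialLinearGroup (Fin 2) F) (g k : G),
      (∀ P, g • ι P = ι (act M P)) → (∀ P, k • ι P = ι (act M P)) → g = k := by
    intro M g k hg hk
    have e : g⁻¹ * k = 1 := by
      apply hfaith
      intro x
      obtain ⟨P, rfl⟩ := hι.2 x
      rw [mul_smul, hk, ← hg, inv_smul_smul]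
    exact inv_mul_eq_one.mp e
  have Rd : ∀ (M N : SpecialLinearGroup (Fin 2) F) (g : G),
      (∀ P, g • ι P = ι (act M P)) → (∀ P, g • ι P = ι (act N P)) → M = N := by
    intro M N g hM hN
    have hMN : ∀ P, act M P = act N P := fun P => hι.1 ((hM P).symm.trans (hN P))
    have e : M⁻¹ * N = 1 := by
      apply act_faithful h2
      intro P
      rw [act_mul, ← hMN, ← act_mul, inv_mul_cancel, act_one]
    exact inv_mul_eq_one.mp e
  choose Ψ hΨ using Rb
  have hmul : ∀ g k : G, Ψ (g * k) = Ψ g * Ψ k := fun g k =>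
    Rd _ _ (g * k) (hΨ (g * k)) (R_mul _ _ g k (hΨ g) (hΨ k))
  refine ⟨MulEquiv.ofBijective (MonoidHom.mk' Ψ hmul) ⟨?_, ?_⟩⟩
  · intro g k hgk
    have hgk' : Ψ g = Ψ k := hgk
    exact Rc (Ψ g) g k (hΨ g) (by rw [hgk']; exact hΨ k)
  · intro M
    obtain ⟨g, hg⟩ := Ra M
    exact ⟨g, Rd _ _ g (hΨ g) hg⟩

end Cfsg.Agent.Helper21.Moeb
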