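import Mathlib
import Cfsg.Agent.Helper10.R3d

set_option autoImplicit false

namespace Cfsg.Agent.Helper21.O504D2

theorem card_syl2 {G : Type*} [Group G] [Finite G] (h : Nat.card G = 504) (T : Sylow 2 G) :
    Nat.card ↥(T : Subgroup G) = 8 := by
  obtain ⟨k, hk⟩ := IsPGroup.iff_card.mp T.isPGroup'
  have hmul : Nat.card ↥(T : Subgroup G) * (T : Subgroup G).index = 504 := by
    rw [Subgroup.card_mul_index, h]
  have hnd : ¬ 2 ∣ (T : Subgroup G).index := T.not_dvd_index
  rw [hk] at hmul ⊢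
  have hk4 : k < 4 := by
    by_contra hge
    have h16 : 2 ^ 4 ∣ 2 ^ k := Nat.pow_dvd_pow 2 (by omega)
    have h504 : 2 ^ 4 ∣ 504 := by
      rw [← hmul]; exact Dvd.dvd.mul_right h16 _
    norm_num at h504
  interval_cases k
  · exfalso; apply hnd; norm_num at hmul; omega
  · exfalso; apply hnd; norm_num at hmul; omega
  · exfalso; apply hnd; norm_num at hmul; omega
  · norm_num

variable {G : Type*} [Group G] [Finite G] [IsSimpleGroup G]

theorem count504 (h : Nat.card G = 504) (t : G) (ht : orderOf t = 2) (T₀ : Sylow 2 G) (hT₀ : Subgroup.centralizer ({t} : Set G) = (T₀ : Subgroup G)) (hconj : ∀ u : G, orderOf u = 2 → ∃ g : G, g * t * g⁻¹ = u) (hsq : ∀ g ∈ (T₀ : Subgroup G), g ^ 2 = 1 ∨ g ^ 2 = t) (v : G) (hv : v ^ 2 = t) : False := by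
  classical
  haveI : Fintype G := Fintype.ofFinite G
  have h8 : Nat.card ↥(T₀ : Subgroup G) = 8 := card_syl2 h T₀
  have ht1 : t ≠ 1 := by
    rintro rfl
    rw [orderOf_one] at ht
    exact absurd ht (by norm_num)
  have ht2 : t ^ 2 = 1 := by rw [← ht]; exact pow_orderOf_eq_one t
  have hmem : ∀ a : G, a ∈ (T₀ : Subgroup G) ↔ t * a = a * t := by
    intro a
    rw [← hT₀, Subgroup.mem_centralizer_iff]
    simp only [Set.mem_singleton_iff, forall_eq]
  have hinv : ∀ u : G, orderOf u = 2 ↔ (u ≠ 1 ∧ u ^ 2 = 1) := by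
    intro u
    constructor
    · intro hu
      refine ⟨?_, ?_⟩
      · rintro rfl
        rw [orderOf_one] at hu
        exact absurd hu (by norm_num)
      · rw [← hu]; exact pow_orderOf_eq_one u
    · rintro ⟨h1, h2⟩
      exact orderOf_eq_prime h2 h1
  have hF2 : ∀ g a : G, (g * t * g⁻¹) * a = a * (g * t * g⁻¹) →
      a ^ 2 = 1 ∨ a ^ 2 = g * t * g⁻¹ := by
    intro g a hc
    have hb : g⁻¹ * a * g ∈ (T₀ : Subgroup G) := by
      rw [hmem]
      have e1 : t * (g⁻¹ * a * g) = g⁻¹ * (g * t * g⁻¹ * a) * g := by group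
      rw [e1, hc]
      group
    have e2 : a ^ 2 = g * (g⁻¹ * a * g) ^ 2 * g⁻¹ := by
      rw [pow_two, pow_two]; group
    rcases hsq _ hb with h1 | h1
    · left; rw [e2, h1]; group
    · right; rw [e2, h1]
  choose gu hgu using hconj
  have hγ : ∀ u : {u : G // orderOf u = 2}, gu u.1 u.2 * t * (gu u.1 u.2)⁻¹ = (u : G) :=
    fun u => hgu u.1 u.2
  obtain ⟨γ, hγ'⟩ : ∃ γ : {u : G // orderOf u = 2} → G, ∀ u, γ u * t * (γ u)⁻¹ = (u : G) :=
    ⟨fun u => gu u.1 u.2, hγ⟩
  -- conjugates of t are involutions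
  have hconjinv : ∀ g : G, orderOf (g * t * g⁻¹) = 2 := by
    intro g
    rw [hinv]
    refine ⟨?_, ?_⟩
    · intro h1
      apply ht1
      have e : t = g⁻¹ * (g * t * g⁻¹) * g := by group
      rw [e, h1]; group
    · rw [conj_pow, ht2]; group
  -- (C1)
  have hC1 : Nat.card {u : G // orderOf u = 2} * 8 = 504 := by
    have hcu : ∀ (w : {u : G // orderOf u = 2}) (d : ↥(T₀ : Subgroup G)),
        (γ w * (d : G)) * t * (γ w * (d : G))⁻¹ = (w : G) := by
      intro w d
      have hd : t * (d : G) = (d : G) * t := (hmem _).mp d.2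
      have e : (γ w * (d : G)) * t * (γ w * (d : G))⁻¹
          = γ w * ((d : G) * t * (d : G)⁻¹) * (γ w)⁻¹ := by group
      rw [e, ← hd]
      have e' : γ w * (t * (d : G) * (d : G)⁻¹) * (γ w)⁻¹ = γ w * t * (γ w)⁻¹ := by group
      rw [e', hγ']
    have hbij : Function.Bijective
        (fun p : {u : G // orderOf u = 2} × ↥(T₀ : Subgroup G) => γ p.1 * (p.2 : G)) := by
      constructor
      · rintro ⟨u, c⟩ ⟨u', c'⟩ hp
        dsimp only at hp
        have huu : (u : G) = (u' : G) := by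
          calc (u : G) = (γ u * (c : G)) * t * (γ u * (c : G))⁻¹ := (hcu u c).symm
            _ = (γ u' * (c' : G)) * t * (γ u' * (c' : G))⁻¹ := by rw [hp]
            _ = (u' : G) := hcu u' c'
        obtain rfl : u = u' := Subtype.ext huu
        have hcc : (c : G) = (c' : G) := mul_left_cancel hp
        exact Prod.ext rfl (Subtype.ext hcc)
      · intro g
        let u : {u : G // orderOf u = 2} := ⟨g * t * g⁻¹, hconjinv g⟩
        have hc : (γ u)⁻¹ * g ∈ (T₀ : Subgroup G) := by
          rw [hmem]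
          have h1 : γ u * t * (γ u)⁻¹ = g * t * g⁻¹ := hγ' u
          have e : t * ((γ u)⁻¹ * g) = (γ u)⁻¹ * (γ u * t * (γ u)⁻¹) * g := by group
          rw [e, h1]; group
        refine ⟨(u, ⟨(γ u)⁻¹ * g, hc⟩), ?_⟩
        show γ u * ((γ u)⁻¹ * g) = g
        group
    have hcong := Nat.card_congr (Equiv.ofBijective _ hbij)
    rw [Nat.card_prod, h8, h] at hcong
    exact hcong
  -- (C2)
  have hsqu : ∀ (u : {u : G // orderOf u = 2}) (b : {b : G // b ^ 2 = t}),
      (γ u * (b : G) * (γ u)⁻¹) ^ 2 = (u : G) := by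
    intro u b
    rw [conj_pow, b.2, hγ']
  have hC2 : Nat.card {a : G // orderOf (a ^ 2) = 2}
      = Nat.card {u : G // orderOf u = 2} * Nat.card {b : G // b ^ 2 = t} := by
    have hbij : Function.Bijective
        (fun p : {u : G // orderOf u = 2} × {b : G // b ^ 2 = t} =>
          (⟨γ p.1 * (p.2 : G) * (γ p.1)⁻¹, by rw [hsqu p.1 p.2]; exact p.1.2⟩ :
            {a : G // orderOf (a ^ 2) = 2})) := by
      constructor
      · rintro ⟨u, b⟩ ⟨u', b'⟩ hp
        have hp' : γ u * (b : G) * (γ u)⁻¹ = γ u' * (b' : G) * (γ u')⁻¹ :=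
          congrArg Subtype.val hp
        have huu : (u : G) = (u' : G) := by
          calc (u : G) = (γ u * (b : G) * (γ u)⁻¹) ^ 2 := (hsqu u b).symm
            _ = (γ u' * (b' : G) * (γ u')⁻¹) ^ 2 := by rw [hp']
            _ = (u' : G) := hsqu u' b'
        obtain rfl : u = u' := Subtype.ext huu
        have hbb : (b : G) = (b' : G) := mul_left_cancel (mul_right_cancel hp')
        exact Prod.ext rfl (Subtype.ext hbb)
      · rintro ⟨a, ha⟩
        let u : {u : G // orderOf u = 2} := ⟨a ^ 2, ha⟩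
        have hb : ((γ u)⁻¹ * a * γ u) ^ 2 = t := by
          have h1 : γ u * t * (γ u)⁻¹ = a ^ 2 := hγ' u
          have e : ((γ u)⁻¹ * a * γ u) ^ 2 = (γ u)⁻¹ * a ^ 2 * γ u := by
            rw [pow_two, pow_two]; group
          rw [e, ← h1]; group
        refine ⟨(u, ⟨(γ u)⁻¹ * a * γ u, hb⟩), ?_⟩
        apply Subtype.ext
        show γ u * ((γ u)⁻¹ * a * γ u) * (γ u)⁻¹ = a
        group
    rw [← Nat.card_prod]
    exact (Nat.card_congr (Equiv.ofBijective _ hbij)).symm
  -- the free action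
  have hdvd : Nat.card ↥(T₀ : Subgroup G) ∣
      Nat.card ↥({a : G | a ≠ 1 ∧ orderOf a ≠ 2 ∧ orderOf (a ^ 2) ≠ 2} : Set G) := by
    apply Cfsg.Agent.Helper10.R3.free_dvd (T₀ : Subgroup G)
      ({a : G | a ≠ 1 ∧ orderOf a ≠ 2 ∧ orderOf (a ^ 2) ≠ 2} : Set G)
    · intro a _ y hy
      obtain ⟨hy1, hy2, hy3⟩ := hy
      have hord : ∀ z : G, orderOf (a * z * a⁻¹) = orderOf z := fun z =>
        orderOf_injective (MulAut.conj a).toMonoidHom (MulAut.conj a).injective z
      show a * y * a⁻¹ ≠ 1 ∧ orderOf (a * y * a⁻¹) ≠ 2 ∧ orderOf ((a * y * a⁻¹) ^ 2) ≠ 2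
      refine ⟨?_, ?_, ?_⟩
      · intro h1
        apply hy1
        have e : y = a⁻¹ * (a * y * a⁻¹) * a := by group
        rw [e, h1]; group
      · rw [hord]; exact hy2
      · rw [conj_pow, hord]; exact hy3
    · intro s hs y hy hfix
      by_contra hs1
      obtain ⟨hy1, hy2, hy3⟩ := hy
      have hcomm : s * y = y * s := by
        have e : s * y = (s * y * s⁻¹) * s := by group
        rw [e, hfix]
      have key : ∃ u : G, orderOf u = 2 ∧ u * y = y * u := by
        rcases hsq s hs with h2 | h2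
        · exact ⟨s, (hinv s).mpr ⟨hs1, h2⟩, hcomm⟩
        · refine ⟨t, ht, ?_⟩
          have hcm : Commute (s ^ 2) y := (show Commute s y from hcomm).pow_left 2
          rw [h2] at hcm
          exact hcm.eq
      obtain ⟨u, hu, huy⟩ := key
      have hg := hgu u hu
      rcases hF2 (gu u hu) y (by rw [hg]; exact huy) with h1 | h1
      · by_cases hy1' : y = 1
        · exact hy1 hy1'
        · exact hy2 ((hinv y).mpr ⟨hy1', h1⟩)
      · apply hy3
        rw [h1, hg]; exact hu
  rw [h8] at hdvd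
  -- the partition
  have hcard : ∀ (p : G → Prop) [DecidablePred p],
      Nat.card {a : G // p a} = (Finset.univ.filter p).card := by
    intro p _
    rw [Nat.card_eq_fintype_card, Fintype.card_subtype]
  have hU : (Finset.univ : Finset G).card = 504 := by
    rw [Finset.card_univ, ← Nat.card_eq_fintype_card, h]
  have e1 := Finset.card_filter_add_card_filter_not (s := (Finset.univ : Finset G))
    (fun a : G => a = 1)
  have e2 := Finset.card_filter_add_card_filter_not
    (s := (Finset.univ : Finset G).filter (fun a : G => ¬ a = 1)) (fun a : G => orderOf a = 2)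
  have e3 := Finset.card_filter_add_card_filter_not
    (s := ((Finset.univ : Finset G).filter (fun a : G => ¬ a = 1)).filter
      (fun a : G => ¬ orderOf a = 2)) (fun a : G => orderOf (a ^ 2) = 2)
  have i1 : ((Finset.univ : Finset G).filter (fun a : G => a = 1)).card = 1 := by
    rw [Finset.card_eq_one]
    exact ⟨1, by ext a; simp⟩
  have hsq1 : ∀ a : G, orderOf (a ^ 2) = 2 → ¬ a = 1 ∧ ¬ orderOf a = 2 := by
    intro a h3
    have h3' := (hinv (a ^ 2)).mp h3
    refine ⟨?_, ?_⟩
    · rintro rfl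
      exact h3'.1 (one_pow 2)
    · intro h2
      exact h3'.1 ((hinv a).mp h2).2
  have i2 : (((Finset.univ : Finset G).filter (fun a : G => ¬ a = 1)).filter
      (fun a : G => orderOf a = 2)) = (Finset.univ : Finset G).filter (fun a : G => orderOf a = 2) := by
    ext a
    simp only [Finset.mem_filter, Finset.mem_univ, true_and]
    exact ⟨fun hh => hh.2, fun h2 => ⟨((hinv a).mp h2).1, h2⟩⟩
  have i3 : ((((Finset.univ : Finset G).filter (fun a : G => ¬ a = 1)).filter
      (fun a : G => ¬ orderOf a = 2)).filter (fun a : G => orderOf (a ^ 2) = 2))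
      = (Finset.univ : Finset G).filter (fun a : G => orderOf (a ^ 2) = 2) := by
    ext a
    simp only [Finset.mem_filter, Finset.mem_univ, true_and]
    exact ⟨fun hh => hh.2, fun h3 => ⟨hsq1 a h3, h3⟩⟩
  have i4 : ((((Finset.univ : Finset G).filter (fun a : G => ¬ a = 1)).filter
      (fun a : G => ¬ orderOf a = 2)).filter (fun a : G => ¬ orderOf (a ^ 2) = 2))
      = (Finset.univ : Finset G).filter
        (fun a : G => a ≠ 1 ∧ orderOf a ≠ 2 ∧ orderOf (a ^ 2) ≠ 2) := by
    ext a
    simp only [Finset.mem_filter, Finset.mem_univ, true_and]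
    exact and_assoc
  rw [i2] at e2
  rw [i3, i4] at e3
  have hI := hcard (fun a : G => orderOf a = 2)
  have hS := hcard (fun a : G => orderOf (a ^ 2) = 2)
  have hYc : Nat.card ↥({a : G | a ≠ 1 ∧ orderOf a ≠ 2 ∧ orderOf (a ^ 2) ≠ 2} : Set G)
      = ((Finset.univ : Finset G).filter
        (fun a : G => a ≠ 1 ∧ orderOf a ≠ 2 ∧ orderOf (a ^ 2) ≠ 2)).card := by
    rw [Set.coe_setOf]
    exact hcard (fun a : G => a ≠ 1 ∧ orderOf a ≠ 2 ∧ orderOf (a ^ 2) ≠ 2)
  haveI : Nonempty {b : G // b ^ 2 = t} := ⟨⟨v, hv⟩⟩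
  have hk1 : 0 < Nat.card {b : G // b ^ 2 = t} := Nat.card_pos
  have hnI : Nat.card {u : G // orderOf u = 2} = 63 := by omega
  rw [hnI] at hC2
  obtain ⟨m, hm⟩ := hdvd
  omega

end Cfsg.Agent.Helper21.O504D2
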