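import Mathlib
import Cfsg.Agent.Helper21.O504D2

set_option autoImplicit false

namespace Cfsg.Agent.Helper21.O504D1

/-- nonabelian groups of order 8: centre of order 2, squares in the centre, some square root
of the central involution. -/
theorem grp8 {T : Type*} [Group T] [Finite T] (hT : Nat.card T = 8)
    (hna : ¬ ∀ a b : T, a * b = b * a) (z : T) (hz : ∀ x : T, x * z = z * x) (hz1 : z ≠ 1) :
    (∀ c : T, (∀ x : T, x * c = c * x) → c = 1 ∨ c = z) ∧ (∀ g : T, g ^ 2 = 1 ∨ g ^ 2 = z) ∧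
      ∃ v : T, v ^ 2 = z := by
  classical
  have hzZ : z ∈ Subgroup.center T := Subgroup.mem_center_iff.mpr hz
  have hZne8 : Nat.card ↥(Subgroup.center T) ≠ 8 := by
    intro h8
    apply hna
    have htop : Subgroup.center T = ⊤ := Subgroup.eq_top_of_card_eq _ (by rw [h8, hT])
    intro a b
    have hb : b ∈ Subgroup.center T := by rw [htop]; trivial
    exact Subgroup.mem_center_iff.mp hb a
  have hZne1 : Nat.card ↥(Subgroup.center T) ≠ 1 := by
    intro h1
    have hbot : Subgroup.center T = ⊥ := Subgroup.eq_bot_of_card_eq _ h1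
    rw [hbot, Subgroup.mem_bot] at hzZ
    exact hz1 hzZ
  have hq := Subgroup.card_eq_card_quotient_mul_card_subgroup (Subgroup.center T)
  rw [hT] at hq
  have hncyc : ¬ IsCyclic (T ⧸ Subgroup.center T) := by
    intro hc
    haveI := hc
    exact hna (fun a b => commutative_of_cyclic_center_quotient
      (QuotientGroup.mk' (Subgroup.center T)) (by rw [QuotientGroup.ker_mk']) a b)
  have hZdvd : Nat.card ↥(Subgroup.center T) ∣ 8 := by
    rw [← hT]; exact Subgroup.card_subgroup_dvd_card _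
  obtain ⟨c, hc⟩ : ∃ c, c = Nat.card ↥(Subgroup.center T) := ⟨_, rfl⟩
  obtain ⟨q, hq'⟩ : ∃ q, q = Nat.card (T ⧸ Subgroup.center T) := ⟨_, rfl⟩
  rw [← hc] at hZne8 hZne1 hZdvd hq
  rw [← hq'] at hq
  have hc8 : c ≤ 8 := Nat.le_of_dvd (by norm_num) hZdvd
  have hcq : c = 2 ∧ q = 4 := by
    interval_cases c
    · omega
    · omega
    · omega
    · omega
    · exfalso
      have hq2 : q = 2 := by omega
      haveI : Fact (Nat.Prime 2) := ⟨Nat.prime_two⟩
      exact hncyc (isCyclic_of_prime_card (p := 2) (hq2 ▸ hq'.symm))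
    · omega
    · omega
    · omega
    · omega
  obtain ⟨hc2, hq4⟩ := hcq
  have hcen : ∀ c' : T, (∀ x : T, x * c' = c' * x) → c' = 1 ∨ c' = z := by
    intro c' hc'
    by_cases h1 : c' = 1
    · exact Or.inl h1
    · right
      have hc'Z : c' ∈ Subgroup.center T := Subgroup.mem_center_iff.mpr hc'
      have h2 : Nat.card ↥(Subgroup.center T) = 2 := by rw [← hc, hc2]
      obtain ⟨y, _, hy⟩ := (Nat.card_eq_two_iff' (1 : ↥(Subgroup.center T))).mp h2
      have e1 : (⟨c', hc'Z⟩ : ↥(Subgroup.center T)) = y :=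
        hy _ (fun hh => h1 (congrArg Subtype.val hh))
      have e2 : (⟨z, hzZ⟩ : ↥(Subgroup.center T)) = y :=
        hy _ (fun hh => hz1 (congrArg Subtype.val hh))
      exact congrArg Subtype.val (e1.trans e2.symm)
  have hsq : ∀ g : T, g ^ 2 = 1 ∨ g ^ 2 = z := by
    intro g
    apply hcen
    have hgZ : g ^ 2 ∈ Subgroup.center T := by
      rw [← QuotientGroup.eq_one_iff, QuotientGroup.mk_pow]
      have hdvd : orderOf (g : T ⧸ Subgroup.center T) ∣ 4 := by
        have := orderOf_dvd_natCard (g : T ⧸ Subgroup.center T)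
        rwa [← hq', hq4] at this
      have hne4 : orderOf (g : T ⧸ Subgroup.center T) ≠ 4 := by
        intro h4
        exact hncyc (isCyclic_of_orderOf_eq_card (g : T ⧸ Subgroup.center T)
          (by rw [h4, ← hq', hq4]))
      obtain ⟨o, ho⟩ : ∃ o, o = orderOf (g : T ⧸ Subgroup.center T) := ⟨_, rfl⟩
      rw [← ho] at hdvd hne4
      have ho4 : o ≤ 4 := Nat.le_of_dvd (by norm_num) hdvd
      have ho2 : o ∣ 2 := by
        interval_cases o
        · omega
        · exact one_dvd 2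
        · exact dvd_refl 2
        · omega
        · omega
      rw [ho] at ho2
      exact orderOf_dvd_iff_pow_eq_one.mp ho2
    exact fun x => Subgroup.mem_center_iff.mp hgZ x
  refine ⟨hcen, hsq, ?_⟩
  by_contra hno
  apply hna
  have h2 : ∀ g : T, g ^ 2 = 1 := by
    intro g
    rcases hsq g with h | h
    · exact h
    · exact absurd ⟨g, h⟩ hno
  intro a b
  have hab : a * b * (a * b) = 1 := by rw [← pow_two]; exact h2 _
  have haa : a * a = 1 := by rw [← pow_two]; exact h2 _
  have hbb : b * b = 1 := by rw [← pow_two]; exact h2 _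
  calc a * b = a * (a * b * (a * b)) * b := by rw [hab, mul_one]
    _ = (a * a) * (b * a) * (b * b) := by group
    _ = b * a := by rw [haa, hbb, one_mul, mul_one]

variable {G : Type*} [Group G] [Finite G] [IsSimpleGroup G]

theorem nonab_facts (h : Nat.card G = 504) (hcen : ∀ u : G, orderOf u = 2 → ∃ T : Sylow 2 G, (T : Subgroup G) ≤ Subgroup.centralizer ({u} : Set G)) (t : G) (ht : orderOf t = 2) (T₀ : Sylow 2 G) (hT₀ : Subgroup.centralizer ({t} : Set G) = (T₀ : Subgroup G)) (hna : ¬ ∀ a ∈ (T₀ : Subgroup G), ∀ b ∈ (T₀ : Subgroup G), a * b = b * a) : (∀ u : G, orderOf u = 2 → ∃ g : G, g * t * g⁻¹ = u) ∧ (∀ g ∈ (T₀ : Subgroup G), g ^ 2 = 1 ∨ g ^ 2 = t) ∧ ∃ v : G, v ^ 2 = t := by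
  have h8 := Cfsg.Agent.Helper21.O504D2.card_syl2 h T₀
  have hmem : ∀ a : G, a ∈ (T₀ : Subgroup G) ↔ t * a = a * t := by
    intro a
    rw [← hT₀, Subgroup.mem_centralizer_iff]
    simp only [Set.mem_singleton_iff, forall_eq]
  have htT : t ∈ (T₀ : Subgroup G) := (hmem t).mpr rfl
  have ht1 : t ≠ 1 := by
    rintro rfl
    rw [orderOf_one] at ht
    exact absurd ht (by norm_num)
  have hna' : ¬ ∀ a b : ↥(T₀ : Subgroup G), a * b = b * a := by
    intro hh
    apply hna
    intro a ha b hb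
    exact congrArg Subtype.val (hh ⟨a, ha⟩ ⟨b, hb⟩)
  have hz : ∀ x : ↥(T₀ : Subgroup G), x * (⟨t, htT⟩ : ↥(T₀ : Subgroup G)) = ⟨t, htT⟩ * x := by
    intro x
    apply Subtype.ext
    exact ((hmem x).mp x.2).symm
  have hz1 : (⟨t, htT⟩ : ↥(T₀ : Subgroup G)) ≠ 1 := fun hh => ht1 (congrArg Subtype.val hh)
  obtain ⟨hcenT, hsqT, v, hv⟩ := grp8 h8 hna' ⟨t, htT⟩ hz hz1
  refine ⟨?_, ?_, ⟨(v : G), congrArg Subtype.val hv⟩⟩
  · intro u hu
    obtain ⟨T', hT'⟩ := hcen u hu
    obtain ⟨g, hg⟩ := MulAction.exists_smul_eq G T₀ T'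
    have hconjmem : ∀ c ∈ (T₀ : Subgroup G), g * c * g⁻¹ ∈ (T' : Subgroup G) := by
      intro c hc
      rw [← hg]
      exact Subgroup.smul_mem_pointwise_smul c (MulAut.conj g) (T₀ : Subgroup G) hc
    -- u' = g⁻¹ u g commutes with all of T₀
    have hu' : ∀ c ∈ (T₀ : Subgroup G), c * (g⁻¹ * u * g) = (g⁻¹ * u * g) * c := by
      intro c hc
      have h1 := hT' (hconjmem c hc)
      rw [Subgroup.mem_centralizer_iff] at h1
      have h2 : u * (g * c * g⁻¹) = g * c * g⁻¹ * u := h1 u rfl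
      have e1 : c * (g⁻¹ * u * g) = g⁻¹ * (g * c * g⁻¹ * u) * g := by group
      rw [e1, ← h2]; group
    have hu'T : g⁻¹ * u * g ∈ (T₀ : Subgroup G) := (hmem _).mpr (hu' t htT)
    have hcase := hcenT ⟨g⁻¹ * u * g, hu'T⟩ (fun x => Subtype.ext (hu' x x.2))
    have hu1 : u ≠ 1 := by
      rintro rfl
      rw [orderOf_one] at hu
      exact absurd hu (by norm_num)
    rcases hcase with h1 | h1
    · exfalso
      apply hu1
      have h1' : g⁻¹ * u * g = 1 := congrArg Subtype.val h1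
      have e : u = g * (g⁻¹ * u * g) * g⁻¹ := by group
      rw [e, h1']; group
    · have h1' : g⁻¹ * u * g = t := congrArg Subtype.val h1
      refine ⟨g, ?_⟩
      rw [← h1']; group
  · intro g hg
    rcases hsqT ⟨g, hg⟩ with h1 | h1
    · left; exact congrArg Subtype.val h1
    · right; exact congrArg Subtype.val h1

end Cfsg.Agent.Helper21.O504D1
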