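import Mathlib
import Cfsg.Agent.Helper21.O504D2

set_option autoImplicit false

namespace Cfsg.Agent.Helper21.O504E1

variable {G : Type*} [Group G] [Finite G] [IsSimpleGroup G]

open scoped IsMulCommutative in
theorem no_central_elt (h : Nat.card G = 504) (T : Sylow 2 G) (hab : ∀ a ∈ (T : Subgroup G), ∀ b ∈ (T : Subgroup G), a * b = b * a) (a : G) (haT : a ∈ (T : Subgroup G)) (ha1 : a ≠ 1) (hcen : ∀ n ∈ Subgroup.normalizer ((T : Subgroup G) : Set G), n * a = a * n) : False := by
  haveI : IsMulCommutative ↥(T : Subgroup G) :=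
    ⟨⟨fun x y => Subtype.ext (hab x x.2 y y.2)⟩⟩
  have h8 := Cfsg.Agent.Helper21.O504D2.card_syl2 h T
  have key : ∀ (k : ℕ) (g₀ : G), g₀⁻¹ * a ^ k * g₀ ∈ (T : Subgroup G) →
      g₀⁻¹ * a ^ k * g₀ = a ^ k := by
    intro k g₀ hk
    obtain ⟨n, hn, hn2⟩ := T.conj_eq_normalizer_conj_of_mem (a ^ k) g₀
      ((T : Subgroup G).pow_mem haT k) hk
    rw [hn2]
    have hc : n * a ^ k = a ^ k * n := ((show Commute n a from hcen n hn).pow_right k).eq
    rw [mul_assoc, ← hc, ← mul_assoc, inv_mul_cancel, one_mul]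
  have h1 := MonoidHom.transfer_eq_pow (MonoidHom.id ↥(T : Subgroup G)) a key
  have hidx : (T : Subgroup G).index = 63 := by
    have hmul := Subgroup.card_mul_index (T : Subgroup G)
    rw [h8, h] at hmul
    omega
  have hne : MonoidHom.transfer (MonoidHom.id ↥(T : Subgroup G)) a ≠ 1 := by
    rw [h1]
    intro h2
    have h3 : a ^ (T : Subgroup G).index = 1 := congrArg Subtype.val h2
    rw [hidx] at h3
    have h4 : a ^ 8 = 1 := by
      have h5 : (⟨a, haT⟩ : ↥(T : Subgroup G)) ^ Nat.card ↥(T : Subgroup G) = 1 :=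
        pow_card_eq_one'
      rw [h8] at h5
      exact congrArg Subtype.val h5
    apply ha1
    have h6 : a ^ 64 = 1 := by
      have e : a ^ 64 = (a ^ 8) ^ 8 := by rw [← pow_mul]
      rw [e, h4, one_pow]
    have h7 : a ^ 64 = a ^ 63 * a := pow_succ a 63
    rw [h6, h3, one_mul] at h7
    exact h7.symm
  rcases (MonoidHom.normal_ker
    (MonoidHom.transfer (MonoidHom.id ↥(T : Subgroup G)))).eq_bot_or_eq_top with hb | htop
  · have hinj : Function.Injective (MonoidHom.transfer (MonoidHom.id ↥(T : Subgroup G))) :=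
      (MonoidHom.ker_eq_bot_iff _).mp hb
    have hle := Nat.card_le_card_of_injective _ hinj
    rw [h, h8] at hle
    omega
  · apply hne
    have hmem : a ∈ (MonoidHom.transfer (MonoidHom.id ↥(T : Subgroup G))).ker := by
      rw [htop]; trivial
    exact MonoidHom.mem_ker.mp hmem

end Cfsg.Agent.Helper21.O504E1
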