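import Mathlib
import Cfsg.Agent.Helper21.O504D2

set_option autoImplicit false

namespace Cfsg.Agent.Helper21.O504G

variable {G : Type*} [Group G] [Finite G] [IsSimpleGroup G]

theorem sylow2_card (h : Nat.card G = 504) (T : Sylow 2 G) : Nat.card ↥(T : Subgroup G) = 8 :=
  Cfsg.Agent.Helper21.O504D2.card_syl2 h T

theorem cent_eq_sylow (h : Nat.card G = 504) (t : G) (T₀ : Sylow 2 G) (hle : (T₀ : Subgroup G) ≤ Subgroup.centralizer ({t} : Set G)) (h12 : Nat.card ↥(Subgroup.centralizer ({t} : Set G)) ≤ 12) : Subgroup.centralizer ({t} : Set G) = (T₀ : Subgroup G) := by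
  have h8 := sylow2_card h T₀
  have hdvd : Nat.card ↥(T₀ : Subgroup G) ∣ Nat.card ↥(Subgroup.centralizer ({t} : Set G)) :=
    Subgroup.card_dvd_of_le hle
  rw [h8] at hdvd
  have hpos : 0 < Nat.card ↥(Subgroup.centralizer ({t} : Set G)) := Nat.card_pos
  have hc8 : Nat.card ↥(Subgroup.centralizer ({t} : Set G)) = 8 := by
    obtain ⟨m, hm⟩ := hdvd
    omega
  exact (Subgroup.eq_of_le_of_card_ge hle (by rw [h8, hc8])).symm

theorem not_cyclic (h : Nat.card G = 504) (T₀ : Sylow 2 G) (hexp : ∀ c ∈ (T₀ : Subgroup G), c ^ 2 = 1) : ¬ IsCyclic ↥(T₀ : Subgroup G) := by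
  intro hcyc
  haveI := hcyc
  obtain ⟨g, hg⟩ := IsCyclic.exists_ofOrder_eq_natCard (α := ↥(T₀ : Subgroup G))
  rw [sylow2_card h T₀] at hg
  have h2 : g ^ 2 = 1 := by
    apply Subtype.ext
    rw [Subgroup.coe_pow, Subgroup.coe_one]
    exact hexp g g.2
  have h3 := orderOf_dvd_of_pow_eq_one h2
  rw [hg] at h3
  norm_num at h3

theorem not_normal (h : Nat.card G = 504) (T₀ : Sylow 2 G) : ¬ (T₀ : Subgroup G).Normal := by
  intro hn
  have h8 := sylow2_card h T₀
  rcases hn.eq_bot_or_eq_top with hb | htop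
  · rw [hb] at h8
    simp at h8
  · rw [htop, Subgroup.card_top, h] at h8
    norm_num at h8

end Cfsg.Agent.Helper21.O504G
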