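import Mathlib

set_option autoImplicit false

namespace Cfsg.Agent.Helper21.S4172f

/-- a central `p`-element of a perfect group lies in the derived subgroup of every Sylow
`p`-subgroup containing it (transfer into the abelianization of the Sylow subgroup). -/
theorem central_mem_commutator {E : Type*} [Group E] [Finite E] (p : ℕ) [Fact p.Prime] (hperf : ∀ x : E, x ∈ commutator E) (R : Sylow p E) (z : E) (hz : z ∈ Subgroup.center E) (hzR : z ∈ (R : Subgroup E)) : z ∈ ⁅(R : Subgroup E), (R : Subgroup E)⁆ := by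
  classical
  have hp : p.Prime := Fact.out
  have key : ∀ (k : ℕ) (g₀ : E), g₀⁻¹ * z ^ k * g₀ ∈ (R : Subgroup E) →
      g₀⁻¹ * z ^ k * g₀ = z ^ k := by
    intro k g₀ _
    have hc : g₀ * z ^ k = z ^ k * g₀ :=
      (Subgroup.mem_center_iff.mp ((Subgroup.center E).pow_mem hz k)) g₀
    rw [mul_assoc, ← hc, ← mul_assoc, inv_mul_cancel, one_mul]
  have h1 := MonoidHom.transfer_eq_pow
    (Abelianization.of : ↥(R : Subgroup E) →* Abelianization ↥(R : Subgroup E)) z key
  have h2 : MonoidHom.transfer
      (Abelianization.of : ↥(R : Subgroup E) →* Abelianization ↥(R : Subgroup E)) z = 1 := by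
    have hle : commutator E ≤ (MonoidHom.transfer
        (Abelianization.of : ↥(R : Subgroup E) →* Abelianization ↥(R : Subgroup E))).ker :=
      Abelianization.commutator_subset_ker _
    exact MonoidHom.mem_ker.mp (hle (hperf z))
  rw [h2] at h1
  have h3 : (⟨z ^ (R : Subgroup E).index, MonoidHom.transfer_eq_pow_aux z key⟩ :
      ↥(R : Subgroup E)) ∈ commutator ↥(R : Subgroup E) := by
    rw [← Abelianization.ker_of, MonoidHom.mem_ker]
    exact h1.symm
  have h4 : z ^ (R : Subgroup E).index ∈ ⁅(R : Subgroup E), (R : Subgroup E)⁆ := by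
    have h5 : (commutator ↥(R : Subgroup E)).map (R : Subgroup E).subtype =
        ⁅(R : Subgroup E), (R : Subgroup E)⁆ := by
      rw [commutator_def, Subgroup.map_commutator, ← MonoidHom.range_eq_map,
        Subgroup.range_subtype]
    rw [← h5]
    exact ⟨_, h3, rfl⟩
  obtain ⟨k, hk⟩ := (IsPGroup.iff_orderOf.mp R.isPGroup') ⟨z, hzR⟩
  rw [Subgroup.orderOf_mk] at hk
  have hcop : Nat.Coprime (R : Subgroup E).index (orderOf z) := by
    rw [hk]
    exact (Nat.Coprime.pow_left k ((Nat.Prime.coprime_iff_not_dvd hp).mpr R.not_dvd_index)).symm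
  obtain ⟨a, ha⟩ := exists_pow_eq_self_of_coprime hcop
  rw [← ha]
  exact Subgroup.pow_mem _ h4 a

end Cfsg.Agent.Helper21.S4172f
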